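import Mathlib
import Cfsg.Prelude.Def_Transfer
import Cfsg.Agent.Helper21.BaerSuzuki

set_option autoImplicit false
set_option linter.style.haveILetI false

namespace Cfsg.Agent.Helper21

/-- A `p`-element is conjugate into any given Sylow `p`-subgroup. -/
theorem exists_conj_mem_sylow {G : Type*} [Group G] [Finite G] {p : ℕ} [Fact p.Prime]
    (P : Sylow p G) (g : G) (hg : ∃ k : ℕ, orderOf g = p ^ k) :
    ∃ h : G, h * g * h⁻¹ ∈ (P : Subgroup G) := by
  obtain ⟨k, hk⟩ := hg
  have h1 : IsPGroup p (Subgroup.zpowers g) := IsPGroup.of_card (by rw [Nat.card_zpowers, hk])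
  obtain ⟨Q, hQ⟩ := h1.exists_le_sylow
  obtain ⟨h, rfl⟩ := MulAction.exists_smul_eq G Q P
  refine ⟨h, ?_⟩
  rw [bs_mem_sylow_smul]
  have : h⁻¹ * (h * g * h⁻¹) * h = g := by group
  rw [this]
  exact hQ (Subgroup.mem_zpowers g)

/-- Burnside counting for the action of `N_G(P)` on a Sylow `p`-subgroup `P`: a bound for the
number of classes of `p`-elements. -/
theorem pclasses_mul_le {G : Type*} [Group G] [Finite G] {p : ℕ} [hp : Fact p.Prime]
    (P : Sylow p G) :
    p * (Nat.card {c : ConjClasses G // ∀ x ∈ c.carrier, ∃ k : ℕ, orderOf x = p ^ k}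
        * Nat.card (Subgroup.normalizer ((P : Subgroup G) : Set G)))
      ≤ Nat.card (P : Subgroup G)
        * ((p - 1) * Nat.card (Subgroup.centralizer ((P : Subgroup G) : Set G))
          + Nat.card (Subgroup.normalizer ((P : Subgroup G) : Set G))) := by
  classical
  letI act : MulAction ↥(Subgroup.normalizer ((P : Subgroup G) : Set G)) ↥(P : Subgroup G) :=
    { smul := fun n x => ⟨(n : G) * x * (n : G)⁻¹, (Subgroup.mem_normalizer_iff.mp n.2 x).mp x.2⟩
      one_smul := fun x => Subtype.ext (by
        show ((1 : ↥(Subgroup.normalizer ((P : Subgroup G) : Set G))) : G) * x *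
          ((1 : ↥(Subgroup.normalizer ((P : Subgroup G) : Set G))) : G)⁻¹ = x
        simp)
      mul_smul := fun a b x => Subtype.ext (by
        show ((a * b : ↥(Subgroup.normalizer ((P : Subgroup G) : Set G))) : G) * x *
          ((a * b : ↥(Subgroup.normalizer ((P : Subgroup G) : Set G))) : G)⁻¹
            = (a : G) * ((b : G) * x * (b : G)⁻¹) * (a : G)⁻¹
        simp [mul_assoc]) }
  have hsmul : ∀ (w : ↥(Subgroup.normalizer ((P : Subgroup G) : Set G))) (x : ↥(P : Subgroup G)),
      ((w • x : ↥(P : Subgroup G)) : G) = (w : G) * x * (w : G)⁻¹ := fun _ _ => rfl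
  letI : Fintype ↥(Subgroup.normalizer ((P : Subgroup G) : Set G)) := Fintype.ofFinite _
  letI : Fintype (Quotient (MulAction.orbitRel
      ↥(Subgroup.normalizer ((P : Subgroup G) : Set G)) ↥(P : Subgroup G))) := Fintype.ofFinite _
  letI : ∀ w : ↥(Subgroup.normalizer ((P : Subgroup G) : Set G)),
      Fintype (MulAction.fixedBy ↥(P : Subgroup G) w) := fun w => Fintype.ofFinite _
  have key : ∀ A : ℕ, p * A = A + (p - 1) * A := by
    intro A
    obtain ⟨q, hq⟩ : ∃ q, p = q + 1 := ⟨p - 1, by have := hp.out.pos; omega⟩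
    rw [hq, Nat.add_sub_cancel]; ring
  have hB := MulAction.sum_card_fixedBy_eq_card_orbits_mul_card_group
    ↥(Subgroup.normalizer ((P : Subgroup G) : Set G)) ↥(P : Subgroup G)
  -- classes of `p`-elements inject into the orbits
  have hK : Nat.card {c : ConjClasses G // ∀ x ∈ c.carrier, ∃ k : ℕ, orderOf x = p ^ k}
      ≤ Fintype.card (Quotient (MulAction.orbitRel
        ↥(Subgroup.normalizer ((P : Subgroup G) : Set G)) ↥(P : Subgroup G))) := by
    rw [← Nat.card_eq_fintype_card]
    have hrep : ∀ c : {c : ConjClasses G // ∀ x ∈ c.carrier, ∃ k : ℕ, orderOf x = p ^ k},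
        ∃ x : ↥(P : Subgroup G), ConjClasses.mk (x : G) = c.1 := by
      intro c
      obtain ⟨g, hg⟩ := ConjClasses.mk_surjective c.1
      have hgo := c.2 g (ConjClasses.mem_carrier_iff_mk_eq.mpr hg)
      obtain ⟨h, hh⟩ := exists_conj_mem_sylow P g hgo
      refine ⟨⟨h * g * h⁻¹, hh⟩, ?_⟩
      rw [← hg, ConjClasses.mk_eq_mk_iff_isConj, isConj_iff]
      exact ⟨h⁻¹, by group⟩
    choose rep hrep using hrep
    apply Nat.card_le_card_of_injective (fun c => (Quotient.mk'' (rep c) :
      Quotient (MulAction.orbitRel ↥(Subgroup.normalizer ((P : Subgroup G) : Set G))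
        ↥(P : Subgroup G))))
    intro c d hcd
    have h1 : (MulAction.orbitRel ↥(Subgroup.normalizer ((P : Subgroup G) : Set G))
        ↥(P : Subgroup G)) (rep c) (rep d) := Quotient.exact hcd
    rw [MulAction.orbitRel_apply] at h1
    obtain ⟨w, hw⟩ := h1
    apply Subtype.ext
    rw [← hrep c, ← hrep d, ConjClasses.mk_eq_mk_iff_isConj, isConj_iff]
    refine ⟨(w : G)⁻¹, ?_⟩
    have h2 : ((w • rep d : ↥(P : Subgroup G)) : G) = (rep c : G) := congrArg Subtype.val hw
    rw [hsmul] at h2
    rw [← h2]; group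
  -- fixed points
  have hfix : ∀ w : ↥(Subgroup.normalizer ((P : Subgroup G) : Set G)),
      p * Fintype.card (MulAction.fixedBy ↥(P : Subgroup G) w)
        ≤ Nat.card (P : Subgroup G) + (p - 1) * Nat.card (P : Subgroup G) *
          (if (w : G) ∈ Subgroup.centralizer ((P : Subgroup G) : Set G) then 1 else 0) := by
    intro w
    obtain ⟨F, hF⟩ : ∃ F : Subgroup ↥(P : Subgroup G),
        F = (Subgroup.centralizer ({(w : G)} : Set G)).subgroupOf (P : Subgroup G) := ⟨_, rfl⟩
    have hFeq : MulAction.fixedBy ↥(P : Subgroup G) w = (F : Set ↥(P : Subgroup G)) := by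
      ext x
      rw [MulAction.mem_fixedBy, SetLike.mem_coe, hF, Subgroup.mem_subgroupOf,
        Subgroup.mem_centralizer_iff]
      constructor
      · intro h y hy
        rw [Set.mem_singleton_iff] at hy
        have h2 : ((w • x : ↥(P : Subgroup G)) : G) = (x : G) := congrArg Subtype.val h
        rw [hsmul] at h2
        rw [hy]
        exact mul_inv_eq_iff_eq_mul.mp h2
      · intro h
        apply Subtype.ext
        rw [hsmul]
        have h2 := h (w : G) (Set.mem_singleton _)
        rw [h2, mul_inv_cancel_right]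
    have hcardF : Fintype.card (MulAction.fixedBy ↥(P : Subgroup G) w) = Nat.card F := by
      rw [← Nat.card_eq_fintype_card, hFeq]; rfl
    rw [hcardF]
    have hp1 : 1 ≤ p := hp.out.pos
    by_cases hw : (w : G) ∈ Subgroup.centralizer ((P : Subgroup G) : Set G)
    · rw [if_pos hw, mul_one]
      have h1 : Nat.card F ≤ Nat.card (P : Subgroup G) := Subgroup.card_le_card_group F
      calc p * Nat.card F ≤ p * Nat.card (P : Subgroup G) := Nat.mul_le_mul_left _ h1
        _ = Nat.card (P : Subgroup G) + (p - 1) * Nat.card (P : Subgroup G) := key _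
    · rw [if_neg hw, mul_zero, add_zero]
      have hFne : F ≠ ⊤ := by
        intro h
        apply hw
        rw [Subgroup.mem_centralizer_iff]
        intro y hy
        have h2 : (⟨y, hy⟩ : ↥(P : Subgroup G)) ∈ F := by rw [h]; exact Subgroup.mem_top _
        rw [hF, Subgroup.mem_subgroupOf, Subgroup.mem_centralizer_iff] at h2
        exact (h2 (w : G) (Set.mem_singleton _)).symm
      have h1 := Subgroup.card_mul_index F
      have h2 : p ∣ F.index := by
        have h3 : F.index ∣ Nat.card (P : Subgroup G) := Subgroup.index_dvd_card F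
        rw [P.card_eq_multiplicity] at h3
        obtain ⟨j, -, hj⟩ := (Nat.dvd_prime_pow hp.out).mp h3
        have hj0 : j ≠ 0 := by
          rintro rfl
          rw [pow_zero, Subgroup.index_eq_one] at hj
          exact hFne hj
        rw [hj]; exact dvd_pow_self p hj0
      have h4 : p ≤ F.index :=
        Nat.le_of_dvd (Nat.pos_of_ne_zero Subgroup.index_ne_zero_of_finite) h2
      calc p * Nat.card F ≤ F.index * Nat.card F := Nat.mul_le_mul_right _ h4
        _ = Nat.card (P : Subgroup G) := by rw [mul_comm]; exact h1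
  have hCN : Subgroup.centralizer ((P : Subgroup G) : Set G)
      ≤ Subgroup.normalizer ((P : Subgroup G) : Set G) := Subgroup.centralizer_le_normalizer _
  have hfilter : (Finset.univ.filter fun w : ↥(Subgroup.normalizer ((P : Subgroup G) : Set G)) =>
      (w : G) ∈ Subgroup.centralizer ((P : Subgroup G) : Set G)).card
        = Nat.card (Subgroup.centralizer ((P : Subgroup G) : Set G)) := by
    have e1 : Nat.card (Subgroup.centralizer ((P : Subgroup G) : Set G))
        = Nat.card ((Subgroup.centralizer ((P : Subgroup G) : Set G)).subgroupOf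
          (Subgroup.normalizer ((P : Subgroup G) : Set G))) :=
      (Nat.card_congr (Subgroup.subgroupOfEquivOfLe hCN).toEquiv).symm
    rw [e1, Nat.card_eq_fintype_card]
    exact (Fintype.card_subtype (fun w : ↥(Subgroup.normalizer ((P : Subgroup G) : Set G)) =>
      (w : G) ∈ Subgroup.centralizer ((P : Subgroup G) : Set G))).symm
  have hsum : p * (∑ w : ↥(Subgroup.normalizer ((P : Subgroup G) : Set G)),
      Fintype.card (MulAction.fixedBy ↥(P : Subgroup G) w))
        ≤ Nat.card (Subgroup.normalizer ((P : Subgroup G) : Set G)) * Nat.card (P : Subgroup G)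
          + (p - 1) * Nat.card (P : Subgroup G)
            * Nat.card (Subgroup.centralizer ((P : Subgroup G) : Set G)) := by
    rw [Finset.mul_sum]
    calc ∑ w : ↥(Subgroup.normalizer ((P : Subgroup G) : Set G)),
          p * Fintype.card (MulAction.fixedBy ↥(P : Subgroup G) w)
        ≤ ∑ w : ↥(Subgroup.normalizer ((P : Subgroup G) : Set G)),
            (Nat.card (P : Subgroup G) + (p - 1) * Nat.card (P : Subgroup G) *
              (if (w : G) ∈ Subgroup.centralizer ((P : Subgroup G) : Set G) then 1 else 0)) :=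
          Finset.sum_le_sum (fun w _ => hfix w)
      _ = Nat.card (Subgroup.normalizer ((P : Subgroup G) : Set G)) * Nat.card (P : Subgroup G)
          + (p - 1) * Nat.card (P : Subgroup G)
            * Nat.card (Subgroup.centralizer ((P : Subgroup G) : Set G)) := by
          rw [Finset.sum_add_distrib, Finset.sum_const, Finset.card_univ, ← Finset.mul_sum,
            Finset.sum_boole, smul_eq_mul, Nat.cast_id, hfilter,
            Nat.card_eq_fintype_card (α := ↥(Subgroup.normalizer ((P : Subgroup G) : Set G)))]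
  calc p * (Nat.card {c : ConjClasses G // ∀ x ∈ c.carrier, ∃ k : ℕ, orderOf x = p ^ k}
        * Nat.card (Subgroup.normalizer ((P : Subgroup G) : Set G)))
      ≤ p * (Fintype.card (Quotient (MulAction.orbitRel
          ↥(Subgroup.normalizer ((P : Subgroup G) : Set G)) ↥(P : Subgroup G)))
          * Fintype.card ↥(Subgroup.normalizer ((P : Subgroup G) : Set G))) := by
        rw [Nat.card_eq_fintype_card (α := ↥(Subgroup.normalizer ((P : Subgroup G) : Set G)))]
        exact Nat.mul_le_mul_left _ (Nat.mul_le_mul_right _ hK)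
    _ = p * (∑ w : ↥(Subgroup.normalizer ((P : Subgroup G) : Set G)),
          Fintype.card (MulAction.fixedBy ↥(P : Subgroup G) w)) := by rw [hB]
    _ ≤ _ := hsum
    _ = _ := by ring

/-- With a normal `p`-complement and an abelian Sylow `p`-subgroup `P`, distinct elements of `P`
lie in distinct classes. -/
theorem card_le_pclasses_of_complement {G : Type*} [Group G] [Finite G] {p : ℕ}
    [hp : Fact p.Prime] (P : Sylow p G) (hc : Cfsg.HasNormalPComplement p G)
    (hab : IsMulCommutative ↥(P : Subgroup G)) :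
    Nat.card (P : Subgroup G)
      ≤ Nat.card {c : ConjClasses G // ∀ x ∈ c.carrier, ∃ k : ℕ, orderOf x = p ^ k} := by
  obtain ⟨P', M, hMn, hcomp⟩ := hc
  have hcardM : Nat.card M * Nat.card (P' : Subgroup G) = Nat.card G := hcomp.card_mul_card
  have hPP' : Nat.card (P' : Subgroup G) = Nat.card (P : Subgroup G) := by
    rw [P'.card_eq_multiplicity, P.card_eq_multiplicity]
  have hpM : ¬ p ∣ Nat.card M := by
    have h1 := P'.not_dvd_index
    have h2 := Subgroup.card_mul_index (P' : Subgroup G)
    have h3 : Nat.card M = (P' : Subgroup G).index := by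
      have : Nat.card M * Nat.card (P' : Subgroup G)
          = (P' : Subgroup G).index * Nat.card (P' : Subgroup G) := by
        rw [hcardM, ← h2, mul_comm]
      exact Nat.eq_of_mul_eq_mul_right Nat.card_pos this
    rwa [h3]
  have hMP : M ⊓ (P : Subgroup G) = ⊥ := by
    apply Disjoint.eq_bot
    apply Subgroup.disjoint_of_coprime_natCard
    rw [P.card_eq_multiplicity]
    exact Nat.Coprime.pow_right _
      (Nat.coprime_comm.mp ((Nat.Prime.coprime_iff_not_dvd hp.out).mpr hpM))
  let f : ↥(P : Subgroup G) →* G ⧸ M := (QuotientGroup.mk' M).comp (P : Subgroup G).subtype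
  have hfinj : Function.Injective f := by
    rw [injective_iff_map_eq_one]
    intro x hx
    have h1 : (x : G) ∈ M := (QuotientGroup.eq_one_iff _).mp hx
    have h2 : (x : G) ∈ M ⊓ (P : Subgroup G) := ⟨h1, x.2⟩
    rw [hMP, Subgroup.mem_bot] at h2
    exact Subtype.ext h2
  have hfsurj : Function.Surjective f := by
    apply (hfinj.bijective_of_nat_card_le _).2
    rw [← Subgroup.index_eq_card]
    have h2 := Subgroup.card_mul_index M
    have : Nat.card M * M.index = Nat.card M * Nat.card (P : Subgroup G) := by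
      rw [h2, ← hPP', hcardM]
    exact (Nat.eq_of_mul_eq_mul_left Nat.card_pos this).le
  have hrep : ∀ x : ↥(P : Subgroup G), ∀ z ∈ (ConjClasses.mk (x : G)).carrier,
      ∃ k : ℕ, orderOf z = p ^ k := by
    intro x z hz
    rw [ConjClasses.mem_carrier_iff_mk_eq, ConjClasses.mk_eq_mk_iff_isConj, isConj_iff] at hz
    obtain ⟨c, hc⟩ := hz
    have h1 : orderOf (x : G) = orderOf z := by
      rw [← hc]; exact (MulAut.conj c).orderOf_eq z
    obtain ⟨k, hk⟩ := P.isPGroup' x
    have h2 : (x : G) ^ p ^ k = 1 := by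
      have := congrArg Subtype.val hk
      simpa using this
    obtain ⟨j, -, hj⟩ := (Nat.dvd_prime_pow hp.out).mp (orderOf_dvd_of_pow_eq_one h2)
    exact ⟨j, by rw [← h1, hj]⟩
  apply Nat.card_le_card_of_injective (fun x : ↥(P : Subgroup G) =>
    (⟨ConjClasses.mk (x : G), hrep x⟩ :
      {c : ConjClasses G // ∀ x ∈ c.carrier, ∃ k : ℕ, orderOf x = p ^ k}))
  intro x y hxy
  have h1 : ConjClasses.mk (x : G) = ConjClasses.mk (y : G) := congrArg Subtype.val hxy
  rw [ConjClasses.mk_eq_mk_iff_isConj, isConj_iff] at h1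
  obtain ⟨g, hg⟩ := h1
  obtain ⟨u, hu⟩ := hfsurj (QuotientGroup.mk' M g)
  have hu' : QuotientGroup.mk' M (u : G) = QuotientGroup.mk' M g := hu
  have hn : g * (u : G)⁻¹ ∈ M := by
    apply (QuotientGroup.eq_one_iff _).mp
    show QuotientGroup.mk' M (g * (u : G)⁻¹) = 1
    rw [map_mul, map_inv, hu', mul_inv_cancel]
  have hux : (u : G) * x * (u : G)⁻¹ = x := by
    have e : u * x = x * u := hab.is_comm.comm u x
    have e' : (u : G) * x = x * u := congrArg Subtype.val e
    rw [e', mul_inv_cancel_right]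
  have hy : (y : G) = (g * (u : G)⁻¹) * x * (g * (u : G)⁻¹)⁻¹ := by
    calc (y : G) = g * x * g⁻¹ := hg.symm
      _ = (g * (u : G)⁻¹) * ((u : G) * x * (u : G)⁻¹) * (g * (u : G)⁻¹)⁻¹ := by group
      _ = (g * (u : G)⁻¹) * x * (g * (u : G)⁻¹)⁻¹ := by rw [hux]
  have h2 : (y : G) * (x : G)⁻¹ ∈ M := by
    rw [hy]
    have e : (g * (u : G)⁻¹) * x * (g * (u : G)⁻¹)⁻¹ * (x : G)⁻¹
        = (g * (u : G)⁻¹) * ((x : G) * (g * (u : G)⁻¹)⁻¹ * (x : G)⁻¹) := by group
    rw [e]
    exact M.mul_mem hn (hMn.conj_mem _ (M.inv_mem hn) _)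
  have h3 : (y : G) * (x : G)⁻¹ ∈ M ⊓ (P : Subgroup G) :=
    ⟨h2, (P : Subgroup G).mul_mem y.2 ((P : Subgroup G).inv_mem x.2)⟩
  rw [hMP, Subgroup.mem_bot] at h3
  exact Subtype.ext (mul_inv_eq_one.mp h3).symm

/-- Arithmetic for the counting argument. -/
theorem kp_arith (p a k n c : ℕ) (hp : 2 ≤ p) (hn : 0 < n)
    (h : (p + 1) * a < 2 * p * k) (hA : p * (k * n) ≤ a * ((p - 1) * c + n)) : n < 2 * c := by
  obtain ⟨q, rfl⟩ : ∃ q, p = q + 2 := ⟨p - 2, by omega⟩
  have hq : q + 2 - 1 = q + 1 := by omega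
  rw [hq] at hA
  have e1 : (q + 3) * a * n < 2 * ((q + 2) * (k * n)) := by
    have := Nat.mul_lt_mul_of_pos_right h hn
    calc (q + 3) * a * n = (q + 2 + 1) * a * n := by ring
      _ < 2 * (q + 2) * k * n := this
      _ = 2 * ((q + 2) * (k * n)) := by ring
  have e2 : a * ((q + 3) * n) < a * (2 * ((q + 1) * c + n)) := by
    calc a * ((q + 3) * n) = (q + 3) * a * n := by ring
      _ < 2 * ((q + 2) * (k * n)) := e1
      _ ≤ 2 * (a * ((q + 1) * c + n)) := Nat.mul_le_mul_left _ hA
      _ = a * (2 * ((q + 1) * c + n)) := by ring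
  have e3 := Nat.lt_of_mul_lt_mul_left e2
  have e4 : (q + 1) * n < (q + 1) * (2 * c) := by
    have h1 : (q + 3) * n = (q + 1) * n + 2 * n := by ring
    have h2 : 2 * ((q + 1) * c + n) = (q + 1) * (2 * c) + 2 * n := by ring
    omega
  exact Nat.lt_of_mul_lt_mul_left e4

end Cfsg.Agent.Helper21
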