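import Mathlib
import Cfsg.Prelude.Def_Transfer
import Cfsg.Agent.Helper21.KpClasses
import Cfsg.Agent.Helper21.Frobenius
import Cfsg.Agent.Lead.SylowSub

/-!
Classes of `2`-elements and normal `2`-complements (helper21): `2 k₂(G) > |P|` forces a normal
`2`-complement.
-/

set_option autoImplicit false
set_option linter.style.haveILetI false
open scoped Pointwise

namespace Cfsg.Agent.Helper21

/-- If `g` commutes with `c` and `g x g⁻¹ = x c` then `g^j x g^{-j} = x c^j`. -/
theorem conj_pow_mul_pow {G : Type*} [Group G] (g x c : G) (hc : g * c = c * g)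
    (h : g * x * g⁻¹ = x * c) (j : ℕ) : g ^ j * x * (g ^ j)⁻¹ = x * c ^ j := by
  induction j with
  | zero => simp
  | succ j ih =>
    have hcj : g * c ^ j = c ^ j * g := by
      have : Commute g c := hc
      exact (this.pow_right j).eq
    calc g ^ (j + 1) * x * (g ^ (j + 1))⁻¹
        = g * (g ^ j * x * (g ^ j)⁻¹) * g⁻¹ := by rw [pow_succ']; group
      _ = g * (x * c ^ j) * g⁻¹ := by rw [ih]
      _ = (g * x * g⁻¹) * (g * c ^ j * g⁻¹) := by group
      _ = x * c * c ^ j := by rw [h, hcj, mul_inv_cancel_right]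
      _ = x * c ^ (j + 1) := by rw [pow_succ', mul_assoc]

/-- An element of odd order commuting with `x` up to a power coprime to its order commutes
with `x`. -/
theorem comm_of_pow_two_pow_comm {G : Type*} [Group G] [Finite G] (g x : G)
    (hgo : (orderOf g).Coprime 2) (e : ℕ) (h : g ^ (2 ^ e) * x = x * g ^ (2 ^ e)) :
    g * x = x * g := by
  have hcop : (2 ^ e).Coprime (orderOf g) := Nat.Coprime.pow_left e hgo.symm
  obtain ⟨m, hm⟩ := exists_pow_eq_self_of_coprime (x := g) hcop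
  have h1 : Commute (g ^ (2 ^ e)) x := h
  have h2 := (h1.pow_left m).eq
  rwa [hm] at h2

/-- An element of odd order normalizing but not centralizing a `2`-group `Q` has
`|Q : C_Q(g)| ≥ 4`. -/
theorem odd_cent_index {G : Type*} [Group G] [Finite G] (Q : Subgroup G) (hQ : IsPGroup 2 Q)
    (g : G) (hgN : g ∈ Subgroup.normalizer (Q : Set G)) (hgo : (orderOf g).Coprime 2)
    (hgC : g ∉ Subgroup.centralizer (Q : Set G)) :
    4 * Nat.card (Q ⊓ Subgroup.centralizer ({g} : Set G) : Subgroup G) ≤ Nat.card Q := by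
  classical
  obtain ⟨F, hF⟩ : ∃ F : Subgroup G, F = Q ⊓ Subgroup.centralizer ({g} : Set G) := ⟨_, rfl⟩
  rw [← hF]
  have hFQ : F ≤ Q := by rw [hF]; exact inf_le_left
  have hFmem : ∀ x : G, x ∈ F ↔ x ∈ Q ∧ g * x = x * g := by
    intro x
    rw [hF, Subgroup.mem_inf, Subgroup.mem_centralizer_iff]
    constructor
    · rintro ⟨h1, h2⟩
      exact ⟨h1, h2 g rfl⟩
    · rintro ⟨h1, h2⟩
      refine ⟨h1, fun y hy => ?_⟩
      rw [Set.mem_singleton_iff] at hy
      rw [hy]; exact h2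
  have hcardF : Nat.card (F.subgroupOf Q) = Nat.card F :=
    Nat.card_congr (Subgroup.subgroupOfEquivOfLe hFQ).toEquiv
  have hmul := Subgroup.card_mul_index (F.subgroupOf Q)
  rw [hcardF] at hmul
  obtain ⟨n, hn⟩ := IsPGroup.iff_card.mp hQ
  have hidx : (F.subgroupOf Q).index ∣ 2 ^ n := by
    rw [← hn]; exact Subgroup.index_dvd_card _
  obtain ⟨j, -, hj⟩ := (Nat.dvd_prime_pow Nat.prime_two).mp hidx
  -- not all of Q commutes with g
  have hnot : ¬ ∀ x ∈ Q, x ∈ F := by
    intro hall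
    apply hgC
    rw [Subgroup.mem_centralizer_iff]
    intro y hy
    exact ((hFmem y).mp (hall y hy)).2.symm
  have hj2 : 2 ≤ j := by
    by_contra hcon
    have hj01 : j = 0 ∨ j = 1 := by omega
    rcases hj01 with rfl | rfl
    · rw [pow_zero, Subgroup.index_eq_one] at hj
      apply hnot
      intro x hx
      have : (⟨x, hx⟩ : ↥Q) ∈ F.subgroupOf Q := hj ▸ Subgroup.mem_top _
      exact Subgroup.mem_subgroupOf.mp this
    · rw [pow_one] at hj
      apply hnot
      intro x hx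
      by_contra hxF
      have hyQ : g * x * g⁻¹ ∈ Q := (Subgroup.mem_normalizer_iff.mp hgN x).mp hx
      have hyF : g * x * g⁻¹ ∉ F := by
        intro hy
        have h1 := ((hFmem _).mp hy).2
        apply hxF
        rw [hFmem]
        refine ⟨hx, ?_⟩
        have h2 : g * x * g⁻¹ = x := by
          have h3 : g * (g * x * g⁻¹) * g⁻¹ = g * x * g⁻¹ := by
            rw [h1]; group
          have h4 : g * (g * x * g⁻¹) * g⁻¹ = g * x * g⁻¹ →  g * x * g⁻¹ = x := by
            intro h5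
            have h6 : g⁻¹ * (g * (g * x * g⁻¹) * g⁻¹) * g = g⁻¹ * (g * x * g⁻¹) * g := by rw [h5]
            have h7 : g⁻¹ * (g * (g * x * g⁻¹) * g⁻¹) * g = g * x * g⁻¹ := by group
            have h8 : g⁻¹ * (g * x * g⁻¹) * g = x := by group
            rw [h7, h8] at h6
            exact h6
          exact h4 h3
        exact mul_inv_eq_iff_eq_mul.mp h2
      have hmem := Subgroup.mul_mem_iff_of_index_two hj (a := (⟨x⁻¹, Q.inv_mem hx⟩ : ↥Q))
        (b := (⟨g * x * g⁻¹, hyQ⟩ : ↥Q))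
      have hcF : x⁻¹ * (g * x * g⁻¹) ∈ F := by
        have h1 : (⟨x⁻¹, Q.inv_mem hx⟩ : ↥Q) * ⟨g * x * g⁻¹, hyQ⟩ ∈ F.subgroupOf Q := by
          rw [hmem]
          constructor
          · intro h
            exact absurd (by simpa using F.inv_mem (Subgroup.mem_subgroupOf.mp h)) hxF
          · intro h
            exact absurd (Subgroup.mem_subgroupOf.mp h) hyF
        exact Subgroup.mem_subgroupOf.mp h1
      obtain ⟨hcQ, hcg⟩ := (hFmem _).mp hcF
      have hconj : g * x * g⁻¹ = x * (x⁻¹ * (g * x * g⁻¹)) := by group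
      obtain ⟨e, he⟩ := hQ ⟨_, hcQ⟩
      have he' : (x⁻¹ * (g * x * g⁻¹)) ^ (2 ^ e) = 1 := by
        have := congrArg Subtype.val he
        simpa using this
      have h1 := conj_pow_mul_pow g x _ hcg hconj (2 ^ e)
      rw [he', mul_one] at h1
      have h2 : g ^ (2 ^ e) * x = x * g ^ (2 ^ e) := mul_inv_eq_iff_eq_mul.mp h1
      exact hxF ((hFmem x).mpr ⟨hx, comm_of_pow_two_pow_comm g x hgo e h2⟩)
  have h4 : 4 ∣ (F.subgroupOf Q).index := by
    rw [hj]
    exact (show (4 : ℕ) = 2 ^ 2 by norm_num) ▸ pow_dvd_pow 2 hj2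
  obtain ⟨t, ht⟩ := h4
  rw [ht] at hmul
  have ht0 : 0 < t := by
    rcases Nat.eq_zero_or_pos t with h | h
    · rw [h, mul_zero, mul_zero] at hmul
      have := Nat.card_pos (α := ↥Q)
      omega
    · exact h
  nlinarith [Nat.card_pos (α := ↥F)]

/-- The weighted count: if `Q ≤ P` contains all central elements of the Sylow `2`-subgroup `P`
and some element of odd order normalizes but does not centralize `Q`, then `2 k₂(G) ≤ |P|`. -/
theorem k2_count {G : Type*} [Group G] [Finite G] (P : Sylow 2 G) (Q : Subgroup G)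
    (hQ : IsPGroup 2 Q) (hQP : Q ≤ (P : Subgroup G))
    (hZ : ∀ x ∈ (P : Subgroup G), x ∉ Q → ∃ u ∈ (P : Subgroup G), u * x ≠ x * u)
    (g : G) (hgN : g ∈ Subgroup.normalizer (Q : Set G)) (hgo : (orderOf g).Coprime 2)
    (hgC : g ∉ Subgroup.centralizer (Q : Set G)) :
    2 * Nat.card {c : ConjClasses G // ∀ x ∈ c.carrier, ∃ k : ℕ, orderOf x = 2 ^ k}
      ≤ Nat.card (P : Subgroup G) := by
  classical
  letI : Fintype ↥(P : Subgroup G) := Fintype.ofFinite _
  letI : Fintype (ConjClasses G) := Fintype.ofFinite _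
  obtain ⟨F, hF⟩ : ∃ F : Subgroup G, F = Q ⊓ Subgroup.centralizer ({g} : Set G) := ⟨_, rfl⟩
  have hFQ : F ≤ Q := by rw [hF]; exact inf_le_left
  have hFmem : ∀ x : G, x ∈ F ↔ x ∈ Q ∧ g * x = x * g := by
    intro x
    rw [hF, Subgroup.mem_inf, Subgroup.mem_centralizer_iff]
    constructor
    · rintro ⟨h1, h2⟩
      exact ⟨h1, h2 g rfl⟩
    · rintro ⟨h1, h2⟩
      refine ⟨h1, fun y hy => ?_⟩
      rw [Set.mem_singleton_iff] at hy
      rw [hy]; exact h2
  have h4F : 4 * Nat.card F ≤ Nat.card Q := by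
    rw [hF]; exact odd_cent_index Q hQ g hgN hgo hgC
  obtain ⟨W, hW⟩ : ∃ W : ↥(P : Subgroup G) → ℕ, ∀ x, W x =
      if (x : G) ∈ Q then (if (x : G) ∈ F then 6 else 2) else 3 :=
    ⟨fun x => if (x : G) ∈ Q then (if (x : G) ∈ F then 6 else 2) else 3, fun x => rfl⟩
  have hW2 : ∀ x : ↥(P : Subgroup G), (x : G) ∈ Q → 2 ≤ W x := by
    intro x hx
    rw [hW]
    simp only [if_pos hx]
    split_ifs <;> omega
  have hW3 : ∀ x : ↥(P : Subgroup G), (x : G) ∉ Q → W x = 3 := by
    intro x hx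
    rw [hW]
    simp only [if_neg hx]
  have hW6 : ∀ x : ↥(P : Subgroup G), (x : G) ∈ F → W x = 6 := by
    intro x hx
    rw [hW]
    simp only [if_pos (hFQ hx), if_pos hx]
  have hcardsub : ∀ R : Subgroup G, R ≤ (P : Subgroup G) →
      (Finset.univ.filter fun x : ↥(P : Subgroup G) => (x : G) ∈ R).card = Nat.card R := by
    intro R hR
    rw [← Fintype.card_subtype, ← Nat.card_eq_fintype_card]
    exact Nat.card_congr ⟨fun x => ⟨x.1.1, x.2⟩, fun y => ⟨⟨y.1, hR y.2⟩, y.2⟩,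
      fun x => rfl, fun y => rfl⟩
  have hpt : ∀ x : ↥(P : Subgroup G),
      W x + (if (x : G) ∈ Q then 1 else 0) = 3 + 4 * (if (x : G) ∈ F then 1 else 0) := by
    intro x
    by_cases hxQ : (x : G) ∈ Q
    · by_cases hxF : (x : G) ∈ F
      · rw [hW6 x hxF, if_pos hxQ, if_pos hxF]
      · have h2 : W x = 2 := by
          rw [hW]
          simp only [if_pos hxQ, if_neg hxF]
        rw [h2, if_pos hxQ, if_neg hxF]
    · have hxF : (x : G) ∉ F := fun h => hxQ (hFQ h)
      rw [hW3 x hxQ, if_neg hxQ, if_neg hxF]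
  have htot : ∑ x : ↥(P : Subgroup G), W x + Nat.card Q
      = 3 * Nat.card (P : Subgroup G) + 4 * Nat.card F := by
    have hsum := Finset.sum_congr rfl
      (fun x (_ : x ∈ (Finset.univ : Finset ↥(P : Subgroup G))) => hpt x)
    rw [Finset.sum_add_distrib, Finset.sum_add_distrib, Finset.sum_const, ← Finset.mul_sum,
      Finset.sum_boole, Finset.sum_boole, hcardsub Q hQP, hcardsub F (hFQ.trans hQP),
      Finset.card_univ, smul_eq_mul, ← Nat.card_eq_fintype_card] at hsum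
    simp only [Nat.cast_id] at hsum
    rw [hsum]; ring
  -- each class of 2-elements receives weight at least 6
  have key1 : ∀ c : ConjClasses G, (∀ x ∈ c.carrier, ∃ k : ℕ, orderOf x = 2 ^ k) →
      6 ≤ ∑ x ∈ Finset.univ.filter (fun x : ↥(P : Subgroup G) => ConjClasses.mk (x : G) = c),
        W x := by
    intro c hc
    have hmemfib : ∀ x : ↥(P : Subgroup G), ConjClasses.mk (x : G) = c →
        x ∈ Finset.univ.filter (fun x : ↥(P : Subgroup G) => ConjClasses.mk (x : G) = c) :=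
      fun x hx => Finset.mem_filter.mpr ⟨Finset.mem_univ _, hx⟩
    by_cases h1 : ∃ x : ↥(P : Subgroup G), ConjClasses.mk (x : G) = c ∧ (x : G) ∈ F
    · obtain ⟨x, hxc, hxF⟩ := h1
      have := Finset.single_le_sum (f := W) (fun _ _ => Nat.zero_le _) (hmemfib x hxc)
      rwa [hW6 x hxF] at this
    · by_cases h2 : ∃ x : ↥(P : Subgroup G), ConjClasses.mk (x : G) = c ∧ (x : G) ∈ Q
      · obtain ⟨x, hxc, hxQ⟩ := h2
        have hxF : ¬ g * (x : G) = (x : G) * g := fun h => h1 ⟨x, hxc, (hFmem _).mpr ⟨hxQ, h⟩⟩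
        have hyQ : g * (x : G) * g⁻¹ ∈ Q := (Subgroup.mem_normalizer_iff.mp hgN _).mp hxQ
        have hzQ : g * (g * (x : G) * g⁻¹) * g⁻¹ ∈ Q :=
          (Subgroup.mem_normalizer_iff.mp hgN _).mp hyQ
        have hyc : ConjClasses.mk (g * (x : G) * g⁻¹) = c := by
          rw [← hxc, ConjClasses.mk_eq_mk_iff_isConj, isConj_iff]
          exact ⟨g⁻¹, by group⟩
        have hzc : ConjClasses.mk (g * (g * (x : G) * g⁻¹) * g⁻¹) = c := by
          rw [← hxc, ConjClasses.mk_eq_mk_iff_isConj, isConj_iff]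
          exact ⟨g⁻¹ * g⁻¹, by group⟩
        have hxy : x ≠ (⟨g * (x : G) * g⁻¹, hQP hyQ⟩ : ↥(P : Subgroup G)) := by
          intro h
          have h3 : (x : G) = g * (x : G) * g⁻¹ := congrArg Subtype.val h
          exact hxF (mul_inv_eq_iff_eq_mul.mp h3.symm)
        have hyz : (⟨g * (x : G) * g⁻¹, hQP hyQ⟩ : ↥(P : Subgroup G))
            ≠ ⟨g * (g * (x : G) * g⁻¹) * g⁻¹, hQP hzQ⟩ := by
          intro h
          have h3 : g * (x : G) * g⁻¹ = g * (g * (x : G) * g⁻¹) * g⁻¹ := congrArg Subtype.val h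
          have h4 : (x : G) = g * (x : G) * g⁻¹ := by
            have h5 : g⁻¹ * (g * (x : G) * g⁻¹) * g = g⁻¹ * (g * (g * (x : G) * g⁻¹) * g⁻¹) * g := by
              rw [← h3]
            have h6 : g⁻¹ * (g * (x : G) * g⁻¹) * g = (x : G) := by group
            have h7 : g⁻¹ * (g * (g * (x : G) * g⁻¹) * g⁻¹) * g = g * (x : G) * g⁻¹ := by group
            rw [h6, h7] at h5
            exact h5
          exact hxF (mul_inv_eq_iff_eq_mul.mp h4.symm)
        have hxz : x ≠ (⟨g * (g * (x : G) * g⁻¹) * g⁻¹, hQP hzQ⟩ : ↥(P : Subgroup G)) := by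
          intro h
          have h3 : (x : G) = g * (g * (x : G) * g⁻¹) * g⁻¹ := congrArg Subtype.val h
          have h4 : g ^ (2 ^ 1) * (x : G) = (x : G) * g ^ (2 ^ 1) := by
            have h5 : g ^ (2 ^ 1) * (x : G) * (g ^ (2 ^ 1))⁻¹ = (x : G) := by
              have h8 : g ^ (2 ^ 1) * (x : G) * (g ^ (2 ^ 1))⁻¹
                  = g * (g * (x : G) * g⁻¹) * g⁻¹ := by
                rw [pow_one, pow_two]; group
              rw [h8]; exact h3.symm
            exact mul_inv_eq_iff_eq_mul.mp h5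
          exact hxF (comm_of_pow_two_pow_comm g _ hgo 1 h4)
        have hcard : ({x, ⟨g * (x : G) * g⁻¹, hQP hyQ⟩,
            ⟨g * (g * (x : G) * g⁻¹) * g⁻¹, hQP hzQ⟩} : Finset ↥(P : Subgroup G)).card = 3 :=
          Finset.card_eq_three.mpr ⟨_, _, _, hxy, hxz, hyz, rfl⟩
        have hsub : ({x, ⟨g * (x : G) * g⁻¹, hQP hyQ⟩,
            ⟨g * (g * (x : G) * g⁻¹) * g⁻¹, hQP hzQ⟩} : Finset ↥(P : Subgroup G))
            ⊆ Finset.univ.filter (fun x : ↥(P : Subgroup G) => ConjClasses.mk (x : G) = c) := by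
          intro a ha
          simp only [Finset.mem_insert, Finset.mem_singleton] at ha
          rcases ha with rfl | rfl | rfl
          · exact hmemfib _ hxc
          · exact hmemfib _ hyc
          · exact hmemfib _ hzc
        have h5 := Finset.card_nsmul_le_sum ({x, ⟨g * (x : G) * g⁻¹, hQP hyQ⟩,
            ⟨g * (g * (x : G) * g⁻¹) * g⁻¹, hQP hzQ⟩} : Finset ↥(P : Subgroup G)) W 2 (by
          intro a ha
          simp only [Finset.mem_insert, Finset.mem_singleton] at ha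
          rcases ha with rfl | rfl | rfl
          · exact hW2 _ hxQ
          · exact hW2 _ hyQ
          · exact hW2 _ hzQ)
        rw [hcard] at h5
        exact h5.trans (Finset.sum_le_sum_of_subset hsub)
      · -- no element of the class lies in Q
        obtain ⟨g₀, hg₀⟩ := ConjClasses.mk_surjective c
        have hgo₀ := hc g₀ (ConjClasses.mem_carrier_iff_mk_eq.mpr hg₀)
        obtain ⟨h, hh⟩ := exists_conj_mem_sylow P g₀ hgo₀
        have hx₀c : ConjClasses.mk (h * g₀ * h⁻¹) = c := by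
          rw [← hg₀, ConjClasses.mk_eq_mk_iff_isConj, isConj_iff]
          exact ⟨h⁻¹, by group⟩
        have hx₀Q : h * g₀ * h⁻¹ ∉ Q := fun hq => h2 ⟨⟨_, hh⟩, hx₀c, hq⟩
        obtain ⟨u, huP, hux⟩ := hZ _ hh hx₀Q
        have hyP : u * (h * g₀ * h⁻¹) * u⁻¹ ∈ (P : Subgroup G) :=
          (P : Subgroup G).mul_mem ((P : Subgroup G).mul_mem huP hh) ((P : Subgroup G).inv_mem huP)
        have hyc : ConjClasses.mk (u * (h * g₀ * h⁻¹) * u⁻¹) = c := by
          rw [← hx₀c, ConjClasses.mk_eq_mk_iff_isConj, isConj_iff]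
          exact ⟨u⁻¹, by group⟩
        have hyQ : u * (h * g₀ * h⁻¹) * u⁻¹ ∉ Q := fun hq => h2 ⟨⟨_, hyP⟩, hyc, hq⟩
        have hne : (⟨h * g₀ * h⁻¹, hh⟩ : ↥(P : Subgroup G)) ≠ ⟨u * (h * g₀ * h⁻¹) * u⁻¹, hyP⟩ := by
          intro hcon
          have h3 : h * g₀ * h⁻¹ = u * (h * g₀ * h⁻¹) * u⁻¹ := congrArg Subtype.val hcon
          exact hux (mul_inv_eq_iff_eq_mul.mp h3.symm)
        have hcard : ({⟨h * g₀ * h⁻¹, hh⟩, ⟨u * (h * g₀ * h⁻¹) * u⁻¹, hyP⟩} :
            Finset ↥(P : Subgroup G)).card = 2 := Finset.card_pair hne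
        have hsub : ({⟨h * g₀ * h⁻¹, hh⟩, ⟨u * (h * g₀ * h⁻¹) * u⁻¹, hyP⟩} :
            Finset ↥(P : Subgroup G))
            ⊆ Finset.univ.filter (fun x : ↥(P : Subgroup G) => ConjClasses.mk (x : G) = c) := by
          intro a ha
          simp only [Finset.mem_insert, Finset.mem_singleton] at ha
          rcases ha with rfl | rfl
          · exact hmemfib _ hx₀c
          · exact hmemfib _ hyc
        have h5 := Finset.card_nsmul_le_sum ({⟨h * g₀ * h⁻¹, hh⟩,
            ⟨u * (h * g₀ * h⁻¹) * u⁻¹, hyP⟩} : Finset ↥(P : Subgroup G)) W 3 (by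
          intro a ha
          simp only [Finset.mem_insert, Finset.mem_singleton] at ha
          rcases ha with rfl | rfl
          · exact (hW3 _ hx₀Q).ge
          · exact (hW3 _ hyQ).ge)
        rw [hcard] at h5
        exact h5.trans (Finset.sum_le_sum_of_subset hsub)
  have hfib := Finset.sum_fiberwise (Finset.univ : Finset ↥(P : Subgroup G))
    (fun x : ↥(P : Subgroup G) => ConjClasses.mk (x : G)) W
  have hK : Nat.card {c : ConjClasses G // ∀ x ∈ c.carrier, ∃ k : ℕ, orderOf x = 2 ^ k}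
      = (Finset.univ.filter (fun c : ConjClasses G =>
          ∀ x ∈ c.carrier, ∃ k : ℕ, orderOf x = 2 ^ k)).card := by
    rw [Nat.card_eq_fintype_card, Fintype.card_subtype]
  have h6 := Finset.card_nsmul_le_sum (Finset.univ.filter (fun c : ConjClasses G =>
      ∀ x ∈ c.carrier, ∃ k : ℕ, orderOf x = 2 ^ k))
    (fun c => ∑ x ∈ Finset.univ.filter
      (fun x : ↥(P : Subgroup G) => ConjClasses.mk (x : G) = c), W x) 6
    (fun c hc => key1 c (Finset.mem_filter.mp hc).2)
  have h7 : ∑ c ∈ Finset.univ.filter (fun c : ConjClasses G =>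
      ∀ x ∈ c.carrier, ∃ k : ℕ, orderOf x = 2 ^ k),
      ∑ x ∈ Finset.univ.filter (fun x : ↥(P : Subgroup G) => ConjClasses.mk (x : G) = c), W x
      ≤ ∑ x : ↥(P : Subgroup G), W x := by
    rw [← hfib]
    exact Finset.sum_le_sum_of_subset (Finset.filter_subset _ _)
  rw [← hK, smul_eq_mul] at h6
  omega

theorem mem_conj_smul_iff' {G : Type*} [Group G] (D : Subgroup G) (g x : G) :
    x ∈ MulAut.conj g • D ↔ g⁻¹ * x * g ∈ D := by
  rw [Subgroup.mem_pointwise_smul_iff_inv_smul_mem]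
  simp [MulAut.smul_def]

theorem card_conj_smul' {G : Type*} [Group G] (D : Subgroup G) (g : G) :
    Nat.card ↥(MulAut.conj g • D) = Nat.card D := by
  have h : MulAut.conj g • D = D.map (MulAut.conj g).toMonoidHom := rfl
  rw [h, Subgroup.card_map_of_injective (MulAut.conj g).injective]

theorem conj_mem_centralizer' {G : Type*} [Group G] (Q : Subgroup G) {g c : G}
    (hg : g ∈ Subgroup.normalizer (Q : Set G)) (hc : c ∈ Subgroup.centralizer (Q : Set G)) :
    g * c * g⁻¹ ∈ Subgroup.centralizer (Q : Set G) := by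
  rw [Subgroup.mem_centralizer_iff] at hc ⊢
  intro q hq
  have hq' : g⁻¹ * q * g ∈ Q :=
    (Subgroup.mem_normalizer_iff.mp hg (g⁻¹ * q * g)).mpr (by simpa [mul_assoc] using hq)
  have h1 := hc _ hq'
  calc q * (g * c * g⁻¹) = g * ((g⁻¹ * q * g) * c) * g⁻¹ := by group
    _ = g * (c * (g⁻¹ * q * g)) * g⁻¹ := by rw [h1]
    _ = g * c * g⁻¹ * q := by group

/-- If the Frobenius hypothesis fails for the prime `2`, there are a Sylow `2`-subgroup `P`, a
subgroup `Q ≤ P` containing `Z(P)` and an element of odd order normalizing but not centralizing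
`Q`. -/
theorem not_frob_reduce {G : Type*} [Group G] [Finite G] (h : ¬ FrobHyp 2 G) :
    ∃ (P : Sylow 2 G) (Q : Subgroup G) (g : G), IsPGroup 2 Q ∧ Q ≤ (P : Subgroup G) ∧
      (∀ x ∈ (P : Subgroup G), x ∉ Q → ∃ u ∈ (P : Subgroup G), u * x ≠ x * u) ∧
      g ∈ Subgroup.normalizer (Q : Set G) ∧ (orderOf g).Coprime 2 ∧
      g ∉ Subgroup.centralizer (Q : Set G) := by
  classical
  haveI : Fact (Nat.Prime 2) := ⟨Nat.prime_two⟩
  letI : Fintype (Subgroup G) := Fintype.ofFinite _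
  have hex : ∃ Q : Subgroup G, IsPGroup 2 Q ∧ ∃ g, g ∈ Subgroup.normalizer (Q : Set G) ∧
      (orderOf g).Coprime 2 ∧ g ∉ Subgroup.centralizer (Q : Set G) := by
    by_contra hcon
    apply h
    intro Q hQ g hg hcop
    by_contra hgC
    exact hcon ⟨Q, hQ, g, hg, hcop, hgC⟩
  obtain ⟨Q₀, hQ₀⟩ := hex
  obtain ⟨Q, hQmem, hQmax⟩ := Finset.exists_max_image
    (Finset.univ.filter (fun Q : Subgroup G => IsPGroup 2 Q ∧
      ∃ g, g ∈ Subgroup.normalizer (Q : Set G) ∧ (orderOf g).Coprime 2 ∧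
        g ∉ Subgroup.centralizer (Q : Set G)))
    (fun Q => Nat.card Q) ⟨Q₀, Finset.mem_filter.mpr ⟨Finset.mem_univ _, hQ₀⟩⟩
  obtain ⟨hQ, g, hgN, hgo, hgC⟩ := (Finset.mem_filter.mp hQmem).2
  have hmax : ∀ Q' : Subgroup G, IsPGroup 2 Q' → ∀ g', g' ∈ Subgroup.normalizer (Q' : Set G) →
      (orderOf g').Coprime 2 → g' ∉ Subgroup.centralizer (Q' : Set G) →
      Nat.card Q' ≤ Nat.card Q :=
    fun Q' h1 g' h2 h3 h4 =>
      hQmax Q' (Finset.mem_filter.mpr ⟨Finset.mem_univ _, h1, g', h2, h3, h4⟩)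
  -- Sylow 2-subgroup of the centralizer
  obtain ⟨C, hC⟩ : ∃ C : Subgroup G, C = Subgroup.centralizer (Q : Set G) := ⟨_, rfl⟩
  obtain ⟨D₀⟩ : Nonempty (Sylow 2 ↥C) := inferInstance
  obtain ⟨D, hD⟩ : ∃ D : Subgroup G, D = (D₀ : Subgroup ↥C).map C.subtype := ⟨_, rfl⟩
  have hDC : D ≤ C := by rw [hD]; exact Subgroup.map_subtype_le _
  have hDcard : Nat.card D = 2 ^ (Nat.card C).factorization 2 := by
    rw [hD]; exact Cfsg.Agent.Lead.card_sylow_map C D₀
  have hD2 : IsPGroup 2 D := IsPGroup.of_card hDcard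
  have hCN : C ≤ Subgroup.normalizer (Q : Set G) := by
    rw [hC]; exact Subgroup.centralizer_le_normalizer _
  -- Frattini
  have hRC : MulAut.conj g • D ≤ C := by
    intro x hx
    rw [mem_conj_smul_iff'] at hx
    have h1 : g⁻¹ * x * g ∈ C := hDC hx
    rw [hC] at h1 ⊢
    have h2 := conj_mem_centralizer' Q hgN h1
    have h3 : g * (g⁻¹ * x * g) * g⁻¹ = x := by group
    rwa [h3] at h2
  have hRcard : Nat.card ↥(MulAut.conj g • D) = 2 ^ (Nat.card C).factorization 2 := by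
    rw [card_conj_smul', hDcard]
  obtain ⟨k, hkC, hk⟩ :=
    Cfsg.Agent.Lead.exists_conj_eq_of_card C D₀ (MulAut.conj g • D) hRC hRcard
  rw [← hD] at hk
  obtain ⟨n, hn⟩ : ∃ n : G, n = k⁻¹ * g := ⟨_, rfl⟩
  have hnD : n ∈ Subgroup.normalizer (D : Set G) := by
    rw [Cfsg.Agent.Lead.mem_normalizer_iff_conj_smul, hn, map_mul, mul_smul, hk, map_inv,
      inv_smul_smul]
  have hnQ : n ∈ Subgroup.normalizer (Q : Set G) := by
    rw [hn]
    exact Subgroup.mul_mem _ (Subgroup.inv_mem _ (hCN hkC)) hgN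
  have hnact : ∀ x ∈ Q, n * x * n⁻¹ = g * x * g⁻¹ := by
    intro x hx
    have hy : g * x * g⁻¹ ∈ Q := (Subgroup.mem_normalizer_iff.mp hgN x).mp hx
    have hkc : (g * x * g⁻¹) * k = k * (g * x * g⁻¹) := by
      have h1 := hkC
      rw [hC, Subgroup.mem_centralizer_iff] at h1
      exact h1 _ hy
    rw [hn]
    calc k⁻¹ * g * x * (k⁻¹ * g)⁻¹ = k⁻¹ * ((g * x * g⁻¹) * k) := by group
      _ = k⁻¹ * (k * (g * x * g⁻¹)) := by rw [hkc]
      _ = g * x * g⁻¹ := by group
  have hnpow : ∀ j : ℕ, ∀ x ∈ Q, n ^ j * x * (n ^ j)⁻¹ = g ^ j * x * (g ^ j)⁻¹ := by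
    intro j
    induction j with
    | zero => intro x _; simp
    | succ j ih =>
      intro x hx
      have hy : g ^ j * x * (g ^ j)⁻¹ ∈ Q :=
        (Subgroup.mem_normalizer_iff.mp (Subgroup.pow_mem _ hgN j) x).mp hx
      calc n ^ (j + 1) * x * (n ^ (j + 1))⁻¹
          = n * (n ^ j * x * (n ^ j)⁻¹) * n⁻¹ := by rw [pow_succ']; group
        _ = n * (g ^ j * x * (g ^ j)⁻¹) * n⁻¹ := by rw [ih x hx]
        _ = g * (g ^ j * x * (g ^ j)⁻¹) * g⁻¹ := hnact _ hy
        _ = g ^ (j + 1) * x * (g ^ (j + 1))⁻¹ := by rw [pow_succ']; group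
  obtain ⟨e, m, hm, hem⟩ := Nat.exists_eq_two_pow_mul_odd (orderOf_pos n).ne'
  obtain ⟨n', hn'⟩ : ∃ n' : G, n' = n ^ (2 ^ e) := ⟨_, rfl⟩
  have hn'o : (orderOf n').Coprime 2 := by
    have h1 : n' ^ m = 1 := by rw [hn', ← pow_mul, ← hem, pow_orderOf_eq_one]
    exact Nat.Coprime.coprime_dvd_left (orderOf_dvd_of_pow_eq_one h1)
      (Nat.coprime_two_right.mpr hm)
  have hn'Q : n' ∈ Subgroup.normalizer (Q : Set G) := by
    rw [hn']; exact Subgroup.pow_mem _ hnQ _
  have hn'D : n' ∈ Subgroup.normalizer (D : Set G) := by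
    rw [hn']; exact Subgroup.pow_mem _ hnD _
  have hn'C : n' ∉ Subgroup.centralizer ((Q ⊔ D : Subgroup G) : Set G) := by
    intro hcon
    apply hgC
    rw [Subgroup.mem_centralizer_iff] at hcon ⊢
    intro x hx
    have h1 := hcon x (Subgroup.mem_sup_left hx)
    have h2 : n' * x * n'⁻¹ = x := by rw [← h1, mul_inv_cancel_right]
    rw [hn', hnpow _ x hx] at h2
    have h3 : g ^ (2 ^ e) * x = x * g ^ (2 ^ e) := mul_inv_eq_iff_eq_mul.mp h2
    exact (comm_of_pow_two_pow_comm g x hgo e h3).symm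
  have hn'N : n' ∈ Subgroup.normalizer ((Q ⊔ D : Subgroup G) : Set G) := by
    rw [Cfsg.Agent.Lead.mem_normalizer_iff_conj_smul] at hn'Q hn'D ⊢
    rw [Subgroup.smul_sup, hn'Q, hn'D]
  have hQD2 : IsPGroup 2 (Q ⊔ D : Subgroup G) := by
    rw [sup_comm]
    exact IsPGroup.to_sup_of_normal_right' hD2 hQ (hDC.trans hCN)
  have hDQ : D ≤ Q := by
    have h1 := hmax _ hQD2 n' hn'N hn'o hn'C
    have h2 : Q = Q ⊔ D := Subgroup.eq_of_le_of_card_ge le_sup_left h1
    rw [h2]; exact le_sup_right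
  obtain ⟨P, hQP⟩ := hQ.exists_le_sylow
  refine ⟨P, Q, g, hQ, hQP, ?_, hgN, hgo, hgC⟩
  intro x hxP hxQ
  by_contra hcon
  have hcomm : ∀ u ∈ (P : Subgroup G), u * x = x * u := by
    intro u hu
    by_contra h1
    exact hcon ⟨u, hu, h1⟩
  have hxC : x ∈ C := by
    rw [hC, Subgroup.mem_centralizer_iff]
    intro q hq
    exact hcomm q (hQP hq)
  have hzx : IsPGroup 2 (Subgroup.zpowers x) :=
    P.isPGroup'.to_le (Subgroup.zpowers_le.mpr hxP)
  have hzN : Subgroup.zpowers x ≤ Subgroup.normalizer (D : Set G) := by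
    refine le_trans ?_ (Subgroup.centralizer_le_normalizer _)
    rw [Subgroup.zpowers_le, Subgroup.mem_centralizer_iff]
    intro d hd
    exact hcomm d (hQP (hDQ hd))
  have hE2 := IsPGroup.to_sup_of_normal_right' hzx hD2 hzN
  have hEC : Subgroup.zpowers x ⊔ D ≤ C := sup_le (Subgroup.zpowers_le.mpr hxC) hDC
  obtain ⟨j, hj⟩ := IsPGroup.iff_card.mp hE2
  have hjle : j ≤ (Nat.card C).factorization 2 := by
    apply (Nat.Prime.pow_dvd_iff_le_factorization Nat.prime_two Nat.card_pos.ne').mp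
    rw [← hj]; exact Subgroup.card_dvd_of_le hEC
  have hEle : Nat.card ↥(Subgroup.zpowers x ⊔ D) ≤ Nat.card D := by
    rw [hj, hDcard]; exact Nat.pow_le_pow_right (by norm_num) hjle
  have hEeq : D = Subgroup.zpowers x ⊔ D := Subgroup.eq_of_le_of_card_ge le_sup_right hEle
  apply hxQ
  apply hDQ
  rw [hEeq]
  exact Subgroup.mem_sup_left (Subgroup.mem_zpowers x)

/-- Classes of `p`-elements of `G` inject into the classes of a Sylow `p`-subgroup. -/
theorem k2_le_kP {G : Type*} [Group G] [Finite G] {p : ℕ} [Fact p.Prime] (P : Sylow p G) :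
    Nat.card {c : ConjClasses G // ∀ x ∈ c.carrier, ∃ k : ℕ, orderOf x = p ^ k}
      ≤ Nat.card (ConjClasses ↥(P : Subgroup G)) := by
  have hrep : ∀ c : {c : ConjClasses G // ∀ x ∈ c.carrier, ∃ k : ℕ, orderOf x = p ^ k},
      ∃ x : ↥(P : Subgroup G), ConjClasses.mk (x : G) = c.1 := by
    intro c
    obtain ⟨g, hg⟩ := ConjClasses.mk_surjective c.1
    have hgo := c.2 g (ConjClasses.mem_carrier_iff_mk_eq.mpr hg)
    obtain ⟨h, hh⟩ := exists_conj_mem_sylow P g hgo
    refine ⟨⟨h * g * h⁻¹, hh⟩, ?_⟩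
    rw [← hg, ConjClasses.mk_eq_mk_iff_isConj, isConj_iff]
    exact ⟨h⁻¹, by group⟩
  choose rep hrep using hrep
  apply Nat.card_le_card_of_injective (fun c => ConjClasses.mk (rep c))
  intro c d hcd
  have h1 : IsConj (rep c) (rep d) := ConjClasses.mk_eq_mk_iff_isConj.mp hcd
  obtain ⟨u, hu⟩ := isConj_iff.mp h1
  apply Subtype.ext
  rw [← hrep c, ← hrep d, ConjClasses.mk_eq_mk_iff_isConj, isConj_iff]
  refine ⟨(u : G), ?_⟩
  have h2 := congrArg Subtype.val hu
  simpa using h2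

/-- With a normal `p`-complement, the classes of a Sylow `p`-subgroup inject into the classes of
`p`-elements of `G`. -/
theorem kP_le_k2_of_complement {G : Type*} [Group G] [Finite G] {p : ℕ}
    [hp : Fact p.Prime] (P : Sylow p G) (hc : Cfsg.HasNormalPComplement p G) :
    Nat.card (ConjClasses ↥(P : Subgroup G))
      ≤ Nat.card {c : ConjClasses G // ∀ x ∈ c.carrier, ∃ k : ℕ, orderOf x = p ^ k} := by
  obtain ⟨P', M, hMn, hcomp⟩ := hc
  have hcardM : Nat.card M * Nat.card (P' : Subgroup G) = Nat.card G := hcomp.card_mul_card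
  have hPP' : Nat.card (P' : Subgroup G) = Nat.card (P : Subgroup G) := by
    rw [P'.card_eq_multiplicity, P.card_eq_multiplicity]
  have hpM : ¬ p ∣ Nat.card M := by
    have h1 := P'.not_dvd_index
    have h2 := Subgroup.card_mul_index (P' : Subgroup G)
    have h3 : Nat.card M = (P' : Subgroup G).index := by
      have : Nat.card M * Nat.card (P' : Subgroup G)
          = (P' : Subgroup G).index * Nat.card (P' : Subgroup G) := by
        rw [hcardM, ← h2, mul_comm]
      exact Nat.eq_of_mul_eq_mul_right Nat.card_pos this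
    rwa [h3]
  have hMP : M ⊓ (P : Subgroup G) = ⊥ := by
    apply Disjoint.eq_bot
    apply Subgroup.disjoint_of_coprime_natCard
    rw [P.card_eq_multiplicity]
    exact Nat.Coprime.pow_right _
      (Nat.coprime_comm.mp ((Nat.Prime.coprime_iff_not_dvd hp.out).mpr hpM))
  let f : ↥(P : Subgroup G) →* G ⧸ M := (QuotientGroup.mk' M).comp (P : Subgroup G).subtype
  have hfinj : Function.Injective f := by
    rw [injective_iff_map_eq_one]
    intro x hx
    have h1 : (x : G) ∈ M := (QuotientGroup.eq_one_iff _).mp hx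
    have h2 : (x : G) ∈ M ⊓ (P : Subgroup G) := ⟨h1, x.2⟩
    rw [hMP, Subgroup.mem_bot] at h2
    exact Subtype.ext h2
  have hfsurj : Function.Surjective f := by
    apply (hfinj.bijective_of_nat_card_le _).2
    rw [← Subgroup.index_eq_card]
    have h2 := Subgroup.card_mul_index M
    have : Nat.card M * M.index = Nat.card M * Nat.card (P : Subgroup G) := by
      rw [h2, ← hPP', hcardM]
    exact (Nat.eq_of_mul_eq_mul_left Nat.card_pos this).le
  have hrep : ∀ x : ↥(P : Subgroup G), ∀ z ∈ (ConjClasses.mk (x : G)).carrier,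
      ∃ k : ℕ, orderOf z = p ^ k := by
    intro x z hz
    rw [ConjClasses.mem_carrier_iff_mk_eq, ConjClasses.mk_eq_mk_iff_isConj, isConj_iff] at hz
    obtain ⟨c, hc⟩ := hz
    have h1 : orderOf (x : G) = orderOf z := by
      rw [← hc]; exact (MulAut.conj c).orderOf_eq z
    obtain ⟨k, hk⟩ := P.isPGroup' x
    have h2 : (x : G) ^ p ^ k = 1 := by
      have := congrArg Subtype.val hk
      simpa using this
    obtain ⟨j, -, hj⟩ := (Nat.dvd_prime_pow hp.out).mp (orderOf_dvd_of_pow_eq_one h2)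
    exact ⟨j, by rw [← h1, hj]⟩
  have hfus : ∀ x y : ↥(P : Subgroup G), (∃ g : G, g * x * g⁻¹ = y) →
      ∃ u : ↥(P : Subgroup G), u * x * u⁻¹ = y := by
    rintro x y ⟨g, hg⟩
    obtain ⟨u, hu⟩ := hfsurj (QuotientGroup.mk' M g)
    refine ⟨u, hfinj ?_⟩
    rw [map_mul, map_mul, map_inv, hu]
    show QuotientGroup.mk' M g * QuotientGroup.mk' M (x : G) * (QuotientGroup.mk' M g)⁻¹
      = QuotientGroup.mk' M (y : G)
    rw [← map_inv, ← map_mul, ← map_mul, hg]
  have hrepP : ∀ c : ConjClasses ↥(P : Subgroup G), ∃ x : ↥(P : Subgroup G),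
      ConjClasses.mk x = c := ConjClasses.mk_surjective
  choose repP hrepP using hrepP
  apply Nat.card_le_card_of_injective (fun c : ConjClasses ↥(P : Subgroup G) =>
    (⟨ConjClasses.mk ((repP c : ↥(P : Subgroup G)) : G), hrep (repP c)⟩ :
      {c : ConjClasses G // ∀ x ∈ c.carrier, ∃ k : ℕ, orderOf x = p ^ k}))
  intro c d hcd
  have h1 : ConjClasses.mk ((repP c : ↥(P : Subgroup G)) : G)
      = ConjClasses.mk ((repP d : ↥(P : Subgroup G)) : G) := congrArg Subtype.val hcd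
  rw [ConjClasses.mk_eq_mk_iff_isConj, isConj_iff] at h1
  obtain ⟨u, hu⟩ := hfus _ _ h1
  rw [← hrepP c, ← hrepP d, ConjClasses.mk_eq_mk_iff_isConj, isConj_iff]
  exact ⟨u, hu⟩

/-- `2 k₂(G) > |P|` forces a normal `2`-complement. -/
theorem k2_normal_complement {G : Type*} [Group G] [Finite G] (P : Sylow 2 G)
    (h : Nat.card ↥(P : Subgroup G)
      < 2 * Nat.card {c : ConjClasses G // ∀ x ∈ c.carrier, ∃ k : ℕ, orderOf x = 2 ^ k}) :
    Cfsg.HasNormalPComplement 2 G := by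
  haveI : Fact (Nat.Prime 2) := ⟨Nat.prime_two⟩
  by_contra hnc
  have hF : ¬ FrobHyp 2 G := fun hF => hnc (frob_hasNormalPComplement hF)
  obtain ⟨P₁, Q, g, hQ, hQP, hZ, hgN, hgo, hgC⟩ := not_frob_reduce hF
  have h2 := k2_count P₁ Q hQ hQP hZ g hgN hgo hgC
  have h3 : Nat.card (P₁ : Subgroup G) = Nat.card (P : Subgroup G) := by
    rw [P₁.card_eq_multiplicity, P.card_eq_multiplicity]
  omega

end Cfsg.Agent.Helper21
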