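import Mathlib
import Cfsg.Prelude.Def_Transfer
import Cfsg.Agent.Helper21.KpClasses

set_option autoImplicit false
set_option linter.style.haveILetI false

namespace Cfsg.Agent.Helper21

/-- Conjugacy classes all of whose elements have orders with prime divisors in `σ`. -/
abbrev KS (G : Type*) [Group G] (σ : Finset ℕ) : Type _ :=
  {c : ConjClasses G // ∀ x ∈ c.carrier, ∀ r : ℕ, r.Prime → r ∣ orderOf x → r ∈ σ}

/-- Splitting an element into its `s'`-part and its `s`-part. -/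
theorem exists_sprime_s_decomp {G : Type*} [Group G] [Finite G] (x : G) (s : ℕ) (hs : s.Prime) :
    ∃ y z : G, x = y * z ∧ y * z = z * y ∧
      (∀ q : ℕ, q.Prime → q ∣ orderOf y → q ∣ orderOf x ∧ q ≠ s) ∧
      ∃ k : ℕ, orderOf z = s ^ k := by
  have ho : orderOf x ≠ 0 := (orderOf_pos x).ne'
  obtain ⟨e, m, hm, hom⟩ := Nat.exists_eq_pow_mul_and_not_dvd ho s hs.ne_one
  have hcop : Nat.Coprime (s ^ e) m :=
    Nat.Coprime.pow_left _ ((Nat.Prime.coprime_iff_not_dvd hs).mpr hm)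
  obtain ⟨u, v, huv⟩ : ∃ u v : ℤ, u * ((s ^ e : ℕ) : ℤ) + v * (m : ℤ) = 1 :=
    Nat.isCoprime_iff_coprime.mpr hcop
  have hkey : ∀ w : ℤ, x ^ (w * ((orderOf x : ℕ) : ℤ)) = 1 := by
    intro w
    rw [mul_comm, zpow_mul, zpow_natCast, pow_orderOf_eq_one, one_zpow]
  refine ⟨x ^ (u * ((s ^ e : ℕ) : ℤ)), x ^ (v * (m : ℤ)), ?_, ?_, ?_, ?_⟩
  · rw [← zpow_add, huv, zpow_one]
  · rw [← zpow_add, ← zpow_add, add_comm]
  · intro q hq hqy
    have h1 : (x ^ (u * ((s ^ e : ℕ) : ℤ))) ^ m = 1 := by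
      rw [← zpow_natCast, ← zpow_mul]
      have : u * ((s ^ e : ℕ) : ℤ) * (m : ℤ) = u * ((orderOf x : ℕ) : ℤ) := by
        rw [hom]; push_cast; ring
      rw [this, hkey]
    have h2 : orderOf (x ^ (u * ((s ^ e : ℕ) : ℤ))) ∣ m := orderOf_dvd_of_pow_eq_one h1
    have h3 : q ∣ m := hqy.trans h2
    refine ⟨h3.trans (by rw [hom]; exact Dvd.intro_left _ rfl), ?_⟩
    rintro rfl
    exact hm h3
  · have h1 : (x ^ (v * (m : ℤ))) ^ (s ^ e) = 1 := by
      rw [← zpow_natCast, ← zpow_mul]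
      have : v * (m : ℤ) * ((s ^ e : ℕ) : ℤ) = v * ((orderOf x : ℕ) : ℤ) := by
        rw [hom]; push_cast; ring
      rw [this, hkey]
    obtain ⟨k, -, hk⟩ := (Nat.dvd_prime_pow hs).mp (orderOf_dvd_of_pow_eq_one h1)
    exact ⟨k, hk⟩

/-- Adding one prime `s` multiplies the number of classes by at most the `s`-part of `|G|`. -/
theorem card_KS_insert_le {G : Type*} [Group G] [Finite G] (σ : Finset ℕ) (s : ℕ)
    [hs : Fact s.Prime] :
    Nat.card (KS G (insert s σ)) ≤ Nat.card (KS G σ) * s ^ (Nat.card G).factorization s := by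
  classical
  have hrepK : ∀ d : KS G σ, ∃ y : G, ConjClasses.mk y = d.1 :=
    fun d => ConjClasses.mk_surjective d.1
  choose yrep hyrep using hrepK
  have hT : ∀ d : KS G σ, ∃ T : Subgroup G, IsPGroup s T ∧
      ∀ z : G, z * yrep d = yrep d * z → (∃ k : ℕ, orderOf z = s ^ k) →
        ∃ h : G, h * yrep d = yrep d * h ∧ h * z * h⁻¹ ∈ T := by
    intro d
    obtain ⟨Q⟩ : Nonempty (Sylow s ↥(Subgroup.centralizer ({yrep d} : Set G))) := Sylow.nonempty
    refine ⟨(Q : Subgroup ↥(Subgroup.centralizer ({yrep d} : Set G))).map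
      (Subgroup.centralizer ({yrep d} : Set G)).subtype, ?_, ?_⟩
    · exact Q.isPGroup'.map _
    · intro z hz hzo
      have hzH : z ∈ Subgroup.centralizer ({yrep d} : Set G) := by
        rw [Subgroup.mem_centralizer_iff]
        intro w hw
        rw [Set.mem_singleton_iff] at hw
        rw [hw]; exact hz.symm
      obtain ⟨k, hk⟩ := hzo
      have ho : orderOf (⟨z, hzH⟩ : ↥(Subgroup.centralizer ({yrep d} : Set G))) = s ^ k := by
        rw [← hk]; exact Subgroup.orderOf_mk z hzH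
      obtain ⟨h, hh⟩ := exists_conj_mem_sylow Q ⟨z, hzH⟩ ⟨k, ho⟩
      refine ⟨(h : G), ?_, ⟨h * ⟨z, hzH⟩ * h⁻¹, hh, rfl⟩⟩
      exact (Subgroup.mem_centralizer_iff.mp h.2 (yrep d) (Set.mem_singleton _)).symm
  choose T hTp hTconj using hT
  obtain ⟨S0⟩ : Nonempty (Sylow s G) := Sylow.nonempty
  have hg : ∀ d : KS G σ, ∃ g : G, ∀ t ∈ T d, g * t * g⁻¹ ∈ (S0 : Subgroup G) := by
    intro d
    obtain ⟨Q, hQ⟩ := (hTp d).exists_le_sylow
    obtain ⟨g, rfl⟩ := MulAction.exists_smul_eq G Q S0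
    refine ⟨g, fun t ht => ?_⟩
    rw [bs_mem_sylow_smul]
    have : g⁻¹ * (g * t * g⁻¹) * g = t := by group
    rw [this]; exact hQ ht
  choose gc hgc using hg
  have hex : ∀ c : KS G (insert s σ), ∃ d : KS G σ, ∃ z ∈ T d,
      ConjClasses.mk (yrep d * z) = c.1 := by
    intro c
    obtain ⟨x, hx⟩ := ConjClasses.mk_surjective c.1
    have hxo := c.2 x (ConjClasses.mem_carrier_iff_mk_eq.mpr hx)
    obtain ⟨y, z, hxyz, hcomm, hyo, hzo⟩ := exists_sprime_s_decomp x s hs.out
    have hyK : ∀ w ∈ (ConjClasses.mk y).carrier, ∀ r : ℕ, r.Prime → r ∣ orderOf w → r ∈ σ := by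
      intro w hw r hr hrw
      rw [ConjClasses.mem_carrier_iff_mk_eq, ConjClasses.mk_eq_mk_iff_isConj, isConj_iff] at hw
      obtain ⟨a, ha⟩ := hw
      have h1 : orderOf y = orderOf w := by rw [← ha]; exact (MulAut.conj a).orderOf_eq w
      rw [← h1] at hrw
      obtain ⟨h2, h3⟩ := hyo r hr hrw
      have h4 := hxo r hr h2
      rw [Finset.mem_insert] at h4
      rcases h4 with h4 | h4
      · exact absurd h4 h3
      · exact h4
    obtain ⟨d, hd⟩ : ∃ d : KS G σ, d.1 = ConjClasses.mk y := ⟨⟨ConjClasses.mk y, hyK⟩, rfl⟩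
    have h1 : ConjClasses.mk (yrep d) = ConjClasses.mk y := (hyrep d).trans hd
    rw [ConjClasses.mk_eq_mk_iff_isConj, isConj_iff] at h1
    obtain ⟨a, ha⟩ := h1
    have hz' : (a⁻¹ * z * a) * yrep d = yrep d * (a⁻¹ * z * a) := by
      have e1 : yrep d = a⁻¹ * y * a := by rw [← ha]; group
      rw [e1]
      calc a⁻¹ * z * a * (a⁻¹ * y * a) = a⁻¹ * (z * y) * a := by group
        _ = a⁻¹ * (y * z) * a := by rw [hcomm]
        _ = a⁻¹ * y * a * (a⁻¹ * z * a) := by group
    have hz'o : ∃ k : ℕ, orderOf (a⁻¹ * z * a) = s ^ k := by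
      obtain ⟨k, hk⟩ := hzo
      refine ⟨k, ?_⟩
      rw [← hk]
      have := (MulAut.conj a⁻¹).orderOf_eq z
      simpa using this
    obtain ⟨h, hh1, hh2⟩ := hTconj d (a⁻¹ * z * a) hz' hz'o
    refine ⟨d, h * (a⁻¹ * z * a) * h⁻¹, hh2, ?_⟩
    rw [← hx, ConjClasses.mk_eq_mk_iff_isConj, isConj_iff]
    refine ⟨a * h⁻¹, ?_⟩
    have e2 : yrep d * (h * (a⁻¹ * z * a) * h⁻¹) = h * (yrep d * (a⁻¹ * z * a)) * h⁻¹ := by
      calc yrep d * (h * (a⁻¹ * z * a) * h⁻¹) = (yrep d * h) * (a⁻¹ * z * a) * h⁻¹ := by group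
        _ = (h * yrep d) * (a⁻¹ * z * a) * h⁻¹ := by rw [hh1]
        _ = h * (yrep d * (a⁻¹ * z * a)) * h⁻¹ := by group
    rw [e2, hxyz, ← ha]; group
  choose dfun zfun hzT hcz using hex
  have hinj : Function.Injective (fun c : KS G (insert s σ) =>
      ((dfun c, ⟨gc (dfun c) * zfun c * (gc (dfun c))⁻¹, hgc (dfun c) (zfun c) (hzT c)⟩) :
        KS G σ × ↥(S0 : Subgroup G))) := by
    intro c c' hcc
    have h1 : dfun c = dfun c' := congrArg Prod.fst hcc
    have h2 : gc (dfun c) * zfun c * (gc (dfun c))⁻¹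
        = gc (dfun c') * zfun c' * (gc (dfun c'))⁻¹ :=
      congrArg (fun q : KS G σ × ↥(S0 : Subgroup G) => (q.2 : G)) hcc
    rw [h1] at h2
    have h3 : zfun c = zfun c' := mul_left_cancel (mul_right_cancel h2)
    apply Subtype.ext
    rw [← hcz c, ← hcz c', h1, h3]
  have hcard := Nat.card_le_card_of_injective _ hinj
  rw [Nat.card_prod, S0.card_eq_multiplicity] at hcard
  exact hcard

theorem card_KS_union_le {G : Type*} [Group G] [Finite G] (σ τ : Finset ℕ)
    (hτ : ∀ s ∈ τ, s.Prime) :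
    Nat.card (KS G (σ ∪ τ))
      ≤ Nat.card (KS G σ) * τ.prod (fun s => s ^ (Nat.card G).factorization s) := by
  classical
  induction τ using Finset.induction_on with
  | empty => simp
  | insert s τ hs ih =>
    have hsp : s.Prime := hτ s (Finset.mem_insert_self s τ)
    haveI : Fact s.Prime := ⟨hsp⟩
    have h1 : σ ∪ insert s τ = insert s (σ ∪ τ) := Finset.union_insert s σ τ
    rw [h1, Finset.prod_insert hs]
    calc Nat.card (KS G (insert s (σ ∪ τ)))
        ≤ Nat.card (KS G (σ ∪ τ)) * s ^ (Nat.card G).factorization s :=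
          card_KS_insert_le (σ ∪ τ) s
      _ ≤ (Nat.card (KS G σ) * τ.prod (fun s => s ^ (Nat.card G).factorization s))
            * s ^ (Nat.card G).factorization s :=
          Nat.mul_le_mul_right _ (ih (fun t ht => hτ t (Finset.mem_insert_of_mem ht)))
      _ = _ := by ring

/-- Consequences of a normal `p`-complement with abelian Sylow `p`-subgroups. -/
theorem normal_complement_facts {G : Type*} [Group G] [Finite G] {p : ℕ} [hp : Fact p.Prime]
    (P : Sylow p G) (hc : Cfsg.HasNormalPComplement p G)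
    (hab : IsMulCommutative ↥(P : Subgroup G)) :
    ∃ M : Subgroup G, M.Normal ∧ ¬ p ∣ Nat.card M ∧ M.index = Nat.card (P : Subgroup G) ∧
      ∀ x y : G, x * y * x⁻¹ * y⁻¹ ∈ M := by
  obtain ⟨P', M, hMn, hcomp⟩ := hc
  have hcardM : Nat.card M * Nat.card (P' : Subgroup G) = Nat.card G := hcomp.card_mul_card
  have hPP' : Nat.card (P' : Subgroup G) = Nat.card (P : Subgroup G) := by
    rw [P'.card_eq_multiplicity, P.card_eq_multiplicity]
  have hpM : ¬ p ∣ Nat.card M := by
    have h1 := P'.not_dvd_index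
    have h2 := Subgroup.card_mul_index (P' : Subgroup G)
    have h3 : Nat.card M = (P' : Subgroup G).index := by
      have : Nat.card M * Nat.card (P' : Subgroup G)
          = (P' : Subgroup G).index * Nat.card (P' : Subgroup G) := by
        rw [hcardM, ← h2, mul_comm]
      exact Nat.eq_of_mul_eq_mul_right Nat.card_pos this
    rwa [h3]
  have hMP : M ⊓ (P : Subgroup G) = ⊥ := by
    apply Disjoint.eq_bot
    apply Subgroup.disjoint_of_coprime_natCard
    rw [P.card_eq_multiplicity]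
    exact Nat.Coprime.pow_right _
      (Nat.coprime_comm.mp ((Nat.Prime.coprime_iff_not_dvd hp.out).mpr hpM))
  have hidx : M.index = Nat.card (P : Subgroup G) := by
    have h2 := Subgroup.card_mul_index M
    have : Nat.card M * M.index = Nat.card M * Nat.card (P : Subgroup G) := by
      rw [h2, ← hPP', hcardM]
    exact Nat.eq_of_mul_eq_mul_left Nat.card_pos this
  let f : ↥(P : Subgroup G) →* G ⧸ M := (QuotientGroup.mk' M).comp (P : Subgroup G).subtype
  have hfinj : Function.Injective f := by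
    rw [injective_iff_map_eq_one]
    intro x hx
    have h1 : (x : G) ∈ M := (QuotientGroup.eq_one_iff _).mp hx
    have h2 : (x : G) ∈ M ⊓ (P : Subgroup G) := ⟨h1, x.2⟩
    rw [hMP, Subgroup.mem_bot] at h2
    exact Subtype.ext h2
  have hfsurj : Function.Surjective f := by
    apply (hfinj.bijective_of_nat_card_le _).2
    rw [← Subgroup.index_eq_card, hidx]
  refine ⟨M, hMn, hpM, hidx, ?_⟩
  intro x y
  obtain ⟨u, hu⟩ := hfsurj (QuotientGroup.mk' M x)
  obtain ⟨v, hv⟩ := hfsurj (QuotientGroup.mk' M y)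
  have hu' : QuotientGroup.mk' M (u : G) = QuotientGroup.mk' M x := hu
  have hv' : QuotientGroup.mk' M (v : G) = QuotientGroup.mk' M y := hv
  apply (QuotientGroup.eq_one_iff _).mp
  show QuotientGroup.mk' M (x * y * x⁻¹ * y⁻¹) = 1
  rw [map_mul, map_mul, map_mul, map_inv, map_inv, ← hu', ← hv', ← map_inv, ← map_inv,
    ← map_mul, ← map_mul, ← map_mul]
  have e : u * v = v * u := hab.is_comm.comm u v
  have e' : (u : G) * v = v * u := congrArg Subtype.val e
  have h3 : (u : G) * v * (u : G)⁻¹ * (v : G)⁻¹ = 1 := by rw [e']; group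
  rw [h3, map_one]

end Cfsg.Agent.Helper21
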