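import Mathlib
import Cfsg.Prelude.Def_Transfer
import Cfsg.Prelude.Def_OddOrderLocal
import Cfsg.Agent.Helper21.K2Classes
import Cfsg.Agent.Helper21.KpiClasses

/-!
Classes of `π`-elements for a set of primes `π` containing `2` (helper21).
-/

set_option autoImplicit false
set_option linter.style.haveILetI false
open scoped Pointwise

namespace Cfsg.Agent.Helper21

/-- In a group of odd order, `3 k(T) ≤ |T| + 2 |Z(T)|`. -/
theorem odd_classes_le {T : Type*} [Group T] [Finite T] (hodd : Odd (Nat.card T)) :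
    3 * Nat.card (ConjClasses T) ≤ Nat.card T + 2 * Nat.card (Subgroup.center T) := by
  classical
  letI : Fintype T := Fintype.ofFinite _
  letI : Fintype (ConjClasses T) := Fintype.ofFinite _
  obtain ⟨W, hW⟩ : ∃ W : T → ℕ, ∀ x, W x = if x ∈ Subgroup.center T then 3 else 1 :=
    ⟨fun x => if x ∈ Subgroup.center T then 3 else 1, fun x => rfl⟩
  have hW1 : ∀ x : T, 1 ≤ W x := by
    intro x
    rw [hW]
    split_ifs <;> omega
  have hcardZ : (Finset.univ.filter fun x : T => x ∈ Subgroup.center T).card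
      = Nat.card (Subgroup.center T) := by
    rw [← Fintype.card_subtype, ← Nat.card_eq_fintype_card]
  have hpt : ∀ x : T, W x = 1 + 2 * (if x ∈ Subgroup.center T then 1 else 0) := by
    intro x
    rw [hW]
    split_ifs <;> rfl
  have htot : ∑ x : T, W x = Nat.card T + 2 * Nat.card (Subgroup.center T) := by
    have hsum := Finset.sum_congr rfl (fun x (_ : x ∈ (Finset.univ : Finset T)) => hpt x)
    rw [Finset.sum_add_distrib, Finset.sum_const, ← Finset.mul_sum, Finset.sum_boole, hcardZ,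
      Finset.card_univ, smul_eq_mul, mul_one, ← Nat.card_eq_fintype_card] at hsum
    simp only [Nat.cast_id] at hsum
    exact hsum
  have hoddo : ∀ u : T, (orderOf u).Coprime 2 := by
    intro u
    exact Nat.Coprime.coprime_dvd_left (orderOf_dvd_natCard u) (Nat.coprime_two_right.mpr hodd)
  have key1 : ∀ c : ConjClasses T,
      3 ≤ ∑ x ∈ Finset.univ.filter (fun x : T => ConjClasses.mk x = c), W x := by
    intro c
    have hmemfib : ∀ x : T, ConjClasses.mk x = c →
        x ∈ Finset.univ.filter (fun x : T => ConjClasses.mk x = c) :=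
      fun x hx => Finset.mem_filter.mpr ⟨Finset.mem_univ _, hx⟩
    obtain ⟨x, hxc⟩ := ConjClasses.mk_surjective c
    by_cases hxZ : x ∈ Subgroup.center T
    · have := Finset.single_le_sum (f := W) (fun _ _ => Nat.zero_le _) (hmemfib x hxc)
      rwa [hW x, if_pos hxZ] at this
    · obtain ⟨u, hux⟩ : ∃ u : T, ¬ u * x = x * u := by
        by_contra hcon
        apply hxZ
        rw [Subgroup.mem_center_iff]
        intro g
        by_contra h
        exact hcon ⟨g, h⟩
      have hyc : ConjClasses.mk (u * x * u⁻¹) = c := by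
        rw [← hxc, ConjClasses.mk_eq_mk_iff_isConj, isConj_iff]
        exact ⟨u⁻¹, by group⟩
      have hzc : ConjClasses.mk (u * (u * x * u⁻¹) * u⁻¹) = c := by
        rw [← hxc, ConjClasses.mk_eq_mk_iff_isConj, isConj_iff]
        exact ⟨u⁻¹ * u⁻¹, by group⟩
      have hxy : x ≠ u * x * u⁻¹ := by
        intro h
        exact hux (mul_inv_eq_iff_eq_mul.mp h.symm)
      have hyz : u * x * u⁻¹ ≠ u * (u * x * u⁻¹) * u⁻¹ := by
        intro h3
        have h4 : x = u * x * u⁻¹ := by
          have h5 : u⁻¹ * (u * x * u⁻¹) * u = u⁻¹ * (u * (u * x * u⁻¹) * u⁻¹) * u := by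
            rw [← h3]
          have h6 : u⁻¹ * (u * x * u⁻¹) * u = x := by group
          have h7 : u⁻¹ * (u * (u * x * u⁻¹) * u⁻¹) * u = u * x * u⁻¹ := by group
          rw [h6, h7] at h5
          exact h5
        exact hxy h4
      have hxz : x ≠ u * (u * x * u⁻¹) * u⁻¹ := by
        intro h3
        have h4 : u ^ (2 ^ 1) * x = x * u ^ (2 ^ 1) := by
          have h5 : u ^ (2 ^ 1) * x * (u ^ (2 ^ 1))⁻¹ = x := by
            have h8 : u ^ (2 ^ 1) * x * (u ^ (2 ^ 1))⁻¹ = u * (u * x * u⁻¹) * u⁻¹ := by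
              rw [pow_one, pow_two]; group
            rw [h8]; exact h3.symm
          exact mul_inv_eq_iff_eq_mul.mp h5
        exact hux (comm_of_pow_two_pow_comm u _ (hoddo u) 1 h4)
      have hcard : ({x, u * x * u⁻¹, u * (u * x * u⁻¹) * u⁻¹} : Finset T).card = 3 :=
        Finset.card_eq_three.mpr ⟨_, _, _, hxy, hxz, hyz, rfl⟩
      have hsub : ({x, u * x * u⁻¹, u * (u * x * u⁻¹) * u⁻¹} : Finset T)
          ⊆ Finset.univ.filter (fun x : T => ConjClasses.mk x = c) := by
        intro a ha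
        simp only [Finset.mem_insert, Finset.mem_singleton] at ha
        rcases ha with rfl | rfl | rfl
        · exact hmemfib _ hxc
        · exact hmemfib _ hyc
        · exact hmemfib _ hzc
      have h5 := Finset.card_nsmul_le_sum
        ({x, u * x * u⁻¹, u * (u * x * u⁻¹) * u⁻¹} : Finset T) W 1 (fun a _ => hW1 a)
      rw [hcard] at h5
      exact h5.trans (Finset.sum_le_sum_of_subset hsub)
  have hfib := Finset.sum_fiberwise (Finset.univ : Finset T)
    (fun x : T => ConjClasses.mk x) W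
  have h6 := Finset.card_nsmul_le_sum (Finset.univ : Finset (ConjClasses T))
    (fun c => ∑ x ∈ Finset.univ.filter (fun x : T => ConjClasses.mk x = c), W x) 3
    (fun c _ => key1 c)
  rw [hfib, htot, Finset.card_univ, smul_eq_mul, ← Nat.card_eq_fintype_card] at h6
  omega

/-- A group of odd order with more than `|T|/2` conjugacy classes is abelian. -/
theorem odd_abelian_of_classes {T : Type*} [Group T] [Finite T] (hodd : Odd (Nat.card T))
    (h : Nat.card T < 2 * Nat.card (ConjClasses T)) : ∀ a b : T, a * b = b * a := by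
  have h1 := odd_classes_le hodd
  have h2 : Nat.card T < 4 * Nat.card (Subgroup.center T) := by omega
  have h3 := Subgroup.card_mul_index (Subgroup.center T)
  have hidx4 : (Subgroup.center T).index < 4 := by
    by_contra hcon
    have h5 : 4 ≤ (Subgroup.center T).index := by omega
    have h4 : Nat.card (Subgroup.center T) * 4 ≤ Nat.card T := by
      rw [← h3]; exact Nat.mul_le_mul_left _ h5
    omega
  have hidxodd : Odd (Subgroup.center T).index := by
    rcases Nat.even_or_odd (Subgroup.center T).index with he | ho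
    · exfalso
      have : Even (Nat.card T) := by rw [← h3]; exact Even.mul_left he _
      exact (Nat.not_even_iff_odd.mpr hodd) this
    · exact ho
  have hidx13 : (Subgroup.center T).index = 1 ∨ (Subgroup.center T).index = 3 := by
    obtain ⟨t, ht⟩ := hidxodd
    omega
  rcases hidx13 with h1' | h3'
  · rw [Subgroup.index_eq_one] at h1'
    intro a b
    have ha : a ∈ Subgroup.center T := h1' ▸ Subgroup.mem_top a
    exact ((Subgroup.mem_center_iff.mp ha) b).symm
  · have hc3 : Nat.card (T ⧸ Subgroup.center T) = 3 := by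
      rw [← Subgroup.index_eq_card]; exact h3'
    haveI : Fact (Nat.Prime 3) := ⟨Nat.prime_three⟩
    haveI : IsCyclic (T ⧸ Subgroup.center T) := isCyclic_of_prime_card hc3
    have hcm := MonoidHom.isMulCommutative_of_isCyclic_of_ker_le_center
      (QuotientGroup.mk' (Subgroup.center T)) (by rw [QuotientGroup.ker_mk'])
    exact fun a b => hcm.is_comm.comm a b

/-- In a group of odd order, `2 k_r(H) > |P|` forces a normal `r`-complement with abelian
quotient. -/
theorem odd_normal_complement {H : Type*} [Group H] [Finite H] (hodd : Odd (Nat.card H))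
    {r : ℕ} [hr : Fact r.Prime] (hr2 : r ≠ 2) (P : Sylow r H)
    (h : Nat.card (P : Subgroup H)
      < 2 * Nat.card {c : ConjClasses H // ∀ x ∈ c.carrier, ∃ k : ℕ, orderOf x = r ^ k}) :
    ∃ K : Subgroup H, K.Normal ∧ ¬ r ∣ Nat.card K ∧ K.index = Nat.card (P : Subgroup H) ∧
      ∀ x y : H, x * y * x⁻¹ * y⁻¹ ∈ K := by
  have hrp := hr.out
  have hr3 : 3 ≤ r := by
    have := hrp.two_le
    omega
  have hkP := k2_le_kP P
  have hPodd : Odd (Nat.card (P : Subgroup H)) :=
    Odd.of_dvd_nat hodd (Subgroup.card_subgroup_dvd_card _)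
  have habP := odd_abelian_of_classes hPodd (by omega)
  have hab : IsMulCommutative ↥(P : Subgroup H) := ⟨⟨habP⟩⟩
  have hPC : (P : Subgroup H) ≤ Subgroup.centralizer ((P : Subgroup H) : Set H) := by
    intro x hx
    rw [Subgroup.mem_centralizer_iff]
    intro y hy
    exact congrArg Subtype.val (habP ⟨y, hy⟩ ⟨x, hx⟩)
  have hA := pclasses_mul_le P
  have hCN : Subgroup.centralizer ((P : Subgroup H) : Set H)
      ≤ Subgroup.normalizer ((P : Subgroup H) : Set H) := Subgroup.centralizer_le_normalizer _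
  obtain ⟨j, hj⟩ := Subgroup.card_dvd_of_le hCN
  obtain ⟨a, ha⟩ : ∃ a : ℕ, a = Nat.card (P : Subgroup H) := ⟨_, rfl⟩
  obtain ⟨k, hk⟩ : ∃ k : ℕ, k = Nat.card {c : ConjClasses H //
      ∀ x ∈ c.carrier, ∃ k : ℕ, orderOf x = r ^ k} := ⟨_, rfl⟩
  obtain ⟨n, hn⟩ : ∃ n : ℕ, n = Nat.card (Subgroup.normalizer ((P : Subgroup H) : Set H)) :=
    ⟨_, rfl⟩
  obtain ⟨c, hc⟩ : ∃ c : ℕ, c = Nat.card (Subgroup.centralizer ((P : Subgroup H) : Set H)) :=
    ⟨_, rfl⟩
  rw [← ha, ← hk] at h
  rw [← ha, ← hk, ← hn, ← hc] at hA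
  rw [← hn, ← hc] at hj
  have hc0 : 0 < c := by rw [hc]; exact Nat.card_pos
  have hn0 : 0 < n := by rw [hn]; exact Nat.card_pos
  have ha0 : 0 < a := by rw [ha]; exact Nat.card_pos
  obtain ⟨m, hm⟩ : ∃ m : ℕ, r = m + 1 := ⟨r - 1, by omega⟩
  have hm2 : 2 ≤ m := by omega
  have hm1 : r - 1 = m := by omega
  rw [hm1] at hA
  have e1 : a * (r * n) < a * (2 * (m * c + n)) := by
    calc a * (r * n) < (2 * k) * (r * n) :=
          Nat.mul_lt_mul_of_pos_right h (Nat.mul_pos (by omega) hn0)
      _ = 2 * (r * (k * n)) := by ring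
      _ ≤ 2 * (a * (m * c + n)) := Nat.mul_le_mul_left _ hA
      _ = a * (2 * (m * c + n)) := by ring
  have e2 : r * n < 2 * (m * c + n) := Nat.lt_of_mul_lt_mul_left e1
  rw [hj, hm] at e2
  have e3 : c * ((m + 1) * j) < c * (2 * (m + j)) := by
    calc c * ((m + 1) * j) = (m + 1) * (c * j) := by ring
      _ < 2 * (m * c + c * j) := e2
      _ = c * (2 * (m + j)) := by ring
  have e4 : (m + 1) * j < 2 * (m + j) := Nat.lt_of_mul_lt_mul_left e3
  have hnodd : Odd n := by
    rw [hn]; exact Odd.of_dvd_nat hodd (Subgroup.card_subgroup_dvd_card _)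
  have hjodd : Odd j := Odd.of_dvd_nat hnodd ⟨c, by rw [hj, mul_comm]⟩
  have hj3 : j ≤ 3 := by
    by_contra hcon
    have hj4 : 4 ≤ j := by omega
    nlinarith
  have hj1 : j = 1 := by
    obtain ⟨t, ht⟩ := hjodd
    have ht01 : t = 0 ∨ t = 1 := by omega
    rcases ht01 with rfl | rfl
    · omega
    · exfalso
      have hj3' : j = 3 := by omega
      rw [hj3'] at e4 hj
      have hm2' : m = 2 := by omega
      have hr3' : r = 3 := by omega
      -- `P ≤ C` gives `|P| ∣ c`, so `r |P| ∣ n ∣ |H|`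
      have hac : a ∣ c := by rw [ha, hc]; exact Subgroup.card_dvd_of_le hPC
      have hnH : n ∣ Nat.card H := by rw [hn]; exact Subgroup.card_subgroup_dvd_card _
      have hra : r * a ∣ Nat.card H := by
        refine Dvd.dvd.trans ?_ hnH
        rw [hj, hr3', mul_comm c 3]
        exact Nat.mul_dvd_mul_left 3 hac
      rw [ha, P.card_eq_multiplicity, ← pow_succ'] at hra
      exact Nat.pow_succ_factorization_not_dvd Nat.card_pos.ne' hrp hra
  have hNC : Subgroup.normalizer ((P : Subgroup H) : Set H)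
      ≤ Subgroup.centralizer ((P : Subgroup H) : Set H) := by
    have h5 := Subgroup.eq_of_le_of_card_ge hCN (by rw [← hn, ← hc, hj, hj1, mul_one])
    rw [h5]
  have hcompl : Cfsg.HasNormalPComplement r H :=
    ⟨P, (MonoidHom.transferSylow P hNC).ker, inferInstance,
      MonoidHom.ker_transferSylow_isComplement' P hNC⟩
  exact normal_complement_facts P hcompl hab

/-- If `M` is normal of index prime to `r`, the classes of `r`-elements of `G` inject into
those of `M`. -/
theorem kr_le_kr_of_normal {G : Type*} [Group G] [Finite G] {r : ℕ} [Fact r.Prime]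
    (M : Subgroup G) [hMn : M.Normal] (hM : (M.index).Coprime r) :
    Nat.card {c : ConjClasses G // ∀ x ∈ c.carrier, ∃ k : ℕ, orderOf x = r ^ k}
      ≤ Nat.card {c : ConjClasses ↥M // ∀ x ∈ c.carrier, ∃ k : ℕ, orderOf x = r ^ k} := by
  have hrep : ∀ c : {c : ConjClasses G // ∀ x ∈ c.carrier, ∃ k : ℕ, orderOf x = r ^ k},
      ∃ x : ↥M, ConjClasses.mk (x : G) = c.1 ∧ ∃ k : ℕ, orderOf x = r ^ k := by
    intro c
    obtain ⟨g, hg⟩ := ConjClasses.mk_surjective c.1
    obtain ⟨k, hk⟩ := c.2 g (ConjClasses.mem_carrier_iff_mk_eq.mpr hg)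
    have hgM : g ∈ M := by
      have h1 : orderOf (QuotientGroup.mk' M g) ∣ M.index := by
        rw [Subgroup.index_eq_card]; exact orderOf_dvd_natCard _
      have h2 : orderOf (QuotientGroup.mk' M g) ∣ r ^ k := by
        apply orderOf_dvd_of_pow_eq_one
        rw [← map_pow, ← hk, pow_orderOf_eq_one, map_one]
      have h3 : orderOf (QuotientGroup.mk' M g) = 1 :=
        Nat.eq_one_of_dvd_coprimes (Nat.Coprime.pow_right k hM) h1 h2
      rw [orderOf_eq_one_iff] at h3
      exact (QuotientGroup.eq_one_iff _).mp h3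
    exact ⟨⟨g, hgM⟩, hg, k, by rw [← hk]; exact Subgroup.orderOf_mk g hgM⟩
  choose rep hrep hrepo using hrep
  have hwd : ∀ c : {c : ConjClasses G // ∀ x ∈ c.carrier, ∃ k : ℕ, orderOf x = r ^ k},
      ∀ y ∈ (ConjClasses.mk (rep c)).carrier, ∃ k : ℕ, orderOf y = r ^ k := by
    intro c y hy
    rw [ConjClasses.mem_carrier_iff_mk_eq, ConjClasses.mk_eq_mk_iff_isConj, isConj_iff] at hy
    obtain ⟨u, hu⟩ := hy
    obtain ⟨k, hk⟩ := hrepo c
    refine ⟨k, ?_⟩
    rw [← hk, ← hu]
    exact ((MulAut.conj u).orderOf_eq y).symm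
  apply Nat.card_le_card_of_injective (fun c =>
    (⟨ConjClasses.mk (rep c), hwd c⟩ :
      {c : ConjClasses ↥M // ∀ x ∈ c.carrier, ∃ k : ℕ, orderOf x = r ^ k}))
  intro c d hcd
  have h1 : ConjClasses.mk (rep c) = ConjClasses.mk (rep d) := congrArg Subtype.val hcd
  rw [ConjClasses.mk_eq_mk_iff_isConj, isConj_iff] at h1
  obtain ⟨u, hu⟩ := h1
  apply Subtype.ext
  rw [← hrep c, ← hrep d, ConjClasses.mk_eq_mk_iff_isConj, isConj_iff]
  refine ⟨(u : G), ?_⟩
  have h2 := congrArg Subtype.val hu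
  simpa using h2

/-- A normal `r`-complement of a normal subgroup `M` is normal in the whole group. -/
theorem map_complement_normal {G : Type*} [Group G] [Finite G] {r : ℕ} [hr : Fact r.Prime]
    (M : Subgroup G) [hMn : M.Normal] (K : Subgroup ↥M) [hKn : K.Normal]
    (hrK : ¬ r ∣ Nat.card K) (a : ℕ) (hidx : K.index = r ^ a) :
    (K.map M.subtype).Normal := by
  have hchar : ∀ x : ↥M, x ∈ K ↔ (orderOf x).Coprime r := by
    intro x
    constructor
    · intro hx
      have h1 : orderOf x ∣ Nat.card K := Subgroup.orderOf_dvd_natCard K hx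
      exact Nat.Coprime.coprime_dvd_left h1
        (Nat.Coprime.symm ((Nat.Prime.coprime_iff_not_dvd hr.out).mpr hrK))
    · intro hx
      have h1 : orderOf (QuotientGroup.mk' K x) ∣ r ^ a := by
        rw [← hidx, Subgroup.index_eq_card]; exact orderOf_dvd_natCard _
      have h2 : orderOf (QuotientGroup.mk' K x) ∣ orderOf x := by
        apply orderOf_dvd_of_pow_eq_one
        rw [← map_pow, pow_orderOf_eq_one, map_one]
      have h3 : orderOf (QuotientGroup.mk' K x) = 1 :=
        Nat.eq_one_of_dvd_coprimes (Nat.Coprime.pow_right a hx) h2 h1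
      rw [orderOf_eq_one_iff] at h3
      exact (QuotientGroup.eq_one_iff _).mp h3
  refine ⟨fun n hn g => ?_⟩
  obtain ⟨x, hxK, rfl⟩ := hn
  have hgM : g * (x : G) * g⁻¹ ∈ M := hMn.conj_mem _ x.2 g
  refine ⟨⟨g * (x : G) * g⁻¹, hgM⟩, ?_, rfl⟩
  have hxK' : (orderOf x).Coprime r := (hchar x).mp hxK
  apply (hchar _).mpr
  have h1 : orderOf (⟨g * (x : G) * g⁻¹, hgM⟩ : ↥M) = orderOf x := by
    rw [Subgroup.orderOf_mk, ← Subgroup.orderOf_coe x]
    exact (MulAut.conj g).orderOf_eq (x : G)
  rw [h1]; exact hxK'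

/-- Main theorem for sets of primes containing `2`: `2 k_π(G) > |G|_π` forces a normal
`π`-complement and an abelian Hall subgroup for the odd primes of `π`. -/
theorem kpi_two_main {G : Type*} [Group G] [Finite G] (π : Finset ℕ) (hπ : ∀ r ∈ π, r.Prime)
    (h2 : 2 ∈ π)
    (hk : π.prod (fun r => r ^ (Nat.card G).factorization r) < 2 * Nat.card
      {c : ConjClasses G // ∀ x ∈ c.carrier, ∀ r : ℕ, r.Prime → r ∣ orderOf x → r ∈ π}) :
    (∃ N : Subgroup G, N.Normal ∧ (∀ r : ℕ, r.Prime → r ∣ Nat.card ↥N → r ∉ π) ∧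
      ∀ r : ℕ, r.Prime → r ∣ N.index → r ∈ π) ∧
    ∃ H : Subgroup G, Cfsg.IsPiHall ((↑π : Set ℕ) \ {2}) H ∧ IsMulCommutative ↥H := by
  classical
  have hE1 : ∀ r ∈ π, r ^ (Nat.card G).factorization r < 2 * Nat.card
      {c : ConjClasses G // ∀ x ∈ c.carrier, ∃ k : ℕ, orderOf x = r ^ k} := by
    intro r hr
    have hrp : r.Prime := hπ r hr
    have h1 := card_KS_union_le (G := G) {r} (π.erase r)
      (fun s hs => hπ s (Finset.mem_of_mem_erase hs))
    have h2' : ({r} : Finset ℕ) ∪ π.erase r = π := by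
      rw [Finset.singleton_union, Finset.insert_erase hr]
    rw [h2'] at h1
    have h3 := Finset.mul_prod_erase π (fun s => s ^ (Nat.card G).factorization s) hr
    have hconv : ∀ c : KS G {r}, ∀ x ∈ c.1.carrier, ∃ k : ℕ, orderOf x = r ^ k := by
      intro c x hx
      exact ⟨_, Nat.eq_prime_pow_of_unique_prime_dvd (orderOf_pos x).ne'
        (fun {d} hd hdx => Finset.mem_singleton.mp (c.2 x hx d hd hdx))⟩
    have h4 : Nat.card (KS G {r})
        ≤ Nat.card {c : ConjClasses G // ∀ x ∈ c.carrier, ∃ k : ℕ, orderOf x = r ^ k} :=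
      Nat.card_le_card_of_injective (fun c => ⟨c.1, hconv c⟩)
        (fun c c' hcc => Subtype.ext (show c.1 = c'.1 from
          congrArg (fun q : {c : ConjClasses G // ∀ x ∈ c.carrier, ∃ k : ℕ, orderOf x = r ^ k} =>
            q.1) hcc))
    obtain ⟨E, hE⟩ : ∃ E : ℕ, E = (π.erase r).prod (fun s => s ^ (Nat.card G).factorization s) :=
      ⟨_, rfl⟩
    rw [← hE] at h1 h3
    obtain ⟨kr, hkr⟩ : ∃ kr : ℕ, kr = Nat.card {c : ConjClasses G //
        ∀ x ∈ c.carrier, ∃ k : ℕ, orderOf x = r ^ k} := ⟨_, rfl⟩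
    rw [← hkr] at h4 ⊢
    have h5 : r ^ (Nat.card G).factorization r * E < 2 * kr * E := by
      calc r ^ (Nat.card G).factorization r * E
          = π.prod (fun s => s ^ (Nat.card G).factorization s) := h3
        _ < 2 * Nat.card (KS G π) := hk
        _ ≤ 2 * (Nat.card (KS G {r}) * E) := Nat.mul_le_mul_left _ h1
        _ ≤ 2 * (kr * E) := Nat.mul_le_mul_left _ (Nat.mul_le_mul_right _ h4)
        _ = 2 * kr * E := by ring
    exact Nat.lt_of_mul_lt_mul_right h5
  -- the normal 2-complement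
  haveI h2f : Fact (Nat.Prime 2) := ⟨Nat.prime_two⟩
  obtain ⟨P2⟩ : Nonempty (Sylow 2 G) := Sylow.nonempty
  have hk2 : Nat.card (P2 : Subgroup G) < 2 * Nat.card
      {c : ConjClasses G // ∀ x ∈ c.carrier, ∃ k : ℕ, orderOf x = 2 ^ k} := by
    rw [P2.card_eq_multiplicity]; exact hE1 2 h2
  obtain ⟨P2', M, hMn, hcomp⟩ := k2_normal_complement P2 hk2
  have hcardM : Nat.card M * Nat.card (P2' : Subgroup G) = Nat.card G := hcomp.card_mul_card
  have hMidx : M.index = 2 ^ (Nat.card G).factorization 2 := by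
    have h3 := Subgroup.card_mul_index M
    have h4 : Nat.card M * M.index = Nat.card M * Nat.card (P2' : Subgroup G) := by
      rw [h3, hcardM]
    rw [Nat.eq_of_mul_eq_mul_left Nat.card_pos h4, P2'.card_eq_multiplicity]
  have hModd : Odd (Nat.card M) := by
    have h1 := P2'.not_dvd_index
    have h3 := Subgroup.card_mul_index (P2' : Subgroup G)
    have h4 : Nat.card M = (P2' : Subgroup G).index := by
      have : Nat.card M * Nat.card (P2' : Subgroup G)
          = (P2' : Subgroup G).index * Nat.card (P2' : Subgroup G) := by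
        rw [hcardM, ← h3, mul_comm]
      exact Nat.eq_of_mul_eq_mul_right Nat.card_pos this
    rw [h4]
    exact Nat.odd_iff.mpr (Nat.two_dvd_ne_zero.mp h1)
  have hM2 : ¬ 2 ∣ Nat.card M := fun hd =>
    (Nat.not_even_iff_odd.mpr hModd) (even_iff_two_dvd.mpr hd)
  have hkey : ∀ r ∈ π, ∃ L : Subgroup G, L.Normal ∧ ¬ r ∣ Nat.card L ∧
      (∀ q : ℕ, q.Prime → q ∣ L.index → q ∈ π) ∧
      ∀ x ∈ M, ∀ y ∈ M, x * y * x⁻¹ * y⁻¹ ∈ L := by
    intro r hr
    have hrp : r.Prime := hπ r hr
    by_cases hr2 : r = 2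
    · refine ⟨M, hMn, ?_, ?_, ?_⟩
      · rw [hr2]; exact hM2
      · intro q hq hqd
        rw [hMidx] at hqd
        have h5 := (Nat.prime_dvd_prime_iff_eq hq Nat.prime_two).mp (hq.dvd_of_dvd_pow hqd)
        rw [h5]; exact h2
      · intro x hx y hy
        exact M.mul_mem (M.mul_mem (M.mul_mem hx hy) (M.inv_mem hx)) (M.inv_mem hy)
    · haveI : Fact r.Prime := ⟨hrp⟩
      haveI := hMn
      obtain ⟨P'⟩ : Nonempty (Sylow r ↥M) := Sylow.nonempty
      have hMcop : (M.index).Coprime r := by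
        rw [hMidx]
        exact Nat.Coprime.pow_left _
          ((Nat.coprime_primes Nat.prime_two hrp).mpr (Ne.symm hr2))
      have hkM := kr_le_kr_of_normal (r := r) M hMcop
      have hP'le : Nat.card (P' : Subgroup ↥M) ≤ r ^ (Nat.card G).factorization r := by
        rw [P'.card_eq_multiplicity]
        apply Nat.pow_le_pow_right hrp.pos
        exact (Nat.factorization_le_iff_dvd Nat.card_pos.ne' Nat.card_pos.ne').mpr
          (Subgroup.card_subgroup_dvd_card M) r
      have hlt : Nat.card (P' : Subgroup ↥M) < 2 * Nat.card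
          {c : ConjClasses ↥M // ∀ x ∈ c.carrier, ∃ k : ℕ, orderOf x = r ^ k} := by
        have h5 := hE1 r hr
        omega
      obtain ⟨K, hKn, hrK, hKidx, hKcomm⟩ := odd_normal_complement hModd hr2 P' hlt
      haveI := hKn
      have hKidx' : K.index = r ^ (Nat.card ↥M).factorization r := by
        rw [hKidx, P'.card_eq_multiplicity]
      refine ⟨K.map M.subtype, map_complement_normal M K hrK _ hKidx', ?_, ?_, ?_⟩
      · rw [Subgroup.card_map_of_injective M.subtype_injective]; exact hrK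
      · intro q hq hqd
        rw [Subgroup.index_map_subtype, hKidx', hMidx] at hqd
        rcases (Nat.Prime.dvd_mul hq).mp hqd with h | h
        · have h5 := (Nat.prime_dvd_prime_iff_eq hq hrp).mp (hq.dvd_of_dvd_pow h)
          rw [h5]; exact hr
        · have h5 := (Nat.prime_dvd_prime_iff_eq hq Nat.prime_two).mp (hq.dvd_of_dvd_pow h)
          rw [h5]; exact h2
      · intro x hx y hy
        exact ⟨⟨x, hx⟩ * ⟨y, hy⟩ * ⟨x, hx⟩⁻¹ * ⟨y, hy⟩⁻¹, hKcomm ⟨x, hx⟩ ⟨y, hy⟩, rfl⟩
  choose! L hLn hrL hLidx hLcomm using hkey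
  obtain ⟨N, hNdef⟩ : ∃ N : Subgroup G, N = ⨅ r ∈ π, L r := ⟨_, rfl⟩
  have hNle : ∀ r ∈ π, N ≤ L r := fun r hr => by rw [hNdef]; exact iInf₂_le r hr
  have hNmem : ∀ x : G, (∀ r ∈ π, x ∈ L r) → x ∈ N := by
    intro x hx
    rw [hNdef]
    simp only [Subgroup.mem_iInf]
    exact hx
  have hNn : N.Normal := by
    rw [hNdef]
    apply Subgroup.normal_iInf_normal
    intro r
    apply Subgroup.normal_iInf_normal
    intro hr
    exact hLn r hr
  have hb : ∀ r : ℕ, r.Prime → r ∣ Nat.card N → r ∉ π := by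
    intro r _ hrN hr
    exact hrL r hr (hrN.trans (Subgroup.card_dvd_of_le (hNle r hr)))
  have hc : ∀ r : ℕ, r.Prime → r ∣ N.index → r ∈ π := by
    intro r hrp hrN
    by_contra hr
    haveI : Fact r.Prime := ⟨hrp⟩
    obtain ⟨R⟩ : Nonempty (Sylow r G) := Sylow.nonempty
    have hRN : (R : Subgroup G) ≤ N := by
      intro x hx
      apply hNmem
      intro s hs
      haveI := hLn s hs
      have h1 : orderOf (QuotientGroup.mk' (L s) x) ∣ (L s).index := by
        rw [Subgroup.index_eq_card]; exact orderOf_dvd_natCard _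
      obtain ⟨k, hk⟩ := R.isPGroup' ⟨x, hx⟩
      have h2'' : orderOf (QuotientGroup.mk' (L s) x) ∣ r ^ k := by
        apply orderOf_dvd_of_pow_eq_one
        rw [← map_pow]
        have h3 : x ^ r ^ k = 1 := by
          have := congrArg Subtype.val hk
          simpa using this
        rw [h3, map_one]
      have h3 : orderOf (QuotientGroup.mk' (L s) x) = 1 := by
        by_contra hne
        obtain ⟨q, hq, hqd⟩ := Nat.exists_prime_and_dvd hne
        have hqr : q = r :=
          (Nat.prime_dvd_prime_iff_eq hq hrp).mp (hq.dvd_of_dvd_pow (hqd.trans h2''))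
        exact hr (hqr ▸ hLidx s hs q hq (hqd.trans h1))
      rw [orderOf_eq_one_iff] at h3
      exact (QuotientGroup.eq_one_iff _).mp h3
    have h4 := Subgroup.index_dvd_of_le hRN
    exact R.not_dvd_index (hrN.trans h4)
  refine ⟨⟨N, hNn, hb, hc⟩, ?_⟩
  have hcop : Nat.Coprime (Nat.card N) N.index := by
    apply Nat.coprime_of_dvd
    intro k hk hkN hkI
    exact hb k hk hkN (hc k hk hkI)
  haveI := hNn
  obtain ⟨H, hH⟩ := Subgroup.exists_right_complement'_of_coprime hcop
  have hcard : Nat.card N * Nat.card H = Nat.card G := hH.card_mul_card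
  have hHcard : Nat.card H = N.index := by
    have := Subgroup.card_mul_index N
    exact Nat.eq_of_mul_eq_mul_left Nat.card_pos (hcard.trans this.symm)
  have hHidx : H.index = Nat.card N := by
    have := Subgroup.card_mul_index H
    exact Nat.eq_of_mul_eq_mul_left (Nat.card_pos (α := H))
      (this.trans (hcard.symm.trans (mul_comm _ _)))
  refine ⟨H ⊓ M, ⟨?_, ?_⟩, ?_⟩
  · intro q hq hqH
    have hq1 : q ∣ Nat.card H := hqH.trans (Subgroup.card_dvd_of_le inf_le_left)
    have hq2 : q ∣ Nat.card M := hqH.trans (Subgroup.card_dvd_of_le inf_le_right)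
    rw [hHcard] at hq1
    refine ⟨Finset.mem_coe.mpr (hc q hq hq1), ?_⟩
    intro hq2'
    rw [Set.mem_singleton_iff] at hq2'
    rw [hq2'] at hq2
    exact hM2 hq2
  · intro q hq hqπ hqI
    obtain ⟨hqπ1, hqπ2⟩ := hqπ
    have h1 : (H ⊓ M).relIndex H * H.index = (H ⊓ M).index :=
      Subgroup.relIndex_mul_index inf_le_left
    rw [Subgroup.inf_relIndex_left] at h1
    rw [← h1, hHidx] at hqI
    rcases (Nat.Prime.dvd_mul hq).mp hqI with h | h
    · haveI := hMn
      have h3 : M.relIndex H ∣ M.index := Subgroup.relIndex_dvd_index_of_normal M H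
      have h4 := h.trans h3
      rw [hMidx] at h4
      have h5 := (Nat.prime_dvd_prime_iff_eq hq Nat.prime_two).mp (hq.dvd_of_dvd_pow h4)
      exact hqπ2 (Set.mem_singleton_iff.mpr h5)
    · exact hb q hq h (Finset.mem_coe.mp hqπ1)
  · refine ⟨⟨fun x y => ?_⟩⟩
    have hxM : (x : G) ∈ M := x.2.2
    have hyM : (y : G) ∈ M := y.2.2
    have hxH : (x : G) ∈ H := x.2.1
    have hyH : (y : G) ∈ H := y.2.1
    have h1 : (x : G) * y * (x : G)⁻¹ * (y : G)⁻¹ ∈ N ⊓ H :=
      ⟨hNmem _ (fun r hr => hLcomm r hr _ hxM _ hyM),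
        H.mul_mem (H.mul_mem (H.mul_mem hxH hyH) (H.inv_mem hxH)) (H.inv_mem hyH)⟩
    have h2' : N ⊓ H = ⊥ := hH.disjoint.eq_bot
    rw [h2', Subgroup.mem_bot] at h1
    apply Subtype.ext
    have h3 : (x : G) * y = y * x := mul_inv_eq_iff_eq_mul.mp (mul_inv_eq_one.mp h1)
    exact h3

end Cfsg.Agent.Helper21
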