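import Mathlib
import Cfsg.Prelude.Def_Local
import Cfsg.Agent.S3734
import Cfsg.Agent.S3735
import Cfsg.Agent.Helper18.CharP

set_option autoImplicit false
set_option linter.style.haveILetI false

namespace Cfsg.Agent.Helper21

theorem comm_of_sq_one {X : Type*} [Group X] (V : Subgroup X) (hV2 : ∀ v ∈ V, v * v = 1) :
    ∀ u ∈ V, ∀ v ∈ V, u * v = v * u := by
  intro u hu v hv
  have h1 := hV2 (u * v) (V.mul_mem hu hv)
  have h2 := hV2 u hu
  have h3 := hV2 v hv
  calc u * v = u * (u * v * (u * v)) * v := by rw [h1, mul_one]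
    _ = (u * u) * v * u * (v * v) := by group
    _ = v * u := by rw [h2, h3, one_mul, mul_one]

theorem isPGroup_two_of_sq_one {X : Type*} [Group X] (V : Subgroup X)
    (hV2 : ∀ v ∈ V, v * v = 1) : IsPGroup 2 V := by
  rintro ⟨v, hv⟩
  refine ⟨1, Subtype.ext ?_⟩
  show v ^ 2 ^ 1 = 1
  rw [pow_one, pow_two]; exact hV2 v hv

theorem comm_of_sq_comm {X : Type*} [Group X] (g v : X) (r : ℕ) (hr : orderOf g = r)
    (hodd : Odd r) (h : (g * g) * v = v * (g * g)) : g * v = v * g := by
  obtain ⟨m, hm⟩ := hodd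
  have h1 : (g * g) ^ (m + 1) = g := by
    rw [← pow_two, ← pow_mul]
    have h2 : 2 * (m + 1) = r + 1 := by omega
    rw [h2, pow_succ, ← hr, pow_orderOf_eq_one, one_mul]
  have h3 : Commute ((g * g) ^ (m + 1)) v := Commute.pow_left h (m + 1)
  rw [h1] at h3
  exact h3

/-- Small offenders on elementary abelian `2`-groups force a dihedral subgroup of order `6`. -/
theorem s3_config {X : Type*} [Group X] [Finite X] (V K : Subgroup X)
    (hV2 : ∀ v ∈ V, v * v = 1) (hK : (Nat.card K).Coprime 2)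
    (hKV : K ≤ Subgroup.normalizer (V : Set X))
    (hKf : K ⊓ Subgroup.centralizer (V : Set X) = ⊥) :
    ∀ (n : ℕ) (A : Subgroup X), Nat.card A ≤ n → (∀ a ∈ A, a * a = 1) →
      A ≤ Subgroup.normalizer (K : Set X) → A ≤ Subgroup.normalizer (V : Set X) →
      A ⊓ Subgroup.centralizer (K : Set X) = ⊥ →
      (V ⊓ Subgroup.centralizer (A : Set X)).relIndex V < Nat.card A ^ 2 →
      ∃ a ∈ A, ∃ y ∈ K, a ≠ 1 ∧ y ≠ 1 ∧ y ^ 3 = 1 ∧ a * y * a⁻¹ = y⁻¹ := by
  classical
  haveI : Fact (Nat.Prime 2) := ⟨Nat.prime_two⟩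
  have hVcomm := comm_of_sq_one V hV2
  have hVp := isPGroup_two_of_sq_one V hV2
  intro n
  induction n with
  | zero =>
    intro A hA
    have := Nat.card_pos (α := A)
    omega
  | succ n ih =>
    intro A hAn hA2 hAK hAV hAf hsmall
    have hAcomm := comm_of_sq_one A hA2
    have hAab : IsMulCommutative A := ⟨⟨fun a b => Subtype.ext (hAcomm a a.2 b b.2)⟩⟩
    have hAp := isPGroup_two_of_sq_one A hA2
    have hcop : (Nat.card A).Coprime (Nat.card K) := by
      obtain ⟨k, hk⟩ := IsPGroup.iff_card.mp hAp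
      rw [hk]; exact Nat.Coprime.pow_left k hK.symm
    have hAne : ∃ a₀ ∈ A, a₀ ≠ 1 := by
      by_contra hno
      have hAbot : A = ⊥ := by
        rw [Subgroup.eq_bot_iff_forall]
        intro a ha
        by_contra h1
        exact hno ⟨a, ha, h1⟩
      rw [hAbot] at hsmall
      have h0 : (V ⊓ Subgroup.centralizer ((⊥ : Subgroup X) : Set X)).relIndex V ≠ 0 :=
        Subgroup.index_ne_zero_of_finite
      have h1 : Nat.card (⊥ : Subgroup X) = 1 := Subgroup.card_bot
      rw [h1] at hsmall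
      norm_num at hsmall
      exact h0 hsmall
    obtain ⟨a₀, ha₀, ha₀1⟩ := hAne
    have hgen := (Cfsg.Agent.S3734.result A K hAab hAK hcop).1
    have hexB : ∃ B : Subgroup X, (B ≤ A ∧ ∃ a ∈ A, B ⊔ Subgroup.zpowers a = A) ∧
        ¬ (K ⊓ Subgroup.centralizer (B : Set X) ≤ Subgroup.centralizer ({a₀} : Set X)) := by
      by_contra hno
      have hall : ∀ B : Subgroup X, (B ≤ A ∧ ∃ a ∈ A, B ⊔ Subgroup.zpowers a = A) →
          K ⊓ Subgroup.centralizer (B : Set X) ≤ Subgroup.centralizer ({a₀} : Set X) := by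
        intro B hB
        by_contra h1
        exact hno ⟨B, hB, h1⟩
      have h1 : K ≤ Subgroup.centralizer ({a₀} : Set X) :=
        le_trans (le_of_eq hgen.symm) (iSup₂_le (fun B hB => hall B hB))
      have h2 : a₀ ∈ A ⊓ Subgroup.centralizer (K : Set X) := by
        refine Subgroup.mem_inf.mpr ⟨ha₀, ?_⟩
        rw [Subgroup.mem_centralizer_iff]
        intro k hk
        have h3 := h1 hk
        rw [Subgroup.mem_centralizer_singleton_iff] at h3
        exact h3
      rw [hAf, Subgroup.mem_bot] at h2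
      exact ha₀1 h2
    obtain ⟨B, ⟨hBA, a, haA, hBa⟩, hnc⟩ := hexB
    have haa := hA2 a haA
    have hainv : a⁻¹ = a := inv_eq_of_mul_eq_one_left haa
    -- `a` acts nontrivially on `K ⊓ C(B)`
    have hexk : ∃ k₀ ∈ K ⊓ Subgroup.centralizer (B : Set X), a * k₀ * a⁻¹ ≠ k₀ := by
      by_contra hno
      have hall : ∀ k₀ ∈ K ⊓ Subgroup.centralizer (B : Set X), a * k₀ * a⁻¹ = k₀ := by
        intro k₀ hk₀
        by_contra h1
        exact hno ⟨k₀, hk₀, h1⟩
      apply hnc
      intro k hk
      rw [Subgroup.mem_centralizer_singleton_iff]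
      have hk' := hk
      rw [Subgroup.mem_inf, Subgroup.mem_centralizer_iff] at hk'
      have ha₀' : a₀ ∈ B ⊔ Subgroup.zpowers a := by rw [hBa]; exact ha₀
      obtain ⟨b, hb, m, hm, rfl⟩ := Cfsg.Agent.S3735.mem_sup_comm A hAab hBA
        (by rw [Subgroup.zpowers_le]; exact haA) ha₀'
      have h1 : a ∈ Subgroup.centralizer ({k} : Set X) := by
        rw [Subgroup.mem_centralizer_singleton_iff]
        have := hall k hk
        calc a * k = (a * k * a⁻¹) * a := by group
          _ = k * a := by rw [this]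
      have h2 : m ∈ Subgroup.centralizer ({k} : Set X) :=
        (Subgroup.zpowers_le.mpr h1) hm
      rw [Subgroup.mem_centralizer_singleton_iff] at h2
      have h3 : b * k = k * b := (hk'.2 b hb)
      calc k * (b * m) = (k * b) * m := by group
        _ = (b * k) * m := by rw [h3]
        _ = b * (k * m) := by group
        _ = b * (m * k) := by rw [h2]
        _ = b * m * k := by group
    obtain ⟨k₀, hk₀, hk₀a⟩ := hexk
    have hk₀K := (Subgroup.mem_inf.mp hk₀).1
    have hk₀B := Subgroup.mem_centralizer_iff.mp (Subgroup.mem_inf.mp hk₀).2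
    have hak₀K : a * k₀ * a⁻¹ ∈ K := (Subgroup.mem_normalizer_iff.mp (hAK haA) k₀).mp hk₀K
    have hak₀B : ∀ b ∈ B, b * (a * k₀ * a⁻¹) = (a * k₀ * a⁻¹) * b := by
      intro b hb
      have h1 := hAcomm a haA b (hBA hb)
      have h2 := hk₀B b hb
      have h3 : b * a⁻¹ = a⁻¹ * b := by rw [hainv]; exact h1.symm
      calc b * (a * k₀ * a⁻¹) = (b * a) * k₀ * a⁻¹ := by group
        _ = a * (b * k₀) * a⁻¹ := by rw [← h1]; group
        _ = a * k₀ * (b * a⁻¹) := by rw [h2]; group
        _ = a * k₀ * a⁻¹ * b := by rw [h3]; group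
    obtain ⟨y₁, hy₁def⟩ : ∃ y₁, y₁ = k₀⁻¹ * (a * k₀ * a⁻¹) := ⟨_, rfl⟩
    have hy₁K : y₁ ∈ K := by rw [hy₁def]; exact K.mul_mem (K.inv_mem hk₀K) hak₀K
    have hy₁B : ∀ b ∈ B, b * y₁ = y₁ * b := by
      intro b hb
      have h1 := hk₀B b hb
      have h2 := hak₀B b hb
      have h3 : b * k₀⁻¹ = k₀⁻¹ * b := by
        calc b * k₀⁻¹ = k₀⁻¹ * (k₀ * b) * k₀⁻¹ := by group
          _ = k₀⁻¹ * b := by rw [← h1]; group
      rw [hy₁def]
      calc b * (k₀⁻¹ * (a * k₀ * a⁻¹)) = (b * k₀⁻¹) * (a * k₀ * a⁻¹) := by group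
        _ = k₀⁻¹ * (b * (a * k₀ * a⁻¹)) := by rw [h3]; group
        _ = k₀⁻¹ * (a * k₀ * a⁻¹) * b := by rw [h2]; group
    have hy₁1 : y₁ ≠ 1 := by
      intro h
      rw [hy₁def] at h
      exact hk₀a (inv_mul_eq_one.mp h).symm
    have hy₁inv : a * y₁ * a⁻¹ = y₁⁻¹ := by
      rw [hy₁def]
      have h1 : a * (k₀⁻¹ * (a * k₀ * a⁻¹)) * a⁻¹ = a * k₀⁻¹ * a * k₀ * (a * a)⁻¹ := by group
      have h2 : (k₀⁻¹ * (a * k₀ * a⁻¹))⁻¹ = a * k₀⁻¹ * a⁻¹ * k₀ := by group
      rw [h1, h2, haa, inv_one, mul_one, hainv]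
    -- an element of prime order
    have hord1 : orderOf y₁ ≠ 1 := fun h => hy₁1 (orderOf_eq_one_iff.mp h)
    obtain ⟨r, hr, hrd⟩ := Nat.exists_prime_and_dvd hord1
    obtain ⟨y, hydef⟩ : ∃ y, y = y₁ ^ (orderOf y₁ / r) := ⟨_, rfl⟩
    have hyord : orderOf y = r := by
      rw [hydef]; exact orderOf_pow_orderOf_div (orderOf_pos y₁).ne' hrd
    have hyK : y ∈ K := by rw [hydef]; exact K.pow_mem hy₁K _
    have hyB : ∀ b ∈ B, b * y = y * b := by
      intro b hb
      rw [hydef]
      exact (Commute.pow_right (hy₁B b hb) _)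
    have hyinv : a * y * a⁻¹ = y⁻¹ := by
      rw [hydef, ← conj_pow, hy₁inv, inv_pow]
    have hy1 : y ≠ 1 := by
      intro h
      rw [h, orderOf_one] at hyord
      exact hr.one_lt.ne hyord
    have hr2 : r ≠ 2 := by
      rintro rfl
      have h1 : orderOf (⟨y₁, hy₁K⟩ : ↥K) ∣ Nat.card K := orderOf_dvd_natCard _
      rw [Subgroup.orderOf_mk] at h1
      have h2 : 2 ∣ Nat.card K := hrd.trans h1
      have h3 := Nat.eq_one_of_dvd_coprimes hK h2 (dvd_refl 2)
      omega
    have hrodd : Odd r := hr.odd_of_ne_two hr2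
    have hyr : y ^ r = 1 := by rw [← hyord]; exact pow_orderOf_eq_one y
    have hyyinv : y * a * y⁻¹ = (y * y) * a := by
      have h1 : a * y⁻¹ * a⁻¹ = y := by
        have h0 : a * y⁻¹ * a⁻¹ = (a * y * a⁻¹)⁻¹ := by group
        rw [h0, hyinv, inv_inv]
      calc y * a * y⁻¹ = y * (a * y⁻¹ * a⁻¹) * a := by group
        _ = y * y * a := by rw [h1]
    have haB : a ∉ B := by
      intro haB
      have h1 := hyB a haB
      have h2 : y⁻¹ = y := by
        rw [← hyinv]
        calc a * y * a⁻¹ = (a * y) * a⁻¹ := rfl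
          _ = (y * a) * a⁻¹ := by rw [h1]
          _ = y := by group
      have h3 : y ^ 2 = 1 := by
        rw [pow_two]; nth_rewrite 1 [← h2]; exact inv_mul_cancel y
      have h4 : r ∣ 2 := by rw [← hyord]; exact orderOf_dvd_of_pow_eq_one h3
      have h5 := (Nat.prime_dvd_prime_iff_eq hr Nat.prime_two).mp h4
      exact hr2 h5
    have hBlt : Nat.card B < Nat.card A := by
      by_contra hge
      have h1 : B = A := Subgroup.eq_of_le_of_card_ge hBA (by omega)
      exact haB (h1 ▸ haA)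
    have hA2B : Nat.card A ≤ 2 * Nat.card B := by
      obtain ⟨f, hf⟩ : ∃ f : ↥B × Fin 2 → X, ∀ p, f p = (p.1 : X) * a ^ (p.2 : ℕ) := ⟨_, fun _ => rfl⟩
      have hfA : ∀ p, f p ∈ A := by
        intro p; rw [hf]; exact A.mul_mem (hBA p.1.2) (A.pow_mem haA _)
      have hsurj : Function.Surjective (fun p => (⟨f p, hfA p⟩ : ↥A)) := by
        rintro ⟨x, hx⟩
        have hx' : x ∈ B ⊔ Subgroup.zpowers a := by rw [hBa]; exact hx
        obtain ⟨b, hb, m, hm, rfl⟩ := Cfsg.Agent.S3735.mem_sup_comm A hAab hBA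
          (by rw [Subgroup.zpowers_le]; exact haA) hx'
        obtain ⟨j, rfl⟩ := Subgroup.mem_zpowers_iff.mp hm
        have h2 : a ^ (2 : ℤ) = 1 := by rw [zpow_ofNat, pow_two]; exact haa
        have h3 : a ^ j = a ^ (j % 2) := by
          conv_lhs => rw [← Int.emod_add_mul_ediv j 2]
          rw [zpow_add, zpow_mul, h2, one_zpow, mul_one]
        rcases Int.emod_two_eq_zero_or_one j with h0 | h1
        · refine ⟨(⟨b, hb⟩, 0), Subtype.ext ?_⟩
          show f (⟨b, hb⟩, 0) = b * a ^ j
          rw [hf, h3, h0]; simp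
        · refine ⟨(⟨b, hb⟩, 1), Subtype.ext ?_⟩
          show f (⟨b, hb⟩, 1) = b * a ^ j
          rw [hf, h3, h1]; simp
      have h1 := Nat.card_le_card_of_surjective _ hsurj
      rw [Nat.card_prod, Nat.card_fin] at h1
      omega
    by_cases hB : (V ⊓ Subgroup.centralizer (B : Set X)).relIndex V < Nat.card B ^ 2
    · obtain ⟨a', ha', y', hy', h1, h2, h3, h4⟩ := ih B (by omega) (fun b hb => hA2 b (hBA hb))
        (hBA.trans hAK) (hBA.trans hAV)
        (le_bot_iff.mp ((inf_le_inf_right _ hBA).trans (le_of_eq hAf))) hB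
      exact ⟨a', hBA ha', y', hy', h1, h2, h3, h4⟩
    · refine ⟨a, haA, y, hyK, ?_, hy1, ?_, hyinv⟩
      · rintro rfl
        exact haB B.one_mem
      rw [not_lt] at hB
      obtain ⟨V₁, hV₁def⟩ : ∃ V₁, V₁ = V ⊓ Subgroup.centralizer (B : Set X) := ⟨_, rfl⟩
      have hV₁mem : ∀ v, v ∈ V₁ ↔ v ∈ V ∧ ∀ b ∈ B, b * v = v * b := by
        intro v
        rw [hV₁def, Subgroup.mem_inf, Subgroup.mem_centralizer_iff]
        exact Iff.rfl
      have hV₁V : V₁ ≤ V := by rw [hV₁def]; exact inf_le_left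
      have hAV₁ : V ⊓ Subgroup.centralizer (A : Set X) ≤ V₁ := by
        rw [hV₁def]
        exact inf_le_inf_left _ (Subgroup.centralizer_le hBA)
      have hidx : (V ⊓ Subgroup.centralizer (A : Set X)).relIndex V₁ < 4 := by
        have h1 := Subgroup.relIndex_mul_relIndex _ _ _ hAV₁ hV₁V
        rw [← hV₁def] at hB
        have h2 : Nat.card A ^ 2 ≤ 4 * Nat.card B ^ 2 := by nlinarith
        have h3 : (V ⊓ Subgroup.centralizer (A : Set X)).relIndex V₁ * V₁.relIndex V
            < 4 * V₁.relIndex V := by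
          rw [h1]
          calc _ < Nat.card A ^ 2 := hsmall
            _ ≤ 4 * Nat.card B ^ 2 := h2
            _ ≤ 4 * V₁.relIndex V := by omega
        exact Nat.lt_of_mul_lt_mul_right h3
      -- `y` and `a` normalize `V₁`
      have hconjV₁ : ∀ g : X, g ∈ Subgroup.normalizer (V : Set X) → (∀ b ∈ B, b * g = g * b) →
          ∀ v ∈ V₁, g * v * g⁻¹ ∈ V₁ := by
        intro g hg hgB v hv
        rw [hV₁mem] at hv ⊢
        refine ⟨(Subgroup.mem_normalizer_iff.mp hg v).mp hv.1, fun b hb => ?_⟩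
        have h1 := hgB b hb
        have h2 := hv.2 b hb
        have h3 : b * g⁻¹ = g⁻¹ * b := by
          calc b * g⁻¹ = g⁻¹ * (g * b) * g⁻¹ := by group
            _ = g⁻¹ * b := by rw [← h1]; group
        calc b * (g * v * g⁻¹) = (b * g) * v * g⁻¹ := by group
          _ = g * (b * v) * g⁻¹ := by rw [h1]; group
          _ = g * v * (b * g⁻¹) := by rw [h2]; group
          _ = g * v * g⁻¹ * b := by rw [h3]; group
      have hyV₁ := hconjV₁ y (hKV hyK) hyB
      have hyinvB : ∀ b ∈ B, b * y⁻¹ = y⁻¹ * b := by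
        intro b hb
        have h1 := hyB b hb
        calc b * y⁻¹ = y⁻¹ * (y * b) * y⁻¹ := by group
          _ = y⁻¹ * b := by rw [← h1]; group
      have hyiV₁ : ∀ v ∈ V₁, y⁻¹ * v * y ∈ V₁ := by
        intro v hv
        have := hconjV₁ y⁻¹ (Subgroup.inv_mem _ (hKV hyK)) hyinvB v hv
        rwa [inv_inv] at this
      have haV₁ := hconjV₁ a (hAV haA) (fun b hb => (hAcomm a haA b (hBA hb)).symm)
      have hV₁comm : ∀ u ∈ V₁, ∀ v ∈ V₁, u * v = v * u :=
        fun u hu v hv => hVcomm u (hV₁V hu) v (hV₁V hv)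
      have hV₁sq : ∀ v ∈ V₁, v * v = 1 := fun v hv => hV2 v (hV₁V hv)
      -- the commutator subgroup `W = [V₁, y]`
      obtain ⟨κ, hκ⟩ : ∃ κ : ↥V₁ →* X, ∀ v : ↥V₁, κ v = (v : X) * (y * (v : X) * y⁻¹) :=
        ⟨MonoidHom.mk' (fun v => (v : X) * (y * (v : X) * y⁻¹)) (by
          rintro ⟨u, hu⟩ ⟨v, hv⟩
          show u * v * (y * (u * v) * y⁻¹) = u * (y * u * y⁻¹) * (v * (y * v * y⁻¹))
          have e1 := hV₁comm v hv _ (hyV₁ u hu)
          calc u * v * (y * (u * v) * y⁻¹) = u * (v * (y * u * y⁻¹)) * (y * v * y⁻¹) := by group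
            _ = u * (y * u * y⁻¹) * (v * (y * v * y⁻¹)) := by rw [e1]; group), fun _ => rfl⟩
      obtain ⟨W, hWdef⟩ : ∃ W : Subgroup X, W = κ.range := ⟨_, rfl⟩
      have hWmem : ∀ w, w ∈ W ↔ ∃ v ∈ V₁, w = v * (y * v * y⁻¹) := by
        intro w
        rw [hWdef, MonoidHom.mem_range]
        constructor
        · rintro ⟨v, rfl⟩
          exact ⟨v, v.2, hκ v⟩
        · rintro ⟨v, hv, rfl⟩
          exact ⟨⟨v, hv⟩, hκ _⟩
      have hWV₁ : W ≤ V₁ := by
        intro w hw
        obtain ⟨v, hv, rfl⟩ := (hWmem w).mp hw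
        exact V₁.mul_mem hv (hyV₁ v hv)
      have hWfix : ∀ w ∈ W, y * w = w * y → w = 1 := by
        intro w hw hwy
        obtain ⟨v, hv, rfl⟩ := (hWmem w).mp hw
        have h1 : y * (v * (y * v * y⁻¹)) * y⁻¹ = v * (y * v * y⁻¹) := by
          rw [hwy]; group
        have h2 : y * (v * (y * v * y⁻¹)) * y⁻¹ = (y * v * y⁻¹) * (y * (y * v * y⁻¹) * y⁻¹) := by
          group
        rw [h2, hV₁comm v hv _ (hyV₁ v hv)] at h1
        have h3 : y * (y * v * y⁻¹) * y⁻¹ = v := mul_left_cancel h1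
        have h4 : (y * y) * v = v * (y * y) := by
          calc (y * y) * v = (y * (y * v * y⁻¹) * y⁻¹) * (y * y) := by group
            _ = v * (y * y) := by rw [h3]
        have h5 := comm_of_sq_comm y v r hyord hrodd h4
        have h6 : y * v * y⁻¹ = v := by rw [h5]; group
        rw [h6]; exact hV₁sq v hv
      have hWy : ∀ w ∈ W, y * w * y⁻¹ ∈ W := by
        intro w hw
        obtain ⟨v, hv, rfl⟩ := (hWmem w).mp hw
        rw [hWmem]
        exact ⟨y * v * y⁻¹, hyV₁ v hv, by group⟩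
      have hWne : ∃ w₀ ∈ W, w₀ ≠ 1 := by
        by_contra hno
        have hall : ∀ v ∈ V₁, y * v = v * y := by
          intro v hv
          have h1 : v * (y * v * y⁻¹) = 1 := by
            by_contra h2
            exact hno ⟨_, (hWmem _).mpr ⟨v, hv, rfl⟩, h2⟩
          have h3 : y * v * y⁻¹ = v := by
            have h4 := hV₁sq v hv
            exact mul_left_cancel (h1.trans h4.symm)
          calc y * v = (y * v * y⁻¹) * y := by group
            _ = v * y := by rw [h3]
        have hBp := isPGroup_two_of_sq_one B (fun b hb => hA2 b (hBA hb))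
        have h1 := Cfsg.Agent.Helper18.thompson_AxB (p := 2) V B hVp hBp (hBA.trans hAV) y
          (fun u hu => (Subgroup.mem_normalizer_iff.mp (hKV hyK) u).mp hu)
          (by rw [hyord]; exact (Nat.coprime_primes hr Nat.prime_two).mpr hr2)
          (fun b hb => (hyB b hb).symm)
          (fun u hu hub => hall u ((hV₁mem u).mpr ⟨hu, fun b hb => (hub b hb).symm⟩))
        have h2 : y ∈ K ⊓ Subgroup.centralizer (V : Set X) := by
          refine Subgroup.mem_inf.mpr ⟨hyK, ?_⟩
          rw [Subgroup.mem_centralizer_iff]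
          intro v hv
          exact (h1 v hv).symm
        rw [hKf, Subgroup.mem_bot] at h2
        exact hy1 h2
      obtain ⟨w₀, hw₀, hw₀1⟩ := hWne
      -- counting
      obtain ⟨C, hCdef⟩ : ∃ C, C = W ⊓ Subgroup.centralizer ({a} : Set X) := ⟨_, rfl⟩
      have hCmem : ∀ c, c ∈ C ↔ c ∈ W ∧ c * a = a * c := by
        intro c
        rw [hCdef, Subgroup.mem_inf, Subgroup.mem_centralizer_singleton_iff]
      have hCW : C ≤ W := by rw [hCdef]; exact inf_le_left
      have hcard1 : Nat.card C * Nat.card C ≤ Nat.card W := by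
        obtain ⟨f, hf⟩ : ∃ f : ↥C × ↥C → X, ∀ p, f p = (p.1 : X) * (y * (p.2 : X) * y⁻¹) :=
          ⟨_, fun _ => rfl⟩
        have hfW : ∀ p, f p ∈ W := by
          intro p; rw [hf]; exact W.mul_mem (hCW p.1.2) (hWy _ (hCW p.2.2))
        have hinj : Function.Injective (fun p => (⟨f p, hfW p⟩ : ↥W)) := by
          rintro ⟨⟨c, hc⟩, ⟨d, hd⟩⟩ ⟨⟨c', hc'⟩, ⟨d', hd'⟩⟩ h
          have h1 : c * (y * d * y⁻¹) = c' * (y * d' * y⁻¹) := by
            have := congrArg Subtype.val h
            simpa [hf] using this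
          obtain ⟨e, hedef⟩ : ∃ e, e = c'⁻¹ * c := ⟨_, rfl⟩
          have he2 : e = y * (d' * d⁻¹) * y⁻¹ := by
            rw [hedef]
            have h2 : c = c' * (y * d' * y⁻¹) * (y * d * y⁻¹)⁻¹ := by rw [← h1]; group
            rw [h2]; group
          have heC : e ∈ C := by rw [hedef]; exact C.mul_mem (C.inv_mem hc') hc
          have hdC : d' * d⁻¹ ∈ C := C.mul_mem hd' (C.inv_mem hd)
          have hea : e * a = a * e := ((hCmem e).mp heC).2
          have hda : (d' * d⁻¹) * a = a * (d' * d⁻¹) := ((hCmem _).mp hdC).2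
          have hea2 : e * (y * a * y⁻¹) = (y * a * y⁻¹) * e := by
            rw [he2]
            calc y * (d' * d⁻¹) * y⁻¹ * (y * a * y⁻¹) = y * ((d' * d⁻¹) * a) * y⁻¹ := by group
              _ = y * (a * (d' * d⁻¹)) * y⁻¹ := by rw [hda]
              _ = y * a * y⁻¹ * (y * (d' * d⁻¹) * y⁻¹) := by group
          have hea3 : e * a⁻¹ = a⁻¹ * e := by rw [hainv]; exact hea
          have heyy : (y * y) * e = e * (y * y) := by
            have h3 : y * y = (y * a * y⁻¹) * a⁻¹ := by rw [hyyinv]; group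
            rw [h3]
            calc y * a * y⁻¹ * a⁻¹ * e = y * a * y⁻¹ * (a⁻¹ * e) := by group
              _ = (y * a * y⁻¹ * e) * a⁻¹ := by rw [← hea3]; group
              _ = e * (y * a * y⁻¹ * a⁻¹) := by rw [← hea2]; group
          have hey := comm_of_sq_comm y e r hyord hrodd heyy
          have he1 : e = 1 := hWfix e (hCW heC) hey
          have hcc : c = c' := by
            rw [hedef] at he1
            exact (inv_mul_eq_one.mp he1).symm
          have hdd : d = d' := by
            rw [he2] at he1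
            have h4 : d' * d⁻¹ = 1 := by
              have : d' * d⁻¹ = y⁻¹ * (y * (d' * d⁻¹) * y⁻¹) * y := by group
              rw [this, he1]; group
            exact (mul_inv_eq_one.mp h4).symm
          subst hcc; subst hdd; rfl
        have h1 := Nat.card_le_card_of_injective _ hinj
        rwa [Nat.card_prod] at h1
      have hcard2 : Nat.card W < 4 * Nat.card C := by
        have h1 := Subgroup.relIndex_mul_relIndex ⊥ C W bot_le hCW
        rw [Subgroup.relIndex_bot_left, Subgroup.relIndex_bot_left] at h1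
        have h2 : C.relIndex W < 4 := by
          have h3 : C.relIndex W = (Subgroup.centralizer ({a} : Set X)).relIndex W := by
            rw [hCdef, inf_comm, Subgroup.inf_relIndex_right]
          have h4 : (Subgroup.centralizer ({a} : Set X)).relIndex W
              ≤ (Subgroup.centralizer ({a} : Set X)).relIndex V₁ :=
            Subgroup.relIndex_le_of_le_right hWV₁ Subgroup.index_ne_zero_of_finite
          have h5 : (Subgroup.centralizer ({a} : Set X)).relIndex V₁
              ≤ (V ⊓ Subgroup.centralizer (A : Set X)).relIndex V₁ := by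
            refine Subgroup.relIndex_le_of_le_left ?_ Subgroup.index_ne_zero_of_finite
            exact inf_le_right.trans (Subgroup.centralizer_le (by
              intro x hx
              rw [Set.mem_singleton_iff] at hx
              rw [hx]; exact haA))
          omega
        have hCpos : 0 < Nat.card C := Nat.card_pos
        nlinarith
      have hCp : IsPGroup 2 C := hVp.to_le (hCW.trans (hWV₁.trans hV₁V))
      have hWp : IsPGroup 2 W := hVp.to_le (hWV₁.trans hV₁V)
      obtain ⟨k, hk⟩ := IsPGroup.iff_card.mp hCp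
      obtain ⟨m, hm⟩ := IsPGroup.iff_card.mp hWp
      have hCpos : 0 < Nat.card C := Nat.card_pos
      have hC4 : Nat.card C < 4 := by nlinarith
      have hk1 : k ≤ 1 := by
        by_contra hk2
        have : 2 ^ 2 ≤ 2 ^ k := Nat.pow_le_pow_right (by norm_num) (by omega)
        omega
      have hC2 : Nat.card C ≤ 2 := by
        rw [hk]
        calc 2 ^ k ≤ 2 ^ 1 := Nat.pow_le_pow_right (by norm_num) hk1
          _ = 2 := by norm_num
      have hW8 : Nat.card W < 8 := by omega
      have hm2 : m ≤ 2 := by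
        by_contra hm3
        have : 2 ^ 3 ≤ 2 ^ m := Nat.pow_le_pow_right (by norm_num) (by omega)
        omega
      have hW4 : Nat.card W ≤ 4 := by
        rw [hm]
        calc 2 ^ m ≤ 2 ^ 2 := Nat.pow_le_pow_right (by norm_num) hm2
          _ = 4 := by norm_num
      -- the orbit of `w₀`
      have hWyi : ∀ i : ℕ, ∀ w ∈ W, y ^ i * w * (y ^ i)⁻¹ ∈ W := by
        intro i
        induction i with
        | zero => intro w hw; simpa using hw
        | succ i ihi =>
          intro w hw
          have h1 := hWy _ (ihi w hw)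
          have h2 : y ^ (i + 1) * w * (y ^ (i + 1))⁻¹ = y * (y ^ i * w * (y ^ i)⁻¹) * y⁻¹ := by
            rw [pow_succ']; group
          rw [h2]; exact h1
      have hinj : Function.Injective
          (fun i : Fin r => (⟨y ^ (i : ℕ) * w₀ * (y ^ (i : ℕ))⁻¹, hWyi _ w₀ hw₀⟩ : ↥W)) := by
        have key : ∀ i j : ℕ, i ≤ j → j < r →
            y ^ i * w₀ * (y ^ i)⁻¹ = y ^ j * w₀ * (y ^ j)⁻¹ → i = j := by
          intro i j hij hjr h
          by_contra hne
          obtain ⟨d, rfl⟩ := Nat.exists_eq_add_of_le hij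
          have hd0 : 0 < d := by omega
          have hdr : d < r := by omega
          have h1 : y ^ d * w₀ = w₀ * y ^ d := by
            have h2 : y ^ (i + d) = y ^ i * y ^ d := pow_add y i d
            rw [h2] at h
            have h3 : w₀ = y ^ d * w₀ * (y ^ d)⁻¹ := by
              calc w₀ = (y ^ i)⁻¹ * (y ^ i * w₀ * (y ^ i)⁻¹) * y ^ i := by group
                _ = (y ^ i)⁻¹ * (y ^ i * y ^ d * w₀ * (y ^ i * y ^ d)⁻¹) * y ^ i := by rw [h]
                _ = y ^ d * w₀ * (y ^ d)⁻¹ := by group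
            calc y ^ d * w₀ = (y ^ d * w₀ * (y ^ d)⁻¹) * y ^ d := by group
              _ = w₀ * y ^ d := by rw [← h3]
          have hcopd : Nat.Coprime d r :=
            ((Nat.Prime.coprime_iff_not_dvd hr).mpr (Nat.not_dvd_of_pos_of_lt hd0 hdr)).symm
          obtain ⟨t, -, ht⟩ := Nat.exists_mul_mod_eq_one_of_coprime hcopd hr.one_lt
          have h4 : y ^ (d * t) = y := by
            have h5 : d * t = r * (d * t / r) + 1 := by
              have := Nat.div_add_mod (d * t) r
              omega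
            rw [h5, pow_add, pow_mul, hyr, one_pow, one_mul, pow_one]
          have h6 : y * w₀ = w₀ * y := by
            have := Commute.pow_left h1 t
            rw [← pow_mul, h4] at this
            exact this
          exact hw₀1 (hWfix w₀ hw₀ h6)
        intro i j h
        have h' : y ^ (i : ℕ) * w₀ * (y ^ (i : ℕ))⁻¹ = y ^ (j : ℕ) * w₀ * (y ^ (j : ℕ))⁻¹ :=
          congrArg Subtype.val h
        rcases le_total (i : ℕ) (j : ℕ) with hij | hij
        · exact Fin.ext (key _ _ hij j.2 h')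
        · exact Fin.ext (key _ _ hij i.2 h'.symm).symm
      have hrW := Nat.card_le_card_of_injective _ hinj
      rw [Nat.card_fin] at hrW
      have hr3 : r = 3 := by
        have h2 := hr.two_le
        have h4 : r ≤ 4 := by omega
        interval_cases r
        · exact absurd rfl hr2
        · rfl
        · exact absurd hr (by norm_num)
      rw [← hr3]; exact hyr

end Cfsg.Agent.Helper21
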