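import Mathlib
import Cfsg.Agent.Lead.SylowSub

set_option autoImplicit false
set_option linter.style.haveILetI false

/-!
# Groups in which every non-abelian subgroup is self-normalizing

Such a finite group is solvable or simple.
-/

namespace Cfsg.Agent.Helper21

/-- In a finite perfect group, a Sylow subgroup with `N(P) ≤ C(P)` is trivial (Burnside). -/
theorem perfect_sylow_burnside {S : Type*} [Group S] [Finite S] (hperf : commutator S = ⊤)
    {p : ℕ} [Fact p.Prime] (P : Sylow p S)
    (hP : Subgroup.normalizer (P : Set S) ≤ Subgroup.centralizer (P : Set S)) :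
    (P : Subgroup S) = ⊥ := by
  have hc := MonoidHom.ker_transferSylow_isComplement' P hP
  have hker : (MonoidHom.transferSylow P hP).ker = ⊤ := by
    rw [eq_top_iff, ← hperf, commutator_eq_closure, Subgroup.closure_le]
    rintro _ ⟨a, b, rfl⟩
    rw [SetLike.mem_coe, MonoidHom.mem_ker, commutatorElement_def, map_mul, map_mul, map_mul,
      map_inv, map_inv]
    have h1 : MonoidHom.transferSylow P hP a * MonoidHom.transferSylow P hP b =
        MonoidHom.transferSylow P hP b * MonoidHom.transferSylow P hP a := by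
      apply Subtype.ext
      exact (hP (Subgroup.le_normalizer (MonoidHom.transferSylow P hP a).2) _
        (MonoidHom.transferSylow P hP b).2).symm
    rw [h1]; group
  rw [hker] at hc
  exact Subgroup.isComplement'_top_left.mp hc

/-- Quotients of perfect groups are perfect. -/
theorem perfect_quot {G : Type*} [Group G] (hperf : commutator G = ⊤) (N : Subgroup G)
    [N.Normal] : commutator (G ⧸ N) = ⊤ := by
  rw [commutator_def, ← Subgroup.map_top_of_surjective (QuotientGroup.mk' N)
    (QuotientGroup.mk'_surjective N), ← Subgroup.map_commutator, ← commutator_def, hperf]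

/-- A group generated by two commuting elements is commutative. -/
theorem comm_of_closure_pair {Q : Type*} [Group Q] (u v : Q) (huv : u * v = v * u)
    (hcl : Subgroup.closure ({u, v} : Set Q) = ⊤) : ∀ x y : Q, x * y = y * x := by
  have hc : IsMulCommutative (Subgroup.closure ({u, v} : Set Q)) :=
    Subgroup.isMulCommutative_closure (by
      intro a ha b hb
      rcases ha with rfl | ha <;> rcases hb with rfl | hb
      · rfl
      · rw [Set.mem_singleton_iff] at hb; rw [hb]; exact huv
      · rw [Set.mem_singleton_iff] at ha; rw [ha]; exact huv.symm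
      · rw [Set.mem_singleton_iff] at ha hb; rw [ha, hb])
  intro x y
  have hx : x ∈ Subgroup.closure ({u, v} : Set Q) := by rw [hcl]; exact Subgroup.mem_top x
  have hy : y ∈ Subgroup.closure ({u, v} : Set Q) := by rw [hcl]; exact Subgroup.mem_top y
  exact congrArg Subtype.val (hc.is_comm.comm ⟨x, hx⟩ ⟨y, hy⟩)

/-- Structure of a minimal non-abelian `p`-group: the commutator subgroup is generated by a
central element of order `p`. -/
theorem mna_struct {P : Type*} [Group P] [Finite P] {p : ℕ} [Fact p.Prime] (hP : IsPGroup p P)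
    (hmin : ∀ Q : Subgroup P, Q ≠ ⊤ → ∀ x ∈ Q, ∀ y ∈ Q, x * y = y * x)
    (a b : P) (hab : a * b ≠ b * a) :
    ∃ c : P, c ∈ Subgroup.center P ∧ c ^ p = 1 ∧
      ∀ x y : P, x * y * x⁻¹ * y⁻¹ ∈ Subgroup.zpowers c := by
  classical
  have hp : p.Prime := Fact.out
  obtain ⟨m, hm⟩ := IsPGroup.iff_card.mp hP
  have hM : ∀ x : P, ∃ M : Subgroup P, M.Normal ∧ x ∈ M ∧ M.index = p ∧
      (∀ u ∈ M, ∀ v ∈ M, u * v = v * u) := by
    intro x
    have hx_ne : Subgroup.zpowers x ≠ ⊤ := by
      intro h
      apply hab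
      have ha : a ∈ Subgroup.zpowers x := h ▸ Subgroup.mem_top a
      have hb : b ∈ Subgroup.zpowers x := h ▸ Subgroup.mem_top b
      obtain ⟨i, rfl⟩ := Subgroup.mem_zpowers_iff.mp ha
      obtain ⟨j, rfl⟩ := Subgroup.mem_zpowers_iff.mp hb
      rw [← zpow_add, ← zpow_add, add_comm]
    obtain ⟨n, hn⟩ := IsPGroup.iff_card.mp (hP.to_subgroup (Subgroup.zpowers x))
    have hlt : n < m := by
      by_contra hge
      rw [not_lt] at hge
      apply hx_ne
      apply Subgroup.eq_top_of_card_eq
      apply le_antisymm (Subgroup.card_le_card_group _)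
      rw [hn, hm]; exact Nat.pow_le_pow_right hp.pos hge
    obtain ⟨M, hMcard, hxM⟩ := Sylow.exists_subgroup_card_pow_prime_le p (n := n) (m := m - 1)
      (by rw [hm]; exact pow_dvd_pow p (Nat.sub_le m 1)) (Subgroup.zpowers x) hn (by omega)
    have hidx : M.index = p := by
      have h1 := M.card_mul_index
      rw [hMcard, hm] at h1
      have h2 : p ^ m = p ^ (m - 1) * p := by
        rw [← pow_succ]; congr 1; omega
      rw [h2] at h1
      exact Nat.eq_of_mul_eq_mul_left (pow_pos hp.pos _) h1
    have hMn : M.Normal := by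
      apply Subgroup.normal_of_index_eq_minFac_card
      rw [hidx, hm, Nat.Prime.pow_minFac hp (by omega)]
    have hMtop : M ≠ ⊤ := by
      intro h
      rw [h, Subgroup.index_top] at hidx
      exact hp.one_lt.ne hidx
    exact ⟨M, hMn, hxM (Subgroup.mem_zpowers x), hidx, hmin M hMtop⟩
  obtain ⟨Ma, hMan, haMa, hMai, hMac⟩ := hM a
  obtain ⟨Mb, hMbn, hbMb, hMbi, hMbc⟩ := hM b
  obtain ⟨c, hc⟩ : ∃ c, c = a * b * a⁻¹ * b⁻¹ := ⟨_, rfl⟩
  have hcMa : c ∈ Ma := by
    have h1 : b * a⁻¹ * b⁻¹ ∈ Ma := hMan.conj_mem _ (Ma.inv_mem haMa) b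
    have h2 : c = a * (b * a⁻¹ * b⁻¹) := by rw [hc]; group
    rw [h2]; exact Ma.mul_mem haMa h1
  have hcMb : c ∈ Mb := by
    have h1 : a * b * a⁻¹ ∈ Mb := hMbn.conj_mem _ hbMb a
    rw [hc]; exact Mb.mul_mem h1 (Mb.inv_mem hbMb)
  have hca : c * a = a * c := hMac c hcMa a haMa
  have hcb : c * b = b * c := hMbc c hcMb b hbMb
  have hcl : Subgroup.closure ({a, b} : Set P) = ⊤ := by
    by_contra h
    apply hab
    exact hmin _ h a (Subgroup.subset_closure (by simp)) b (Subgroup.subset_closure (by simp))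
  have hcen : ∀ g : P, g * c = c * g := by
    intro g
    have hle : Subgroup.closure ({a, b} : Set P) ≤ Subgroup.centralizer ({c} : Set P) := by
      rw [Subgroup.closure_le]
      intro x hx
      rw [SetLike.mem_coe, Subgroup.mem_centralizer_iff]
      intro y hy
      rw [Set.mem_singleton_iff] at hy
      subst hy
      rcases hx with rfl | hx
      · exact hca
      · rw [Set.mem_singleton_iff] at hx; subst hx; exact hcb
    have hg : g ∈ Subgroup.centralizer ({c} : Set P) := hle (hcl ▸ Subgroup.mem_top g)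
    rw [Subgroup.mem_centralizer_iff] at hg
    exact (hg c rfl).symm
  have hpow : ∀ k : ℕ, a ^ k * b * (a ^ k)⁻¹ * b⁻¹ = c ^ k := by
    intro k
    induction k with
    | zero => simp
    | succ k ih =>
      have h1 : a ^ (k + 1) * b * (a ^ (k + 1))⁻¹ * b⁻¹ =
          a * (a ^ k * b * (a ^ k)⁻¹ * b⁻¹) * (b * a⁻¹ * b⁻¹) := by
        rw [pow_succ']; group
      rw [h1, ih]
      have h2 : a * c ^ k = c ^ k * a := ((show Commute c a from hca).pow_left k).eq.symm
      calc a * c ^ k * (b * a⁻¹ * b⁻¹) = c ^ k * (a * b * a⁻¹ * b⁻¹) := by rw [h2]; group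
        _ = c ^ (k + 1) := by rw [← hc, pow_succ]
  have hcp : c ^ p = 1 := by
    rw [← hpow p]
    have hapM : a ^ p ∈ Mb := by
      have h := Mb.pow_index_mem a
      rwa [hMbi] at h
    have h3 : a ^ p * b = b * a ^ p := hMbc _ hapM b hbMb
    rw [h3]; group
  have hDn : (Subgroup.zpowers c).Normal := by
    refine ⟨fun d hd g => ?_⟩
    obtain ⟨i, rfl⟩ := Subgroup.mem_zpowers_iff.mp hd
    have h4 : Commute g (c ^ i) := (show Commute g c from hcen g).zpow_right i
    have h5 : g * c ^ i * g⁻¹ = c ^ i := by rw [h4.eq]; group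
    rw [h5]; exact hd
  have hπc : (QuotientGroup.mk' (Subgroup.zpowers c)) c = 1 :=
    (QuotientGroup.eq_one_iff c).mpr (Subgroup.mem_zpowers c)
  have hπab : (QuotientGroup.mk' (Subgroup.zpowers c)) a * (QuotientGroup.mk' (Subgroup.zpowers c)) b
      = (QuotientGroup.mk' (Subgroup.zpowers c)) b * (QuotientGroup.mk' (Subgroup.zpowers c)) a := by
    have h6 : a * b = c * (b * a) := by rw [hc]; group
    rw [← map_mul, h6, map_mul, hπc, one_mul, map_mul]
  have hclq : Subgroup.closure ({(QuotientGroup.mk' (Subgroup.zpowers c)) a,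
      (QuotientGroup.mk' (Subgroup.zpowers c)) b} : Set (P ⧸ Subgroup.zpowers c)) = ⊤ := by
    rw [← Set.image_pair, ← MonoidHom.map_closure, hcl]
    exact Subgroup.map_top_of_surjective _ (QuotientGroup.mk'_surjective _)
  have hqc := comm_of_closure_pair _ _ hπab hclq
  refine ⟨c, Subgroup.mem_center_iff.mpr hcen, hcp, fun x y => ?_⟩
  apply (QuotientGroup.eq_one_iff _).mp
  show (QuotientGroup.mk' (Subgroup.zpowers c)) (x * y * x⁻¹ * y⁻¹) = 1
  rw [map_mul, map_mul, map_mul, map_inv, map_inv, hqc ((QuotientGroup.mk' (Subgroup.zpowers c)) x)]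
  group

/-- A finite group in which every non-abelian subgroup is self-normalizing is solvable or
simple. -/
theorem selfnorm_solvable_or_simple {G : Type*} [Group G] [Finite G]
    (hS : ∀ H : Subgroup G, ¬ IsMulCommutative H → Subgroup.normalizer (H : Set G) = H) :
    Group.IsSolvable G ∨ IsSimpleGroup G := by
  classical
  by_contra hcon
  rw [not_or] at hcon
  obtain ⟨hsol, hsimp⟩ := hcon
  -- proper normal subgroups are abelian
  have hab : ∀ N : Subgroup G, N.Normal → N ≠ ⊤ → IsMulCommutative N := by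
    intro N hN hNt
    by_contra hc
    have h1 := hS N hc
    rw [Subgroup.normalizer_eq_top_iff.mpr hN] at h1
    exact hNt h1.symm
  -- G is perfect
  have hperf : commutator G = ⊤ := by
    by_contra h
    have hc := hab (commutator G) inferInstance h
    apply hsol
    haveI : Group.IsSolvable (commutator G) :=
      Group.isSolvable_of_comm (fun a b => hc.is_comm.comm a b)
    haveI : Group.IsSolvable (G ⧸ commutator G) :=
      Group.isSolvable_of_comm (fun a b => mul_comm (G := Abelianization G) a b)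
    exact Group.isSolvable_of_ker_le_range (commutator G).subtype
      (QuotientGroup.mk' (commutator G))
      (by rw [QuotientGroup.ker_mk', Subgroup.range_subtype])
  haveI : Nontrivial G := by
    by_contra h
    rw [not_nontrivial_iff_subsingleton] at h
    exact hsol inferInstance
  obtain ⟨N, hNn, hNb, hNt⟩ : ∃ N : Subgroup G, N.Normal ∧ N ≠ ⊥ ∧ N ≠ ⊤ := by
    by_contra h
    apply hsimp
    refine { eq_bot_or_eq_top_of_normal := fun N hN => ?_ }
    by_cases hb : N = ⊥
    · exact Or.inl hb
    · right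
      by_contra ht
      exact h ⟨N, hN, hb, ht⟩
  -- a proper normal subgroup is not self-centralizing
  have hL1 : ∀ N : Subgroup G, N.Normal → N ≠ ⊤ → ∃ x, x ∉ N ∧ ∀ n ∈ N, x * n = n * x := by
    intro N hN hNt
    by_contra hcon
    haveI := hN
    have hcon' : ∀ x, x ∉ N → ∃ n ∈ N, x * n ≠ n * x := by
      intro x hx
      by_contra h
      apply hcon
      refine ⟨x, hx, fun n hn => ?_⟩
      by_contra h'
      exact h ⟨n, hn, h'⟩
    have hidx : Nat.card (G ⧸ N) ≠ 1 := fun h => hNt (Subgroup.index_eq_one.mp h)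
    obtain ⟨p, hp, hpd⟩ := Nat.exists_prime_and_dvd hidx
    haveI : Fact p.Prime := ⟨hp⟩
    have hperfQ : commutator (G ⧸ N) = ⊤ := perfect_quot hperf N
    obtain ⟨P⟩ : Nonempty (Sylow p (G ⧸ N)) := inferInstance
    have hPb : (P : Subgroup (G ⧸ N)) ≠ ⊥ := P.ne_bot_of_dvd_card hpd
    haveI : Nontrivial (P : Subgroup (G ⧸ N)) := (Subgroup.nontrivial_iff_ne_bot _).mpr hPb
    haveI := IsPGroup.center_nontrivial P.2
    obtain ⟨c, hc⟩ := exists_ne (1 : Subgroup.center (P : Subgroup (G ⧸ N)))
    obtain ⟨xb, hxb⟩ : ∃ xb : G ⧸ N, xb = ((c : (P : Subgroup (G ⧸ N))) : G ⧸ N) := ⟨_, rfl⟩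
    have hxb1 : xb ≠ 1 := by
      intro h
      apply hc
      apply Subtype.ext
      apply Subtype.ext
      rw [← hxb, h]
      rfl
    have hxbP : xb ∈ (P : Subgroup (G ⧸ N)) := by
      rw [hxb]; exact (c : (P : Subgroup (G ⧸ N))).2
    have hxbc : ∀ y ∈ (P : Subgroup (G ⧸ N)), y * xb = xb * y := by
      intro y hy
      have h := Subgroup.mem_center_iff.mp c.2 ⟨y, hy⟩
      rw [hxb]
      exact congrArg Subtype.val h
    obtain ⟨x, hx⟩ := QuotientGroup.mk_surjective xb
    have hxN : x ∉ N := by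
      intro h
      apply hxb1
      rw [← hx]; exact (QuotientGroup.eq_one_iff x).mpr h
    obtain ⟨H, hH⟩ : ∃ H : Subgroup G,
        H = (Subgroup.zpowers xb).comap (QuotientGroup.mk' N) := ⟨_, rfl⟩
    have hNH : N ≤ H := by
      intro n hn
      rw [hH, Subgroup.mem_comap]
      have h1 : QuotientGroup.mk' N n = 1 := (QuotientGroup.eq_one_iff n).mpr hn
      rw [h1]; exact Subgroup.one_mem _
    have hxH : x ∈ H := by
      rw [hH, Subgroup.mem_comap]
      show (x : G ⧸ N) ∈ _
      rw [hx]; exact Subgroup.mem_zpowers xb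
    have hHnc : ¬ IsMulCommutative H := by
      intro hc'
      obtain ⟨n, hn, hne⟩ := hcon' x hxN
      apply hne
      exact congrArg Subtype.val (hc'.is_comm.comm ⟨x, hxH⟩ ⟨n, hNH hn⟩)
    have hHself := hS H hHnc
    have hself : ∀ gb : G ⧸ N,
        gb ∈ Subgroup.normalizer ((Subgroup.zpowers xb : Subgroup (G ⧸ N)) : Set (G ⧸ N)) →
        gb ∈ Subgroup.zpowers xb := by
      intro gb hgb
      obtain ⟨g, rfl⟩ := QuotientGroup.mk_surjective gb
      have hg : g ∈ Subgroup.normalizer (H : Set G) := by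
        rw [Subgroup.mem_normalizer_iff]
        intro h
        rw [hH, Subgroup.mem_comap, Subgroup.mem_comap, map_mul, map_mul, map_inv]
        exact (Subgroup.mem_normalizer_iff.mp hgb) _
      rw [hHself, hH, Subgroup.mem_comap] at hg
      exact hg
    have hPle : (P : Subgroup (G ⧸ N)) ≤ Subgroup.zpowers xb := by
      intro y hy
      apply hself
      rw [Subgroup.mem_normalizer_iff]
      intro h
      have key : ∀ h ∈ Subgroup.zpowers xb, y * h * y⁻¹ = h := by
        intro h hh
        obtain ⟨i, rfl⟩ := Subgroup.mem_zpowers_iff.mp hh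
        have h4 : Commute y (xb ^ i) := (show Commute y xb from hxbc y hy).zpow_right i
        rw [h4.eq]; group
      constructor
      · intro hh; rw [key h hh]; exact hh
      · intro hh
        have h5 := key _ hh
        have h6 : y * h * y⁻¹ = h := by
          calc y * h * y⁻¹ = y⁻¹ * (y * (y * h * y⁻¹) * y⁻¹) * y := by group
            _ = y⁻¹ * (y * h * y⁻¹) * y := by rw [h5]
            _ = h := by group
        rw [← h6]; exact hh
    have hPeq : (P : Subgroup (G ⧸ N)) = Subgroup.zpowers xb :=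
      le_antisymm hPle ((Subgroup.zpowers_le).mpr hxbP)
    have hPnc : Subgroup.normalizer (P : Set (G ⧸ N)) ≤
        Subgroup.centralizer (P : Set (G ⧸ N)) := by
      intro g hg
      have hg2 : g ∈ Subgroup.normalizer ((P : Subgroup (G ⧸ N)) : Set (G ⧸ N)) := hg
      rw [hPeq] at hg2
      have hg' : g ∈ Subgroup.zpowers xb := hself g hg2
      rw [Subgroup.mem_centralizer_iff]
      intro h hh
      have hh' : h ∈ Subgroup.zpowers xb := by rw [← hPeq]; exact hh
      obtain ⟨i, rfl⟩ := Subgroup.mem_zpowers_iff.mp hg'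
      obtain ⟨j, rfl⟩ := Subgroup.mem_zpowers_iff.mp hh'
      rw [← zpow_add, ← zpow_add, add_comm]
    exact hPb (perfect_sylow_burnside hperfQ P hPnc)
  -- proper normal subgroups are central
  have hcent : ∀ N : Subgroup G, N.Normal → N ≠ ⊤ → N ≤ Subgroup.center G := by
    intro N hN hNt
    haveI := hN
    have hNc := hab N hN hNt
    have hCn : (Subgroup.centralizer (N : Set G)).Normal := inferInstance
    by_cases hCt : Subgroup.centralizer (N : Set G) = ⊤
    · intro n hn
      rw [Subgroup.mem_center_iff]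
      intro g
      have hg : g ∈ Subgroup.centralizer (N : Set G) := hCt ▸ Subgroup.mem_top g
      exact (Subgroup.mem_centralizer_iff.mp hg n hn).symm
    · exfalso
      obtain ⟨x, hxC, hx⟩ := hL1 _ hCn hCt
      apply hxC
      rw [Subgroup.mem_centralizer_iff]
      intro n hn
      have hnC : n ∈ Subgroup.centralizer (N : Set G) := by
        rw [Subgroup.mem_centralizer_iff]
        intro m hm
        exact congrArg Subtype.val (hNc.is_comm.comm ⟨m, hm⟩ ⟨n, hn⟩)
      exact (hx n hnC).symm
  have hNc := hcent N hNn hNt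
  obtain ⟨n, hnN, hn1⟩ : ∃ n ∈ N, n ≠ 1 := by
    by_contra h
    apply hNb
    rw [eq_bot_iff]
    intro n hn
    rw [Subgroup.mem_bot]
    by_contra h'
    exact h ⟨n, hn, h'⟩
  have hnZ : n ∈ Subgroup.center G := hNc hnN
  have hord : orderOf n ≠ 1 := by rwa [Ne, orderOf_eq_one_iff]
  obtain ⟨p, hp, hpd⟩ := Nat.exists_prime_and_dvd hord
  haveI : Fact p.Prime := ⟨hp⟩
  obtain ⟨z, hz⟩ : ∃ z, z = n ^ (orderOf n / p) := ⟨_, rfl⟩
  have hzord : orderOf z = p := by
    rw [hz]; exact orderOf_pow_orderOf_div (orderOf_pos n).ne' hpd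
  have hzZ : z ∈ Subgroup.center G := by rw [hz]; exact Subgroup.pow_mem _ hnZ _
  have hz1 : z ≠ 1 := by
    intro h
    rw [h, orderOf_one] at hzord
    exact hp.one_lt.ne hzord
  have hzp : IsPGroup p (Subgroup.zpowers z) := by
    apply IsPGroup.of_card (n := 1)
    rw [Nat.card_zpowers, hzord, pow_one]
  obtain ⟨P, hzP⟩ := hzp.exists_le_sylow
  have hzP' : z ∈ (P : Subgroup G) := hzP (Subgroup.mem_zpowers z)
  -- transfer: z lies in the commutator subgroup of P
  have hzcomm : (⟨z, hzP'⟩ : (P : Subgroup G)) ∈ commutator (P : Subgroup G) := by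
    have key : ∀ (k : ℕ) (g₀ : G), g₀⁻¹ * z ^ k * g₀ ∈ (P : Subgroup G) →
        g₀⁻¹ * z ^ k * g₀ = z ^ k := by
      intro k g₀ _
      have h := Subgroup.mem_center_iff.mp (Subgroup.pow_mem _ hzZ k) g₀
      rw [mul_assoc, ← h]; group
    have h1 := MonoidHom.transfer_eq_pow
      (Abelianization.of : (P : Subgroup G) →* Abelianization (P : Subgroup G)) z key
    have h2 : MonoidHom.transfer
        (Abelianization.of : (P : Subgroup G) →* Abelianization (P : Subgroup G)) z = 1 := by
      have hle : commutator G ≤ (MonoidHom.transfer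
        (Abelianization.of : (P : Subgroup G) →* Abelianization (P : Subgroup G))).ker :=
        Abelianization.commutator_subset_ker _
      exact hle (hperf ▸ Subgroup.mem_top z)
    rw [h2] at h1
    have h3 : (⟨z ^ (P : Subgroup G).index, MonoidHom.transfer_eq_pow_aux z key⟩ :
        (P : Subgroup G)) ∈ commutator (P : Subgroup G) := by
      rw [← Abelianization.ker_of]; exact h1.symm
    have hcop : Nat.Coprime (P : Subgroup G).index p :=
      (Nat.Coprime.symm ((Nat.Prime.coprime_iff_not_dvd hp).mpr P.not_dvd_index))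
    obtain ⟨m, -, hm⟩ := Nat.exists_mul_mod_eq_one_of_coprime hcop hp.one_lt
    have h4 : (⟨z, hzP'⟩ : (P : Subgroup G)) =
        (⟨z ^ (P : Subgroup G).index, MonoidHom.transfer_eq_pow_aux z key⟩ :
          (P : Subgroup G)) ^ m := by
      apply Subtype.ext
      rw [Subgroup.coe_pow]
      show z = (z ^ (P : Subgroup G).index) ^ m
      rw [← pow_mul, ← pow_mod_orderOf, hzord, hm, pow_one]
    rw [h4]; exact Subgroup.pow_mem _ h3 m
  have hPna : ∃ a b : (P : Subgroup G), a * b ≠ b * a := by
    by_contra h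
    have h' : ∀ a b : (P : Subgroup G), a * b = b * a := by
      intro a b
      by_contra h''
      exact h ⟨a, b, h''⟩
    have h0 : commutator (P : Subgroup G) = ⊥ := by
      rw [commutator_eq_closure, Subgroup.closure_eq_bot_iff]
      rintro _ ⟨a, b, rfl⟩
      rw [Set.mem_singleton_iff, commutatorElement_def, h' a b]; group
    rw [h0, Subgroup.mem_bot] at hzcomm
    exact hz1 (congrArg Subtype.val hzcomm)
  obtain ⟨a, b, hab'⟩ := hPna
  have hmin : ∀ Q : Subgroup (P : Subgroup G), Q ≠ ⊤ → ∀ x ∈ Q, ∀ y ∈ Q, x * y = y * x := by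
    intro Q hQ x hx y hy
    have hlt : Q.map (P : Subgroup G).subtype < (P : Subgroup G) := by
      refine lt_of_le_of_ne (Subgroup.map_subtype_le Q) ?_
      intro h
      apply hQ
      rw [eq_top_iff]
      intro u _
      have hu : (u : G) ∈ Q.map (P : Subgroup G).subtype := by rw [h]; exact u.2
      obtain ⟨v, hv, hvu⟩ := Subgroup.mem_map.mp hu
      have hvu' : v = u := Subtype.ext hvu
      rwa [← hvu']
    obtain ⟨t, htP, htQ, htN⟩ := Lead.exists_mem_normalizer_not_mem P.2 hlt
    have hQc : IsMulCommutative (Q.map (P : Subgroup G).subtype) := by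
      by_contra hc
      have h := hS _ hc
      rw [h] at htN
      exact htQ htN
    have h := hQc.is_comm.comm ⟨(x : G), Subgroup.mem_map_of_mem _ hx⟩
      ⟨(y : G), Subgroup.mem_map_of_mem _ hy⟩
    have h' : (x : G) * (y : G) = (y : G) * (x : G) := congrArg Subtype.val h
    exact Subtype.ext h'
  obtain ⟨c, hcZ, hcp, hcomm⟩ := mna_struct P.2 hmin a b hab'
  have hzc : (⟨z, hzP'⟩ : (P : Subgroup G)) ∈ Subgroup.zpowers c := by
    have hle : commutator (P : Subgroup G) ≤ Subgroup.zpowers c := by
      rw [commutator_eq_closure, Subgroup.closure_le]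
      rintro _ ⟨u, v, rfl⟩
      rw [commutatorElement_def]; exact hcomm u v
    exact hle hzcomm
  have hc1 : c ≠ 1 := by
    intro h
    rw [h, Subgroup.zpowers_one_eq_bot, Subgroup.mem_bot] at hzc
    exact hz1 (congrArg Subtype.val hzc)
  have hcord : orderOf c = p := orderOf_eq_prime hcp hc1
  have hzord' : orderOf (⟨z, hzP'⟩ : (P : Subgroup G)) = p := by
    exact (Subgroup.orderOf_mk z hzP').trans hzord
  have hcz : c ∈ Subgroup.zpowers (⟨z, hzP'⟩ : (P : Subgroup G)) := by
    have hle : Subgroup.zpowers (⟨z, hzP'⟩ : (P : Subgroup G)) ≤ Subgroup.zpowers c :=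
      (Subgroup.zpowers_le).mpr hzc
    have heq : Subgroup.zpowers (⟨z, hzP'⟩ : (P : Subgroup G)) = Subgroup.zpowers c := by
      apply Subgroup.eq_of_le_of_card_ge hle
      rw [Nat.card_zpowers, Nat.card_zpowers, hcord, hzord']
    rw [heq]; exact Subgroup.mem_zpowers c
  have hcG : (c : G) ∈ Subgroup.center G := by
    obtain ⟨i, hi⟩ := Subgroup.mem_zpowers_iff.mp hcz
    have h : (c : G) = z ^ i := by rw [← hi]; simp
    rw [h]; exact Subgroup.zpow_mem _ hzZ i
  have hPcomm : ∀ u ∈ (P : Subgroup G), ∀ v ∈ (P : Subgroup G),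
      u * v * u⁻¹ * v⁻¹ ∈ Subgroup.center G := by
    intro u hu v hv
    obtain ⟨i, hi⟩ := Subgroup.mem_zpowers_iff.mp (hcomm ⟨u, hu⟩ ⟨v, hv⟩)
    have h : u * v * u⁻¹ * v⁻¹ = (c : G) ^ i := by
      have h' := congrArg Subtype.val hi
      simpa using h'.symm
    rw [h]; exact Subgroup.zpow_mem _ hcG i
  -- pass to G ⧸ Z(G)
  have hperfQ : commutator (G ⧸ Subgroup.center G) = ⊤ := perfect_quot hperf _
  obtain ⟨Pb, hPb⟩ : ∃ Pb : Sylow p (G ⧸ Subgroup.center G),
      (Pb : Subgroup (G ⧸ Subgroup.center G)) =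
        (P : Subgroup G).map (QuotientGroup.mk' (Subgroup.center G)) :=
    ⟨P.mapSurjective (QuotientGroup.mk'_surjective (Subgroup.center G)), rfl⟩
  have hPbcomm : ∀ u ∈ (Pb : Subgroup (G ⧸ Subgroup.center G)),
      ∀ v ∈ (Pb : Subgroup (G ⧸ Subgroup.center G)), u * v = v * u := by
    intro u hu v hv
    rw [hPb] at hu hv
    obtain ⟨u', hu', rfl⟩ := Subgroup.mem_map.mp hu
    obtain ⟨v', hv', rfl⟩ := Subgroup.mem_map.mp hv
    have h1 := hPcomm u' hu' v' hv'
    have h2 : QuotientGroup.mk' (Subgroup.center G) (u' * v' * u'⁻¹ * v'⁻¹) = 1 :=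
      (QuotientGroup.eq_one_iff _).mpr h1
    rw [map_mul, map_mul, map_mul, map_inv, map_inv] at h2
    calc QuotientGroup.mk' (Subgroup.center G) u' * QuotientGroup.mk' (Subgroup.center G) v'
        = (QuotientGroup.mk' (Subgroup.center G) u' * QuotientGroup.mk' (Subgroup.center G) v' *
          (QuotientGroup.mk' (Subgroup.center G) u')⁻¹ *
          (QuotientGroup.mk' (Subgroup.center G) v')⁻¹) *
          (QuotientGroup.mk' (Subgroup.center G) v' *
            QuotientGroup.mk' (Subgroup.center G) u') := by group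
      _ = _ := by rw [h2, one_mul]
  obtain ⟨H, hH⟩ : ∃ H : Subgroup G,
      H = (Pb : Subgroup (G ⧸ Subgroup.center G)).comap
        (QuotientGroup.mk' (Subgroup.center G)) := ⟨_, rfl⟩
  have hPH : (P : Subgroup G) ≤ H := by
    intro u hu
    rw [hH, Subgroup.mem_comap, hPb]
    exact Subgroup.mem_map_of_mem _ hu
  have hHnc : ¬ IsMulCommutative H := by
    intro hc'
    apply hab'
    have h := hc'.is_comm.comm ⟨(a : G), hPH a.2⟩ ⟨(b : G), hPH b.2⟩
    have h' : (a : G) * (b : G) = (b : G) * (a : G) := congrArg Subtype.val h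
    exact Subtype.ext h'
  have hHself := hS H hHnc
  have hPnc : Subgroup.normalizer (Pb : Set (G ⧸ Subgroup.center G)) ≤
      Subgroup.centralizer (Pb : Set (G ⧸ Subgroup.center G)) := by
    intro gb hgb
    obtain ⟨g, rfl⟩ := QuotientGroup.mk_surjective gb
    have hg : g ∈ Subgroup.normalizer (H : Set G) := by
      rw [Subgroup.mem_normalizer_iff]
      intro h
      rw [hH, Subgroup.mem_comap, Subgroup.mem_comap, map_mul, map_mul, map_inv]
      exact (Subgroup.mem_set_normalizer_iff.mp hgb) _
    rw [hHself, hH, Subgroup.mem_comap] at hg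
    rw [Subgroup.mem_centralizer_iff]
    intro h hh
    exact hPbcomm h hh _ hg
  have hbot := perfect_sylow_burnside hperfQ Pb hPnc
  apply hab'
  have ha : (a : G) ∈ Subgroup.center G := by
    have h : QuotientGroup.mk' (Subgroup.center G) (a : G) ∈
        (Pb : Subgroup (G ⧸ Subgroup.center G)) := by
      rw [hPb]; exact Subgroup.mem_map_of_mem _ a.2
    rw [hbot, Subgroup.mem_bot] at h
    exact (QuotientGroup.eq_one_iff _).mp h
  apply Subtype.ext
  exact ((Subgroup.mem_center_iff.mp ha) (b : G)).symm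

end Cfsg.Agent.Helper21
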