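import Mathlib
import Cfsg.Agent.Helper16.DihedralLift

set_option autoImplicit false
set_option linter.style.haveILetI false

/-! Tools for the Thompson dihedral lemma. -/

namespace Cfsg.Agent.Helper21

universe u

/-- Two elements `a` (an involution) and `y` (of odd order `r ≥ 3`) with `a` inverting `y`
generate a dihedral group of order `2r`. -/
theorem dihedral_iso {G : Type*} [Group G] (a y : G) (r : ℕ) (hr3 : 3 ≤ r) (hrodd : Odd r)
    (hy : orderOf y = r) (ha : a * a = 1) (ha1 : a ≠ 1) (hay : a * y * a⁻¹ = y⁻¹) :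
    Nonempty (↥(Subgroup.zpowers a ⊔ Subgroup.zpowers y) ≃* DihedralGroup r) := by
  haveI : NeZero r := ⟨by omega⟩
  haveI : Fact (1 < r) := ⟨by omega⟩
  have hyr : y ^ r = 1 := by rw [← hy]; exact pow_orderOf_eq_one y
  obtain ⟨φ, hφr, hφs⟩ : ∃ φ : DihedralGroup r →* G,
      (∀ i : ZMod r, φ (DihedralGroup.r i) = y ^ i.val) ∧
      (∀ i : ZMod r, φ (DihedralGroup.sr i) = a * y ^ i.val) :=
    ⟨Helper16.dLift hyr ha hay, fun i => rfl, fun i => rfl⟩
  have hinj : Function.Injective φ := by
    rw [injective_iff_map_eq_one]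
    intro x hx
    rcases x with i | i
    · rw [hφr] at hx
      have h1 := orderOf_dvd_of_pow_eq_one hx
      rw [hy] at h1
      have h2 : i.val < r := ZMod.val_lt i
      have h3 : i.val = 0 := Nat.eq_zero_of_dvd_of_lt h1 h2
      have h4 : i = 0 := (ZMod.val_eq_zero i).mp h3
      rw [h4]
      rfl
    · exfalso
      rw [hφs] at hx
      have h1 : a = (y ^ i.val)⁻¹ := eq_inv_of_mul_eq_one_left hx
      have h2 : a ^ r = 1 := by
        rw [h1, inv_pow, ← pow_mul, mul_comm, pow_mul, hyr, one_pow, inv_one]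
      have h3 : orderOf a = 2 := orderOf_eq_prime (by rw [pow_two]; exact ha) ha1
      have h4 := orderOf_dvd_of_pow_eq_one h2
      rw [h3] at h4
      obtain ⟨k, hk⟩ := hrodd
      omega
  have hrange : φ.range = Subgroup.zpowers a ⊔ Subgroup.zpowers y := by
    apply le_antisymm
    · rintro _ ⟨x, rfl⟩
      rcases x with i | i
      · rw [hφr]
        exact Subgroup.mem_sup_right (pow_mem (Subgroup.mem_zpowers y) _)
      · rw [hφs]
        exact mul_mem (Subgroup.mem_sup_left (Subgroup.mem_zpowers a))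
          (Subgroup.mem_sup_right (pow_mem (Subgroup.mem_zpowers y) _))
    · refine sup_le ?_ ?_
      · rw [Subgroup.zpowers_le]
        exact ⟨DihedralGroup.sr 0, by rw [hφs, ZMod.val_zero, pow_zero, mul_one]⟩
      · rw [Subgroup.zpowers_le]
        exact ⟨DihedralGroup.r 1, by rw [hφr, ZMod.val_one, pow_one]⟩
  exact ⟨((MonoidHom.ofInjective hinj).trans (MulEquiv.subgroupCongr hrange)).symm⟩

/-- If the generators commute, so do the generated subgroups. -/
theorem comm_of_gens {G : Type*} [Group G] (S T : Set G)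
    (h : ∀ s ∈ S, ∀ t ∈ T, s * t = t * s) :
    ∀ x ∈ Subgroup.closure S, ∀ y ∈ Subgroup.closure T, x * y = y * x := by
  have h1 : Subgroup.closure S ≤ Subgroup.centralizer T := by
    rw [Subgroup.closure_le]
    intro s hs
    rw [SetLike.mem_coe, Subgroup.mem_centralizer_iff]
    intro t ht
    exact (h s hs t ht).symm
  have h2 : Subgroup.closure T ≤ Subgroup.centralizer (Subgroup.closure S : Set G) := by
    rw [Subgroup.closure_le]
    intro t ht
    rw [SetLike.mem_coe, Subgroup.mem_centralizer_iff]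
    intro x hx
    exact (Subgroup.mem_centralizer_iff.mp (h1 hx) t ht).symm
  intro x hx y hy
  exact (Subgroup.mem_centralizer_iff.mp (h2 hy) x hx)

/-- An elementary abelian `2`-group of order `2^n` acting faithfully on a product of `n`
normalized subgroups of prime order has a basis of involutions each inverting exactly one
factor. -/
theorem inv_basis {S : Type*} [Group S] [Finite S] (I : Subgroup S)
    (hI2 : ∀ g ∈ I, g * g = 1) (n : ℕ)
    (hIn : Nat.card I = 2 ^ n) (f : Fin n → Subgroup S) (hfp : ∀ i, (Nat.card (f i)).Prime)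
    (hfN : ∀ i, I ≤ Subgroup.normalizer (f i : Set S))
    (hcent : I ⊓ Subgroup.centralizer ((⨆ i, f i : Subgroup S) : Set S) = ⊥) :
    ∃ (y : Fin n → S) (a : Fin n → S), (∀ i, f i = Subgroup.zpowers (y i)) ∧
      (∀ i, a i ∈ I) ∧ (∀ i, a i ≠ 1) ∧ (∀ i, a i * y i * (a i)⁻¹ = (y i)⁻¹) ∧
      (∀ i j, i ≠ j → a i * y j * (a i)⁻¹ = y j) ∧
      (∀ g ∈ I, g ∈ ⨆ i, Subgroup.zpowers (a i)) := by
  classical
  have hgen : ∀ i, ∃ y, y ≠ 1 ∧ f i = Subgroup.zpowers y := by
    intro i
    have h1 : 1 < Nat.card (f i) := (hfp i).one_lt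
    haveI : Nontrivial (f i) := Finite.one_lt_card_iff_nontrivial.mp h1
    obtain ⟨y, hy⟩ := exists_ne (1 : f i)
    refine ⟨(y : S), fun h => hy (Subtype.ext h), ?_⟩
    symm
    have hle : Subgroup.zpowers (y : S) ≤ f i := by rw [Subgroup.zpowers_le]; exact y.2
    apply Subgroup.eq_of_le_of_card_ge hle
    have h2 : Nat.card (Subgroup.zpowers (y : S)) ∣ Nat.card (f i) := Subgroup.card_dvd_of_le hle
    rcases (Nat.dvd_prime (hfp i)).mp h2 with h | h
    · exfalso
      rw [Subgroup.card_eq_one, Subgroup.zpowers_eq_bot] at h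
      exact hy (Subtype.ext h)
    · rw [h]
  choose y hy1 hfy using hgen
  have hdich : ∀ g ∈ I, ∀ i, g * y i * g⁻¹ = y i ∨ g * y i * g⁻¹ = (y i)⁻¹ := by
    intro g hg i
    have hginv : g⁻¹ = g := inv_eq_of_mul_eq_one_right (hI2 g hg)
    have hz : g * y i * g⁻¹ ∈ Subgroup.zpowers (y i) := by
      rw [← hfy i]
      exact (Subgroup.mem_normalizer_iff.mp (hfN i hg) (y i)).mp
        (by rw [hfy i]; exact Subgroup.mem_zpowers _)
    obtain ⟨k, hk⟩ := hz
    have hk' : y i ^ k = g * y i * g⁻¹ := hk
    by_cases hu : y i * (g * y i * g⁻¹) = 1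
    · right
      exact eq_inv_of_mul_eq_one_right hu
    · left
      have huf : y i * (g * y i * g⁻¹) ∈ f i := by
        rw [hfy i, ← hk']
        exact mul_mem (Subgroup.mem_zpowers _) (zpow_mem (Subgroup.mem_zpowers _) k)
      have hgu : g * (y i * (g * y i * g⁻¹)) * g⁻¹ = y i * (g * y i * g⁻¹) := by
        have h1 : g * (g * y i * g⁻¹) * g⁻¹ = y i := by
          rw [hginv]
          calc g * (g * y i * g) * g = (g * g) * y i * (g * g) := by group
            _ = y i := by rw [hI2 g hg, one_mul, mul_one]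
        have h2 : g * (y i * (g * y i * g⁻¹)) * g⁻¹ =
            (g * y i * g⁻¹) * (g * (g * y i * g⁻¹) * g⁻¹) := by group
        rw [h2, h1, ← hk']
        exact ((Commute.refl (y i)).zpow_left k).eq
      have hle : Subgroup.zpowers (y i * (g * y i * g⁻¹)) ≤ f i := by
        rw [Subgroup.zpowers_le]; exact huf
      have hzu : Subgroup.zpowers (y i * (g * y i * g⁻¹)) = f i := by
        apply Subgroup.eq_of_le_of_card_ge hle
        have h2 := Subgroup.card_dvd_of_le hle
        rcases (Nat.dvd_prime (hfp i)).mp h2 with h | h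
        · exfalso
          rw [Subgroup.card_eq_one, Subgroup.zpowers_eq_bot] at h
          exact hu h
        · rw [h]
      have hyu : y i ∈ Subgroup.zpowers (y i * (g * y i * g⁻¹)) := by
        rw [hzu, hfy i]; exact Subgroup.mem_zpowers _
      obtain ⟨m, hm⟩ := hyu
      have hm' : (y i * (g * y i * g⁻¹)) ^ m = y i := hm
      calc g * y i * g⁻¹ = g * (y i * (g * y i * g⁻¹)) ^ m * g⁻¹ := by rw [hm']
        _ = (g * (y i * (g * y i * g⁻¹)) * g⁻¹) ^ m := by rw [conj_zpow]
        _ = y i := by rw [hgu, hm']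
  -- an element fixing all the generators is trivial
  have hfix1 : ∀ g ∈ I, (∀ i, g * y i * g⁻¹ = y i) → g = 1 := by
    intro g hg hfix
    have h1 : (⨆ i, f i : Subgroup S) ≤ Subgroup.centralizer {g} := by
      refine iSup_le (fun i => ?_)
      rw [hfy i, Subgroup.zpowers_le, Subgroup.mem_centralizer_iff]
      intro h hh
      rw [Set.mem_singleton_iff] at hh
      rw [hh]
      have := hfix i
      calc g * y i = (g * y i * g⁻¹) * g := by group
        _ = y i * g := by rw [this]
    have h2 : g ∈ I ⊓ Subgroup.centralizer ((⨆ i, f i : Subgroup S) : Set S) := by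
      refine Subgroup.mem_inf.mpr ⟨hg, ?_⟩
      rw [Subgroup.mem_centralizer_iff]
      intro x hx
      exact (Subgroup.mem_centralizer_iff.mp (h1 hx) g rfl).symm
    rw [hcent, Subgroup.mem_bot] at h2
    exact h2
  -- products
  have hmulfix : ∀ g ∈ I, ∀ h ∈ I, ∀ i,
      (g * y i * g⁻¹ = y i ↔ h * y i * h⁻¹ = y i) → (g * h) * y i * (g * h)⁻¹ = y i := by
    intro g hg h hh i hiff
    have e : (g * h) * y i * (g * h)⁻¹ = g * (h * y i * h⁻¹) * g⁻¹ := by group
    rw [e]
    by_cases hgf : g * y i * g⁻¹ = y i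
    · rw [hiff.mp hgf, hgf]
    · have hhf : ¬ h * y i * h⁻¹ = y i := fun h' => hgf (hiff.mpr h')
      have h1 := (hdich g hg i).resolve_left hgf
      have h2 := (hdich h hh i).resolve_left hhf
      rw [h2]
      have : g * (y i)⁻¹ * g⁻¹ = (g * y i * g⁻¹)⁻¹ := by group
      rw [this, h1, inv_inv]
  have hinj : Function.Injective
      (fun g : I => fun i : Fin n => decide ((g : S) * y i * (g : S)⁻¹ = y i)) := by
    intro g h hgh
    have h1 : ∀ i, ((g : S) * y i * (g : S)⁻¹ = y i ↔ (h : S) * y i * (h : S)⁻¹ = y i) := by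
      intro i
      have := congrFun hgh i
      simpa using this
    have h2 := hfix1 _ (mul_mem g.2 h.2) (fun i => hmulfix _ g.2 _ h.2 i (h1 i))
    have h3 : (h : S)⁻¹ = h := inv_eq_of_mul_eq_one_right (hI2 _ h.2)
    apply Subtype.ext
    rw [← h3]
    exact eq_inv_of_mul_eq_one_left h2
  have hbij := hinj.bijective_of_nat_card_le (by
    rw [hIn, Nat.card_eq_fintype_card]
    simp)
  have hsurj := hbij.2
  have hex : ∀ i : Fin n, ∃ a : I, ∀ j, ((a : S) * y j * (a : S)⁻¹ = y j ↔ j ≠ i) := by
    intro i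
    obtain ⟨a, ha⟩ := hsurj (fun j => decide (j ≠ i))
    refine ⟨a, fun j => ?_⟩
    exact decide_eq_decide.mp (congrFun ha j)
  choose a ha using hex
  have hai : ∀ i, (a i : S) * y i * (a i : S)⁻¹ = (y i)⁻¹ := by
    intro i
    have h1 : ¬ (a i : S) * y i * (a i : S)⁻¹ = y i := fun h => ((ha i i).mp h) rfl
    exact (hdich _ (a i).2 i).resolve_left h1
  refine ⟨y, fun i => (a i : S), hfy, fun i => (a i).2, ?_, hai, ?_, ?_⟩
  · intro i h
    have h1 : ¬ (a i : S) * y i * (a i : S)⁻¹ = y i := fun h => ((ha i i).mp h) rfl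
    apply h1
    have h' : (a i : S) = 1 := h
    rw [h']
    group
  · intro i j hij
    exact (ha i j).mpr (Ne.symm hij)
  · have key : ∀ J : Finset (Fin n), ∀ g ∈ I, (∀ i, i ∉ J → g * y i * g⁻¹ = y i) →
        g ∈ ⨆ i, Subgroup.zpowers (a i : S) := by
      intro J
      induction J using Finset.induction_on with
      | empty =>
        intro g hg hfix
        rw [hfix1 g hg (fun i => hfix i (Finset.notMem_empty i))]
        exact one_mem _
      | insert i J hiJ ih =>
        intro g hg hfix
        by_cases hgi : g * y i * g⁻¹ = y i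
        · apply ih g hg
          intro j hj
          by_cases hji : j = i
          · rw [hji]; exact hgi
          · exact hfix j (by rw [Finset.mem_insert]; push Not; exact ⟨hji, hj⟩)
        · have hmem : g * (a i : S) ∈ ⨆ i, Subgroup.zpowers (a i : S) := by
            apply ih _ (mul_mem hg (a i).2)
            intro j hj
            apply hmulfix g hg _ (a i).2 j
            by_cases hji : j = i
            · rw [hji]
              constructor
              · intro h; exact absurd h hgi
              · intro h; exact absurd rfl ((ha i i).mp h)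
            · have h1 := hfix j (by rw [Finset.mem_insert]; push Not; exact ⟨hji, hj⟩)
              have h2 := (ha i j).mpr hji
              exact ⟨fun _ => h2, fun _ => h1⟩
          have hai_mem : (a i : S) ∈ ⨆ i, Subgroup.zpowers (a i : S) :=
            Subgroup.mem_iSup_of_mem i (Subgroup.mem_zpowers _)
          have : g = g * (a i : S) * (a i : S)⁻¹ := by group
          rw [this]
          exact mul_mem hmem (inv_mem hai_mem)
    intro g hg
    exact key Finset.univ g hg (fun i hi => absurd (Finset.mem_univ i) hi)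

end Cfsg.Agent.Helper21
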